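import Mathlib
import Cfsg.Agent.Lib.OrthoSiegel

/-!
# Odd-order groups of isometries normalised by the Siegel transformations

Over a finite field of odd characteristic, in a non-degenerate quadratic space of odd dimension at least three, a subgroup
of odd order of the orthogonal group normalised by the Siegel transformations is trivial. The argument is a parity count on
the singular lines.
-/

set_option autoImplicit false
set_option linter.unusedSectionVars false
set_option linter.unusedVariables false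
set_option linter.unusedSimpArgs false
set_option linter.style.haveILetI false

namespace Cfsg.Agent.Lib.BalMinus

open QuadraticMap Cfsg.Agent.Lib.OrthoBasic Cfsg.Agent.Lib.OrthoSiegel Module

variable {k W : Type*} [Field k] [AddCommGroup W] [Module k W] {Q : QuadraticForm k W}

/-! ### Vector level computations -/

section vectors

lemma polar_perp_of_nondeg (hQ : Nondeg Q) {u v : W} (h : ∀ y, polar Q v y = polar Q u y) : v = u := by
  by_contra hne
  obtain ⟨y, hy⟩ := hQ (v - u) (sub_ne_zero.2 hne)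
  apply hy
  rw [polar_sub_left, h, sub_self]

/-- A singular partner. -/
lemma exists_singular_partner (hQ : Nondeg Q) {u : W} (hu : Q u = 0) (hu0 : u ≠ 0) :
    ∃ v, Q v = 0 ∧ polar Q u v = 1 := by
  obtain ⟨y, hy⟩ := hQ u hu0
  obtain ⟨y₁, h1⟩ : ∃ y₁, polar Q u y₁ = 1 :=
    ⟨(polar Q u y)⁻¹ • y, by rw [polar_smul_r, inv_mul_cancel₀ hy]⟩
  refine ⟨y₁ - Q y₁ • u, ?_, ?_⟩
  · rw [Q_sub, Q_smul, hu, polar_smul_r, polar_comm, h1]
    ring
  · rw [polar_sub_right, polar_smul_r, polar_self_zero hu, h1]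
    ring

/-- A vector not orthogonal to two given nonzero vectors. -/
lemma exists_not_perp_two (hQ : Nondeg Q) {u u' : W} (hu0 : u ≠ 0) (hu'0 : u' ≠ 0) :
    ∃ x, polar Q u x ≠ 0 ∧ polar Q u' x ≠ 0 := by
  obtain ⟨x1, hx1⟩ := hQ u hu0
  obtain ⟨x2, hx2⟩ := hQ u' hu'0
  by_cases h1 : polar Q u' x1 = 0
  · by_cases h2 : polar Q u x2 = 0
    · refine ⟨x1 + x2, ?_, ?_⟩
      · rw [polar_add_right, h2, add_zero]
        exact hx1
      · rw [polar_add_right, h1, zero_add]
        exact hx2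
    · exact ⟨x2, h2, hx2⟩
  · exact ⟨x1, hx1, h1⟩

/-- A functional vanishing on one vector and not the other. -/
lemma exists_perp_not_perp (hQ : Nondeg Q) {u u' : W} (hu0 : u ≠ 0) (h : ∀ c : k, u' ≠ c • u) :
    ∃ y, polar Q u y = 0 ∧ polar Q u' y = 1 := by
  obtain ⟨y₀, hy₀⟩ := hQ u hu0
  obtain ⟨y₁, h1⟩ : ∃ y₁, polar Q u y₁ = 1 :=
    ⟨(polar Q u y₀)⁻¹ • y₀, by rw [polar_smul_r, inv_mul_cancel₀ hy₀]⟩
  have h2 : u' - polar Q u' y₁ • u ≠ 0 := sub_ne_zero.2 (h _)
  obtain ⟨y₂, hy₂⟩ := hQ _ h2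
  rw [polar_sub_left, polar_smul_l] at hy₂
  set y₃ := y₂ - polar Q u y₂ • y₁ with hy₃
  have h3 : polar Q u y₃ = 0 := by
    rw [hy₃, polar_sub_right, polar_smul_r, h1]
    ring
  have h4 : polar Q u' y₃ ≠ 0 := by
    rw [hy₃, polar_sub_right, polar_smul_r]
    intro h5
    apply hy₂
    linear_combination h5
  refine ⟨(polar Q u' y₃)⁻¹ • y₃, ?_, ?_⟩
  · rw [polar_smul_r, h3, mul_zero]
  · rw [polar_smul_r, inv_mul_cancel₀ h4]

/-- A nonsingular vector from two vectors with non-zero pairing. -/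
lemma nonsingular_of_pairing {z z' : W} (h : polar Q z z' ≠ 0) : Q z ≠ 0 ∨ Q z' ≠ 0 ∨ Q (z + z') ≠ 0 := by
  by_contra hall
  push Not at hall
  obtain ⟨h1, h2, h3⟩ := hall
  apply h
  rw [Q_add, h1, h2] at h3
  simpa using h3

/-- The projection to the complement of a hyperbolic pair. -/
def pr1 (Q : QuadraticForm k W) (u v y : W) : W := y - polar Q y v • u - polar Q y u • v

lemma pr1_perp_left {u v : W} (hu : Q u = 0) (hv : Q v = 0) (huv : polar Q u v = 1) (y : W) :
    polar Q (pr1 Q u v y) u = 0 := by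
  unfold pr1
  rw [polar_sub_left, polar_sub_left, polar_smul_l, polar_smul_l, polar_self_zero hu, polar_comm Q v u, huv]
  ring

lemma pr1_perp_right {u v : W} (hu : Q u = 0) (hv : Q v = 0) (huv : polar Q u v = 1) (y : W) :
    polar Q (pr1 Q u v y) v = 0 := by
  unfold pr1
  rw [polar_sub_left, polar_sub_left, polar_smul_l, polar_smul_l, polar_self_zero hv, huv]
  ring

lemma pr1_of_perp {u v z : W} (h1 : polar Q z u = 0) (h2 : polar Q z v = 0) (y : W) :
    polar Q z (pr1 Q u v y) = polar Q z y := by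
  unfold pr1
  rw [polar_sub_right, polar_sub_right, polar_smul_r, polar_smul_r, h1, h2]
  ring

/-- A nonsingular vector in a subspace with a projection. -/
lemma exists_nonsingular_of_proj (hQ : Nondeg Q) (p : W → W) (P : W → Prop) (hP : ∀ y, P (p y))
    (hadd : ∀ z z', P z → P z' → P (z + z')) (hself : ∀ z, P z → ∀ y, polar Q z (p y) = polar Q z y)
    (hne : ∃ y, p y ≠ 0) : ∃ z, P z ∧ Q z ≠ 0 := by
  obtain ⟨y, hy⟩ := hne
  obtain ⟨y', hy'⟩ := hQ _ hy
  have h3 : polar Q (p y) (p y') ≠ 0 := by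
    rw [hself _ (hP y)]
    exact hy'
  rcases nonsingular_of_pairing h3 with h | h | h
  · exact ⟨_, hP y, h⟩
  · exact ⟨_, hP y', h⟩
  · exact ⟨_, hadd _ _ (hP y) (hP y'), h⟩

end vectors

section fd

/-- The dimension of a hyperbolic plane. -/
lemma finrank_of_pr1_zero {u v : W} (hu : Q u = 0) (hv : Q v = 0) (huv : polar Q u v = 1)
    (h : ∀ y, pr1 Q u v y = 0) : finrank k W = 2 := by
  have hvu : polar Q v u = 1 := by rw [polar_comm]; exact huv
  let e : W ≃ₗ[k] (Fin 2 → k) :=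
    { toFun := fun y => ![polar Q y v, polar Q y u]
      map_add' := fun x y => by
        ext i
        fin_cases i <;> simp [polar_add_left]
      map_smul' := fun c x => by
        ext i
        fin_cases i <;> simp [polar_smul_l]
      invFun := fun a => a 0 • u + a 1 • v
      left_inv := fun y => by
        have h2 := h y
        unfold pr1 at h2
        rw [sub_sub, sub_eq_zero] at h2
        simpa using h2.symm
      right_inv := fun a => by
        ext i
        fin_cases i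
        · simp [polar_add_left, polar_smul_l, huv, polar_self_zero hv]
        · simp [polar_add_left, polar_smul_l, hvu, polar_self_zero hu] }
  rw [e.finrank_eq]
  simp

/-- The dimension of two orthogonal hyperbolic planes. -/
lemma finrank_of_two_pr1_zero {u v u' v' : W} (hu : Q u = 0) (hv : Q v = 0) (huv : polar Q u v = 1)
    (hu' : Q u' = 0) (hv' : Q v' = 0) (huv' : polar Q u' v' = 1)
    (h1 : polar Q u u' = 0) (h2 : polar Q u v' = 0) (h3 : polar Q v u' = 0) (h4 : polar Q v v' = 0)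
    (h : ∀ y, pr1 Q u v (pr1 Q u' v' y) = 0) : finrank k W = 4 := by
  have hvu : polar Q v u = 1 := by rw [polar_comm]; exact huv
  have hvu' : polar Q v' u' = 1 := by rw [polar_comm]; exact huv'
  have h1' : polar Q u' u = 0 := by rw [polar_comm]; exact h1
  have h2' : polar Q v' u = 0 := by rw [polar_comm]; exact h2
  have h3' : polar Q u' v = 0 := by rw [polar_comm]; exact h3
  have h4' : polar Q v' v = 0 := by rw [polar_comm]; exact h4
  let e : W ≃ₗ[k] (Fin 4 → k) :=
    { toFun := fun y => ![polar Q y v, polar Q y u, polar Q y v', polar Q y u']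
      map_add' := fun x y => by
        ext i
        fin_cases i <;> simp [polar_add_left]
      map_smul' := fun c x => by
        ext i
        fin_cases i <;> simp [polar_smul_l]
      invFun := fun a => a 0 • u + a 1 • v + a 2 • u' + a 3 • v'
      left_inv := fun y => by
        have h5 := h y
        unfold pr1 at h5
        simp only [polar_sub_left, polar_smul_l, h3', h4', h1', h2', mul_zero, sub_zero] at h5
        have h6 : y = polar Q y v • u + polar Q y u • v + polar Q y v' • u' + polar Q y u' • v' := by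
          linear_combination (norm := module) h5
        simpa using h6.symm
      right_inv := fun a => by
        ext i
        fin_cases i
        · simp [polar_add_left, polar_smul_l, huv, polar_self_zero hv, h3', h4']
        · simp [polar_add_left, polar_smul_l, hvu, polar_self_zero hu, h1', h2']
        · simp [polar_add_left, polar_smul_l, huv', polar_self_zero hv', h2, h4]
        · simp [polar_add_left, polar_smul_l, hvu', polar_self_zero hu', h1, h3] }
  rw [e.finrank_eq]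
  simp

/-- A nonsingular vector orthogonal to a hyperbolic pair. -/
lemma exists_nonsingular_perp (hQ : Nondeg Q) {u v : W} (hu : Q u = 0) (hv : Q v = 0) (huv : polar Q u v = 1)
    (hdim : finrank k W ≠ 2) : ∃ z, polar Q z u = 0 ∧ polar Q z v = 0 ∧ Q z ≠ 0 := by
  have hne : ∃ y, pr1 Q u v y ≠ 0 := by
    by_contra hall
    push Not at hall
    exact hdim (finrank_of_pr1_zero hu hv huv hall)
  obtain ⟨z, hz, hQz⟩ := exists_nonsingular_of_proj hQ (pr1 Q u v) (fun z => polar Q z u = 0 ∧ polar Q z v = 0)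
    (fun y => ⟨pr1_perp_left hu hv huv y, pr1_perp_right hu hv huv y⟩)
    (fun z z' h h' => ⟨by rw [polar_add_left, h.1, h'.1, add_zero], by rw [polar_add_left, h.2, h'.2, add_zero]⟩)
    (fun z h y => pr1_of_perp h.1 h.2 y) hne
  exact ⟨z, hz.1, hz.2, hQz⟩

/-- A nonsingular vector orthogonal to two orthogonal hyperbolic pairs. -/
lemma exists_nonsingular_perp_two (hQ : Nondeg Q) {u v u' v' : W} (hu : Q u = 0) (hv : Q v = 0) (huv : polar Q u v = 1)
    (hu' : Q u' = 0) (hv' : Q v' = 0) (huv' : polar Q u' v' = 1)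
    (h1 : polar Q u u' = 0) (h2 : polar Q u v' = 0) (h3 : polar Q v u' = 0) (h4 : polar Q v v' = 0)
    (hdim : finrank k W ≠ 4) :
    ∃ z, polar Q z u = 0 ∧ polar Q z v = 0 ∧ polar Q z u' = 0 ∧ polar Q z v' = 0 ∧ Q z ≠ 0 := by
  have hne : ∃ y, pr1 Q u v (pr1 Q u' v' y) ≠ 0 := by
    by_contra hall
    push Not at hall
    exact hdim (finrank_of_two_pr1_zero hu hv huv hu' hv' huv' h1 h2 h3 h4 hall)
  have hp : ∀ y, polar Q (pr1 Q u v (pr1 Q u' v' y)) u' = 0 ∧ polar Q (pr1 Q u v (pr1 Q u' v' y)) v' = 0 := by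
    intro y
    have e1 := pr1_perp_left hu' hv' huv' y
    have e2 := pr1_perp_right hu' hv' huv' y
    constructor
    · conv_lhs => unfold pr1
      rw [polar_sub_left, polar_sub_left, polar_smul_l, polar_smul_l]
      have e3 : polar Q (y - polar Q y v' • u' - polar Q y u' • v') u' = 0 := e1
      rw [e3, h1, h3]
      ring
    · conv_lhs => unfold pr1
      rw [polar_sub_left, polar_sub_left, polar_smul_l, polar_smul_l]
      have e3 : polar Q (y - polar Q y v' • u' - polar Q y u' • v') v' = 0 := e2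
      rw [e3, h2, h4]
      ring
  obtain ⟨z, hz, hQz⟩ := exists_nonsingular_of_proj hQ (fun y => pr1 Q u v (pr1 Q u' v' y))
    (fun z => polar Q z u = 0 ∧ polar Q z v = 0 ∧ polar Q z u' = 0 ∧ polar Q z v' = 0)
    (fun y => ⟨pr1_perp_left hu hv huv _, pr1_perp_right hu hv huv _, (hp y).1, (hp y).2⟩)
    (fun z z' h h' => ⟨by rw [polar_add_left, h.1, h'.1, add_zero], by rw [polar_add_left, h.2.1, h'.2.1, add_zero],
      by rw [polar_add_left, h.2.2.1, h'.2.2.1, add_zero], by rw [polar_add_left, h.2.2.2, h'.2.2.2, add_zero]⟩)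
    (fun z h y => by
      rw [pr1_of_perp h.1 h.2.1, pr1_of_perp h.2.2.1 h.2.2.2]) hne
  exact ⟨z, hz.1, hz.2.1, hz.2.2.1, hz.2.2.2, hQz⟩

end fd

/-! ### The orbit relation -/

section rel

variable {T : Subgroup (OG Q)} {u u' u'' : W}

/-- Two vectors span lines in the same orbit. -/
def Rel (T : Subgroup (OG Q)) (u u' : W) : Prop :=
  ∃ t ∈ T, ∃ c : k, c ≠ 0 ∧ ((t : OG Q) : W ≃ₗ[k] W) u = c • u'

lemma ogInv_apply (t : OG Q) (x : W) : ((t⁻¹ : OG Q) : W ≃ₗ[k] W) ((t : W ≃ₗ[k] W) x) = x := by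
  have h : ((t⁻¹ * t : OG Q) : W ≃ₗ[k] W) x = x := by
    rw [inv_mul_cancel]
    rfl
  exact h

lemma og_apply_inv (t : OG Q) (x : W) : (t : W ≃ₗ[k] W) (((t⁻¹ : OG Q) : W ≃ₗ[k] W) x) = x := by
  have h : ((t * t⁻¹ : OG Q) : W ≃ₗ[k] W) x = x := by
    rw [mul_inv_cancel]
    rfl
  exact h

lemma og_mul_apply (a b : OG Q) (x : W) :
    ((a * b : OG Q) : W ≃ₗ[k] W) x = (a : W ≃ₗ[k] W) ((b : W ≃ₗ[k] W) x) := rfl

lemma Rel.symm (h : Rel T u u') : Rel T u' u := by
  obtain ⟨t, ht, c, hc, h⟩ := h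
  refine ⟨t⁻¹, inv_mem ht, c⁻¹, inv_ne_zero hc, ?_⟩
  have h1 := ogInv_apply t u
  rw [h, map_smul] at h1
  rw [← h1, smul_smul, inv_mul_cancel₀ hc, one_smul]

lemma Rel.trans (h : Rel T u u') (h' : Rel T u' u'') : Rel T u u'' := by
  obtain ⟨t, ht, c, hc, h⟩ := h
  obtain ⟨t', ht', c', hc', h'⟩ := h'
  refine ⟨t' * t, mul_mem ht' ht, c * c', mul_ne_zero hc hc', ?_⟩
  rw [og_mul_apply, h, map_smul, h', smul_smul]

lemma Rel.smul_left {a : k} (ha : a ≠ 0) (h : Rel T u u') : Rel T (a • u) u' := by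
  obtain ⟨t, ht, c, hc, h⟩ := h
  refine ⟨t, ht, a * c, mul_ne_zero ha hc, ?_⟩
  rw [map_smul, h, smul_smul]

lemma Rel.smul_right {a : k} (ha : a ≠ 0) (h : Rel T u u') : Rel T u (a • u') := by
  obtain ⟨t, ht, c, hc, h⟩ := h
  refine ⟨t, ht, c * a⁻¹, mul_ne_zero hc (inv_ne_zero ha), ?_⟩
  rw [h, smul_smul, mul_assoc, inv_mul_cancel₀ ha, mul_one]

lemma Rel.of_smul_left {a : k} (ha : a ≠ 0) (h : Rel T (a • u) u') : Rel T u u' := by
  have h1 := Rel.smul_left (inv_ne_zero ha) h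
  rwa [smul_smul, inv_mul_cancel₀ ha, one_smul] at h1

lemma Rel.of_smul_right {a : k} (ha : a ≠ 0) (h : Rel T u (a • u')) : Rel T u u' := by
  have h1 := Rel.smul_right (inv_ne_zero ha) h
  rwa [smul_smul, inv_mul_cancel₀ ha, one_smul] at h1

lemma Rel.conj {σ : OG Q} (hσ : ∀ h ∈ T, σ * h * σ⁻¹ ∈ T) (h : Rel T u u') :
    Rel T ((σ : W ≃ₗ[k] W) u) ((σ : W ≃ₗ[k] W) u') := by
  obtain ⟨t, ht, c, hc, h⟩ := h
  refine ⟨σ * t * σ⁻¹, hσ t ht, c, hc, ?_⟩
  rw [og_mul_apply, og_mul_apply, ogInv_apply, h, map_smul]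

end rel

section move

variable [FiniteDimensional k W] {T : Subgroup (OG Q)}

/-- A common neighbour. -/
lemma exists_common (hQ : Nondeg Q) (hdim : finrank k W ≠ 2) {u u' : W} (hu : Q u = 0) (hu' : Q u' = 0)
    (hu0 : u ≠ 0) (hu'0 : u' ≠ 0) : ∃ v, Q v = 0 ∧ polar Q u v ≠ 0 ∧ polar Q u' v ≠ 0 := by
  by_cases h : polar Q u u' = 0
  · obtain ⟨x, hx, hx'⟩ := exists_not_perp_two hQ hu0 hu'0
    refine ⟨x - (Q x / polar Q u x) • u, ?_, ?_, ?_⟩
    · rw [Q_sub, Q_smul, hu, polar_smul_r, polar_comm Q x u]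
      field_simp
      ring
    · rw [polar_sub_right, polar_smul_r, polar_self_zero hu]
      simpa using hx
    · rw [polar_sub_right, polar_smul_r, polar_comm Q u' u, h]
      simpa using hx'
  · obtain ⟨u₁, hu₁⟩ : ∃ u₁, u₁ = (polar Q u u')⁻¹ • u' := ⟨_, rfl⟩
    have h1 : Q u₁ = 0 := by
      rw [hu₁, Q_smul, hu', mul_zero]
    have h2 : polar Q u u₁ = 1 := by
      rw [hu₁, polar_smul_r, inv_mul_cancel₀ h]
    obtain ⟨z, hz1, hz2, hz⟩ := exists_nonsingular_perp hQ hu h1 h2 hdim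
    have hz1' : polar Q u z = 0 := by rw [polar_comm]; exact hz1
    have hz2' : polar Q u₁ z = 0 := by rw [polar_comm]; exact hz2
    refine ⟨u - Q z • u₁ + z, ?_, ?_, ?_⟩
    · rw [Q_add, Q_sub, Q_smul, hu, h1, polar_smul_r, h2, polar_sub_left, polar_smul_l, hz1', hz2']
      ring
    · rw [polar_add_right, polar_sub_right, polar_smul_r, polar_self_zero hu, h2, hz1']
      simpa using hz
    · rw [polar_add_right, polar_sub_right, polar_smul_r]
      have e1 : polar Q u' u = polar Q u u' := polar_comm _ _ _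
      have e2 : u' = (polar Q u u') • u₁ := by
        rw [hu₁, smul_smul, mul_inv_cancel₀ h, one_smul]
      have e3 : polar Q u' u₁ = 0 := by
        rw [hu₁, polar_smul_r, polar_self_zero hu', mul_zero]
      have e4 : polar Q u' z = 0 := by
        rw [e2, polar_smul_l, hz2', mul_zero]
      rw [e1, e3, e4]
      simpa using h

/-- The link lemma for Siegel transformations. -/
lemma exists_link (hQ : Nondeg Q) {e x x' : W} (he : Q e = 0) (hx : Q x = Q x')
    (ha : polar Q x e = polar Q x' e) (ha0 : polar Q x e ≠ 0) :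
    ∃ σ ∈ siegelSet Q, (σ : W ≃ₗ[k] W) x = x' ∧ (σ : W ≃ₗ[k] W) e = e :=
  ⟨siegel hQ he (polar_link he ha), ⟨_, _, siegel_isSiegel hQ he _⟩, siegelLin_link he hx ha ha0,
    siegelLin_self he (polar_link he ha)⟩

/-- Moving a pair. -/
lemma rel_hyp_move (hQ : Nondeg Q) (hdim : finrank k W ≠ 2) (hnorm : ∀ σ ∈ siegelSet Q, ∀ h ∈ T, σ * h * σ⁻¹ ∈ T)
    {a b a' b' : W} (ha : Q a = 0) (hb : Q b = 0) (ha' : Q a' = 0) (hb' : Q b' = 0) (ha0 : a ≠ 0)
    (ha'0 : a' ≠ 0) (hab : polar Q a b ≠ 0) (hab' : polar Q a' b' ≠ 0) (hR : Rel T a b) : Rel T a' b' := by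
  obtain ⟨v, hv, hv1, hv2⟩ := exists_common hQ hdim ha ha' ha0 ha'0
  have hv1' : polar Q a v ≠ 0 := hv1
  -- the scaled vectors
  set a₁ := (polar Q a v)⁻¹ • a with ha₁
  set a₂ := (polar Q a' v)⁻¹ • a' with ha₂
  have h1 : polar Q a₁ v = 1 := by
    rw [ha₁, polar_smul_l, inv_mul_cancel₀ hv1]
  have h2 : polar Q a₂ v = 1 := by
    rw [ha₂, polar_smul_l, inv_mul_cancel₀ hv2]
  have hQ1 : Q a₁ = 0 := by rw [ha₁, Q_smul, ha, mul_zero]
  have hQ2 : Q a₂ = 0 := by rw [ha₂, Q_smul, ha', mul_zero]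
  obtain ⟨σ, hσ, hσ1, -⟩ := exists_link hQ hv (x := a₁) (x' := a₂) (by rw [hQ1, hQ2]) (by rw [h1, h2]) (by rw [h1]; exact one_ne_zero)
  have hR1 : Rel T a₁ b := hR.smul_left (inv_ne_zero hv1)
  have hR2 := hR1.conj (hnorm σ hσ)
  rw [hσ1] at hR2
  set b₁ := (σ : W ≃ₗ[k] W) b with hb₁
  have hb₁Q : Q b₁ = 0 := by rw [hb₁, OG_apply, hb]
  have hp : polar Q a₂ b₁ ≠ 0 := by
    rw [← hσ1, hb₁, OG_polar, ha₁, polar_smul_l]
    exact mul_ne_zero (inv_ne_zero hv1) hab
  have hp' : polar Q a₂ b' ≠ 0 := by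
    rw [ha₂, polar_smul_l]
    exact mul_ne_zero (inv_ne_zero hv2) hab'
  set c₁ := (polar Q b₁ a₂)⁻¹ • b₁ with hc₁
  set c₂ := (polar Q b' a₂)⁻¹ • b' with hc₂
  have hp1 : polar Q b₁ a₂ ≠ 0 := by rw [polar_comm]; exact hp
  have hp2 : polar Q b' a₂ ≠ 0 := by rw [polar_comm]; exact hp'
  have h3 : polar Q c₁ a₂ = 1 := by
    rw [hc₁, polar_smul_l, inv_mul_cancel₀ hp1]
  have h4 : polar Q c₂ a₂ = 1 := by
    rw [hc₂, polar_smul_l, inv_mul_cancel₀ hp2]
  have hQ3 : Q c₁ = 0 := by rw [hc₁, Q_smul, hb₁Q, mul_zero]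
  have hQ4 : Q c₂ = 0 := by rw [hc₂, Q_smul, hb', mul_zero]
  obtain ⟨τ, hτ, hτ1, hτ2⟩ := exists_link hQ hQ2 (x := c₁) (x' := c₂) (by rw [hQ3, hQ4]) (by rw [h3, h4]) (by rw [h3]; exact one_ne_zero)
  have hR3 : Rel T a₂ c₁ := hR2.smul_right (inv_ne_zero hp1)
  have hR4 := hR3.conj (hnorm τ hτ)
  rw [hτ1, hτ2] at hR4
  exact (hR4.of_smul_right (inv_ne_zero hp2)).of_smul_left (inv_ne_zero hv2)

/-- Every pair of singular vectors. -/
lemma rel_all (hQ : Nondeg Q) (hdim : finrank k W ≠ 2) (hnorm : ∀ σ ∈ siegelSet Q, ∀ h ∈ T, σ * h * σ⁻¹ ∈ T)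
    {a b u u' : W} (ha : Q a = 0) (hb : Q b = 0) (ha0 : a ≠ 0) (hab : polar Q a b ≠ 0) (hR : Rel T a b)
    (hu : Q u = 0) (hu' : Q u' = 0) (hu0 : u ≠ 0) (hu'0 : u' ≠ 0) : Rel T u u' := by
  obtain ⟨v, hv, hv1, hv2⟩ := exists_common hQ hdim hu hu' hu0 hu'0
  have h1 := rel_hyp_move hQ hdim hnorm ha hb hu hv ha0 hu0 hab hv1 hR
  have h2 := rel_hyp_move hQ hdim hnorm ha hb hu' hv ha0 hu'0 hab hv2 hR
  exact h1.trans h2.symm

/-- From an orthogonal pair in one orbit to a hyperbolic pair in one orbit. -/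
lemma hyp_of_perp (hQ : Nondeg Q) (hdim : finrank k W ≠ 4) (hnorm : ∀ σ ∈ siegelSet Q, ∀ h ∈ T, σ * h * σ⁻¹ ∈ T)
    {u₀ u₁ : W} (h₀ : Q u₀ = 0) (h₁ : Q u₁ = 0) (h00 : u₀ ≠ 0) (hind : ∀ c : k, u₁ ≠ c • u₀)
    (hp : polar Q u₀ u₁ = 0) (hR : Rel T u₀ u₁) :
    ∃ a b, Q a = 0 ∧ Q b = 0 ∧ a ≠ 0 ∧ polar Q a b ≠ 0 ∧ Rel T a b := by
  have h10 : u₁ ≠ 0 := by
    have := hind 0
    simpa using this
  have hind' : ∀ c : k, u₀ ≠ c • u₁ := by
    intro c hc
    by_cases hc0 : c = 0
    · rw [hc0, zero_smul] at hc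
      exact h00 hc
    · apply hind c⁻¹
      rw [hc, smul_smul, inv_mul_cancel₀ hc0, one_smul]
  have hp' : polar Q u₁ u₀ = 0 := by rw [polar_comm]; exact hp
  have h00' := polar_self_zero h₀
  have h11' := polar_self_zero h₁
  obtain ⟨y, hy0, hy1⟩ := exists_perp_not_perp hQ h00 hind
  obtain ⟨v₁, hv₁⟩ : ∃ v₁, v₁ = y - Q y • u₁ := ⟨_, rfl⟩
  have hv₁Q : Q v₁ = 0 := by
    rw [hv₁, Q_sub, Q_smul, h₁, polar_smul_r, polar_comm Q y u₁, hy1]
    ring
  have hv₁1 : polar Q u₁ v₁ = 1 := by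
    rw [hv₁, polar_sub_right, polar_smul_r, h11', hy1]
    ring
  have hv₁0 : polar Q u₀ v₁ = 0 := by
    rw [hv₁, polar_sub_right, polar_smul_r, hp, hy0]
    ring
  obtain ⟨y', hy'1, hy'0⟩ := exists_perp_not_perp hQ h10 hind'
  obtain ⟨y'', hy''⟩ : ∃ y'', y'' = y' - polar Q y' v₁ • u₁ := ⟨_, rfl⟩
  have hy''1 : polar Q u₁ y'' = 0 := by
    rw [hy'', polar_sub_right, polar_smul_r, h11', hy'1]
    ring
  have hy''0 : polar Q u₀ y'' = 1 := by
    rw [hy'', polar_sub_right, polar_smul_r, hp, hy'0]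
    ring
  have hy''v : polar Q y'' v₁ = 0 := by
    rw [hy'', polar_sub_left, polar_smul_l, hv₁1]
    ring
  obtain ⟨v₀, hv₀⟩ : ∃ v₀, v₀ = y'' - Q y'' • u₀ := ⟨_, rfl⟩
  have hv₀Q : Q v₀ = 0 := by
    rw [hv₀, Q_sub, Q_smul, h₀, polar_smul_r, polar_comm Q y'' u₀, hy''0]
    ring
  have hv₀0 : polar Q u₀ v₀ = 1 := by
    rw [hv₀, polar_sub_right, polar_smul_r, h00', hy''0]
    ring
  have hv₀1 : polar Q v₀ u₁ = 0 := by
    rw [polar_comm, hv₀, polar_sub_right, polar_smul_r, hp', hy''1]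
    ring
  have hv₀v : polar Q v₀ v₁ = 0 := by
    rw [hv₀, polar_sub_left, polar_smul_l, hv₁0, hy''v]
    ring
  obtain ⟨z, hz1, hzv₁, hz0, hzv₀, hz⟩ := exists_nonsingular_perp_two hQ h₁ hv₁Q hv₁1 h₀ hv₀Q hv₀0 hp' (by
      rw [polar_comm]
      exact hv₀1) (by rw [polar_comm]; exact hv₁0) (by rw [polar_comm]; exact hv₀v) hdim
  have hv₁z : polar Q v₁ z = 0 := by rw [polar_comm]; exact hzv₁
  have hu₀z : polar Q u₀ z = 0 := by rw [polar_comm]; exact hz0
  have hu₁z : polar Q u₁ z = 0 := by rw [polar_comm]; exact hz1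
  set σ := siegel hQ hv₁Q hv₁z with hσ
  have hσm : σ ∈ siegelSet Q := ⟨_, _, siegel_isSiegel hQ hv₁Q hv₁z⟩
  have hσ0 : (σ : W ≃ₗ[k] W) u₀ = u₀ := by
    rw [hσ, siegel_apply]
    exact siegelLin_of_orth hv₁0 hu₀z
  have hσ1 : (σ : W ≃ₗ[k] W) u₁ = u₁ + z - Q z • v₁ := by
    rw [hσ, siegel_apply, siegelLin_apply, hv₁1, hu₁z]
    simp
  have hR1 := hR.conj (hnorm σ hσm)
  rw [hσ0] at hR1
  refine ⟨u₁, (σ : W ≃ₗ[k] W) u₁, h₁, by rw [OG_apply, h₁], h10, ?_, hR.symm.trans hR1⟩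
  rw [hσ1, polar_sub_right, polar_add_right, polar_smul_r, h11', hu₁z, hv₁1]
  simpa using hz

end move

/-! ### The singular lines -/

section lines

variable [FiniteDimensional k W]

/-- The singular lines. -/
def Lns (Q : QuadraticForm k W) : Type _ := {l : Submodule k W // ∃ u, u ≠ 0 ∧ Q u = 0 ∧ l = Submodule.span k {u}}

noncomputable instance lnsAct : MulAction (OG Q) (Lns Q) where
  smul g l := ⟨l.1.map (((g : OG Q) : W ≃ₗ[k] W) : W →ₗ[k] W), by
    obtain ⟨u, h0, hu, hl⟩ := l.2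
    refine ⟨(g : W ≃ₗ[k] W) u, (map_ne_zero_iff _ (LinearEquiv.injective _)).2 h0, by rw [OG_apply, hu], ?_⟩
    rw [hl, Submodule.map_span, Set.image_singleton]
    rfl⟩
  one_smul l := by
    apply Subtype.ext
    exact Submodule.map_id _
  mul_smul a b l := by
    apply Subtype.ext
    exact Submodule.map_comp _ _ _

lemma lns_smul_coe (g : OG Q) (l : Lns Q) :
    (g • l).1 = l.1.map (((g : OG Q) : W ≃ₗ[k] W) : W →ₗ[k] W) := rfl

/-- A line from a singular vector. -/
def mkLn {u : W} (h0 : u ≠ 0) (hu : Q u = 0) : Lns Q := ⟨Submodule.span k {u}, u, h0, hu, rfl⟩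

lemma smul_mkLn (g : OG Q) {u : W} (h0 : u ≠ 0) (hu : Q u = 0) :
    (g • mkLn h0 hu : Lns Q).1 = Submodule.span k {(g : W ≃ₗ[k] W) u} := by
  rw [lns_smul_coe]
  change Submodule.map _ (Submodule.span k {u}) = _
  rw [Submodule.map_span, Set.image_singleton]
  rfl

lemma finite_lns [Finite k] : Finite (Lns Q) := by
  haveI : Finite W := Module.finite_of_finite k
  exact Finite.of_injective (fun l : Lns Q => (l.1 : Set W)) (fun a b h => Subtype.ext (SetLike.coe_injective h))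

end lines

/-! ### Parity -/

section parity

variable [FiniteDimensional k W]

/-- The sign changes in an orthogonal basis. -/
noncomputable def dsLin {d : ℕ} (b : Basis (Fin d) k W) (s : Fin d → ℤˣ) : W →ₗ[k] W :=
  b.constr k (fun i => (((s i : ℤˣ) : ℤ) : k) • b i)

lemma dsLin_basis {d : ℕ} (b : Basis (Fin d) k W) (s : Fin d → ℤˣ) (i : Fin d) :
    dsLin b s (b i) = (((s i : ℤˣ) : ℤ) : k) • b i := by
  rw [dsLin, Basis.constr_basis]

lemma unit_sq (z : ℤˣ) : ((z : ℤ) : k) * ((z : ℤ) : k) = 1 := by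
  rcases Int.units_eq_one_or z with rfl | rfl <;> simp

lemma dsLin_polar {d : ℕ} (b : Basis (Fin d) k W) (hb : ∀ i j, i ≠ j → polar Q (b i) (b j) = 0) (s : Fin d → ℤˣ) (x y : W) :
    polar Q (dsLin b s x) (dsLin b s y) = polar Q x y := by
  have h : (polarBilin Q).compl₁₂ (dsLin b s) (dsLin b s) = polarBilin Q := by
    refine b.ext fun i => b.ext fun j => ?_
    simp only [LinearMap.compl₁₂_apply, polarBilin_apply_apply, dsLin_basis, polar_smul_l, polar_smul_r]
    by_cases hij : i = j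
    · subst hij
      rw [← mul_assoc, unit_sq, one_mul]
    · rw [hb i j hij]
      simp
  have h1 := congrArg (fun B => B x y) h
  exact h1

lemma dsLin_Q (h2 : (2 : k) ≠ 0) {d : ℕ} (b : Basis (Fin d) k W) (hb : ∀ i j, i ≠ j → polar Q (b i) (b j) = 0) (s : Fin d → ℤˣ)
    (x : W) : Q (dsLin b s x) = Q x := by
  have h1 := dsLin_polar b hb s x x
  rw [polar_self', polar_self'] at h1
  exact mul_left_cancel₀ h2 h1

/-- The sign changes, as a homomorphism. -/
noncomputable def dsHom (hQ : Nondeg Q) (h2 : (2 : k) ≠ 0) {d : ℕ} (b : Basis (Fin d) k W)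
    (hb : ∀ i j, i ≠ j → polar Q (b i) (b j) = 0) : (Fin d → ℤˣ) →* OG Q :=
  MonoidHom.mk' (fun s => OG.ofLinear hQ (dsLin b s) (dsLin_Q h2 b hb s)) (by
    intro s s'
    apply Subtype.ext
    apply LinearEquiv.toLinearMap_injective
    refine b.ext fun i => ?_
    change dsLin b (s * s') (b i) = dsLin b s (dsLin b s' (b i))
    rw [dsLin_basis, dsLin_basis, map_smul, dsLin_basis, smul_smul, Pi.mul_apply, Units.val_mul]
    push_cast
    rw [mul_comm])

lemma dsHom_apply (hQ : Nondeg Q) (h2 : (2 : k) ≠ 0) {d : ℕ} (b : Basis (Fin d) k W)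
    (hb : ∀ i j, i ≠ j → polar Q (b i) (b j) = 0) (s : Fin d → ℤˣ) (x : W) :
    ((dsHom hQ h2 b hb s : OG Q) : W ≃ₗ[k] W) x = dsLin b s x := rfl

lemma repr_dsLin {d : ℕ} (b : Basis (Fin d) k W) (s : Fin d → ℤˣ) (x : W) (j : Fin d) :
    b.repr (dsLin b s x) j = (((s j : ℤˣ) : ℤ) : k) * b.repr x j := by
  have h : (b.coord j) ∘ₗ dsLin b s = (((s j : ℤˣ) : ℤ) : k) • b.coord j := by
    refine b.ext fun i => ?_
    simp only [LinearMap.comp_apply, dsLin_basis, map_smul, Basis.coord_apply, LinearMap.smul_apply, Basis.repr_self, smul_eq_mul, Finsupp.single_apply]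
    split_ifs with hij
    · subst hij
      rfl
    · simp
  have h1 := congrArg (fun φ => φ x) h
  simpa using h1

/-- The number of singular lines is even. -/
theorem even_card_lns [Finite k] (hQ : Nondeg Q) (h2 : (2 : k) ≠ 0) : Even (Nat.card (Lns Q)) := by
  classical
  haveI := finite_lns (Q := Q)
  haveI : Invertible (2 : k) := invertibleOfNonzero h2
  have hsymm : (polarBilin Q).IsSymm := ⟨fun x y => by
    simp only [polarBilin_apply_apply, RingHom.id_apply]
    exact polar_comm _ _ _⟩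
  obtain ⟨b, hb⟩ := LinearMap.BilinForm.exists_orthogonal_basis hsymm
  have hb' : ∀ i j, i ≠ j → polar Q (b i) (b j) = 0 := fun i j hij => hb hij
  have hself : ∀ i, Q (b i) ≠ 0 := by
    intro i hi
    obtain ⟨y, hy⟩ := hQ (b i) (b.ne_zero i)
    apply hy
    have h3 : polarBilin Q (b i) = 0 := by
      refine b.ext fun j => ?_
      by_cases hij : i = j
      · subst hij
        change polar Q (b i) (b i) = 0
        rw [polar_self_zero hi]
      · exact hb' i j hij
    exact congrArg (fun φ => φ y) h3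
  letI act : MulAction (Fin (finrank k W) → ℤˣ) (Lns Q) := MulAction.compHom _ (dsHom hQ h2 b hb')
  have hP : IsPGroup 2 (Fin (finrank k W) → ℤˣ) := by
    apply IsPGroup.of_card (n := finrank k W)
    rw [Nat.card_eq_fintype_card, Fintype.card_fun]
    simp
  have hmod := hP.card_modEq_card_fixedPoints (Lns Q)
  have hfix : IsEmpty (MulAction.fixedPoints (Fin (finrank k W) → ℤˣ) (Lns Q)) := by
    refine ⟨fun l => ?_⟩
    obtain ⟨L, hfixed⟩ := l
    obtain ⟨u, hu0, hu, hl⟩ := L.2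
    have hmem : ∀ s : Fin (finrank k W) → ℤˣ, ∃ c : k, dsLin b s u = c • u := by
      intro s
      have h4 : (dsHom hQ h2 b hb' s • L).1 = L.1 := congrArg Subtype.val (hfixed s)
      rw [lns_smul_coe] at h4
      have h5 : dsLin b s u ∈ L.1 := by
        rw [← h4]
        exact ⟨u, by simp [hl, Submodule.mem_span_singleton_self], rfl⟩
      rw [hl, Submodule.mem_span_singleton] at h5
      obtain ⟨c, hc⟩ := h5
      exact ⟨c, hc.symm⟩
    -- a non-zero coordinate
    obtain ⟨j₀, hj₀⟩ : ∃ j, b.repr u j ≠ 0 := by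
      by_contra hall
      push Not at hall
      apply hu0
      apply b.repr.injective
      ext j
      simpa using hall j
    have hall : ∀ i, i ≠ j₀ → b.repr u i = 0 := by
      intro i hi
      obtain ⟨c, hc⟩ := hmem (Function.update 1 i (-1))
      have h3 := congrArg (fun v => b.repr v j₀) hc
      have h4 := congrArg (fun v => b.repr v i) hc
      simp only [repr_dsLin, map_smul, Finsupp.smul_apply, smul_eq_mul, Function.update_apply] at h3 h4
      rw [if_neg hi.symm] at h3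
      rw [if_pos trivial] at h4
      simp only [Pi.one_apply, Units.val_one, Int.cast_one, one_mul] at h3
      have hc1 : c = 1 := by
        have : (1 - c) * b.repr u j₀ = 0 := by linear_combination h3
        rcases mul_eq_zero.1 this with h5 | h5
        · linear_combination -h5
        · exact absurd h5 hj₀
      rw [hc1] at h4
      have : (2 : k) * b.repr u i = 0 := by
        simp at h4
        linear_combination -h4
      exact (mul_eq_zero.1 this).resolve_left h2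
    have hu_eq : u = b.repr u j₀ • b j₀ := by
      conv_lhs => rw [← b.sum_repr u]
      rw [Finset.sum_eq_single j₀]
      · intro i _ hi
        rw [hall i hi, zero_smul]
      · simp
    rw [hu_eq, Q_smul] at hu
    rcases mul_eq_zero.1 hu with h5 | h5
    · exact hj₀ (pow_eq_zero_iff (two_ne_zero)|>.1 h5)
    · exact hself j₀ h5
  rw [@Nat.card_of_isEmpty _ hfix] at hmod
  have h3 : 2 ∣ Nat.card (Lns Q) := (Nat.modEq_zero_iff_dvd).1 hmod
  exact even_iff_two_dvd.2 h3

end parity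

/-! ### The main theorem -/

section main

variable [FiniteDimensional k W]

/-- A singular vector. -/
theorem exists_singular [Finite k] (hQ : Nondeg Q) (h2 : (2 : k) ≠ 0) (hdim : 3 ≤ finrank k W) : ∃ u : W, u ≠ 0 ∧ Q u = 0 := by
  classical
  haveI : Fintype k := Fintype.ofFinite k
  haveI : Invertible (2 : k) := invertibleOfNonzero h2
  have hsymm : (polarBilin Q).IsSymm := ⟨fun x y => by
    simp only [polarBilin_apply_apply, RingHom.id_apply]
    exact polar_comm _ _ _⟩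
  obtain ⟨b, hb⟩ := LinearMap.BilinForm.exists_orthogonal_basis hsymm
  have hb' : ∀ i j, i ≠ j → polar Q (b i) (b j) = 0 := fun i j hij => hb hij
  have hself : ∀ i, Q (b i) ≠ 0 := by
    intro i hi
    obtain ⟨y, hy⟩ := hQ (b i) (b.ne_zero i)
    apply hy
    have h3 : polarBilin Q (b i) = 0 := by
      refine b.ext fun j => ?_
      by_cases hij : i = j
      · subst hij
        change polar Q (b i) (b i) = 0
        rw [polar_self_zero hi]
      · exact hb' i j hij
    exact congrArg (fun φ => φ y) h3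
  let i0 : Fin (finrank k W) := ⟨0, by omega⟩
  let i1 : Fin (finrank k W) := ⟨1, by omega⟩
  let i2 : Fin (finrank k W) := ⟨2, by omega⟩
  have h01 : i0 ≠ i1 := by simp [i0, i1, Fin.ext_iff]
  have h02 : i0 ≠ i2 := by simp [i0, i2, Fin.ext_iff]
  have h12 : i1 ≠ i2 := by simp [i1, i2, Fin.ext_iff]
  have hchar : ringChar k ≠ 2 := by
    intro h
    apply h2
    have := ringChar.Nat.cast_ringChar (R := k)
    rw [h] at this
    exact_mod_cast this
  have hcard := FiniteField.odd_card_of_char_ne_two hchar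
  have h0 := hself i0
  have h1 := hself i1
  have h3 := hself i2
  obtain ⟨α, β, hαβ⟩ := FiniteField.exists_root_sum_quadratic
    (f := Polynomial.C (Q (b i0)) * Polynomial.X ^ 2 - Polynomial.C (- Q (b i2)))
    (g := Polynomial.C (Q (b i1)) * Polynomial.X ^ 2)
    (by compute_degree!) (by compute_degree!) hcard
  simp only [Polynomial.eval_sub, Polynomial.eval_mul, Polynomial.eval_C, Polynomial.eval_pow, Polynomial.eval_X] at hαβ
  refine ⟨α • b i0 + β • b i1 + b i2, ?_, ?_⟩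
  · intro h
    have h4 := congrArg (fun v => polar Q v (b i2)) h
    simp only [polar_add_left, polar_smul_l, hb' _ _ h02, hb' _ _ h12, polar_zero_left, polar_self'] at h4
    have h5 : 2 * Q (b i2) = 0 := by simpa using h4
    rcases mul_eq_zero.1 h5 with h6 | h6
    · exact h2 h6
    · exact h3 h6
  · rw [Q_add, Q_add, Q_smul, Q_smul]
    simp only [polar_add_left, polar_smul_l, polar_smul_r, hb' _ _ h01, hb' _ _ h02, hb' _ _ h12]
    linear_combination hαβ

/-- The elements fixing all singular lines. -/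
theorem scalar_of_fix [Finite k] (hQ : Nondeg Q) (h2 : (2 : k) ≠ 0) (hdim : 3 ≤ finrank k W) (t : OG Q)
    (ht : ∀ u : W, u ≠ 0 → Q u = 0 → ∃ c : k, (t : W ≃ₗ[k] W) u = c • u) :
    ∃ a : k, a * a = 1 ∧ ∀ y, (t : W ≃ₗ[k] W) y = a • y := by
  obtain ⟨u, hu0, hu⟩ := exists_singular hQ h2 hdim
  obtain ⟨v, hv, huv⟩ := exists_singular_partner hQ hu hu0
  have hvu : polar Q v u = 1 := by rw [polar_comm]; exact huv
  have hv0 : v ≠ 0 := by
    rintro rfl
    rw [polar_zero_right] at huv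
    exact zero_ne_one huv
  obtain ⟨a, ha⟩ := ht u hu0 hu
  obtain ⟨b, hb⟩ := ht v hv0 hv
  have hab : a * b = 1 := by
    have h3 := OG_polar Q t u v
    rw [ha, hb, polar_smul_l, polar_smul_r, huv] at h3
    linear_combination h3
  have hb0 : b ≠ 0 := right_ne_zero_of_mul_eq_one hab
  have ha0 : a ≠ 0 := left_ne_zero_of_mul_eq_one hab
  -- the perpendicular vectors
  have key : ∀ z, polar Q z u = 0 → polar Q z v = 0 →
      (t : W ≃ₗ[k] W) z - a • z = (Q z * (b - a)) • v ∧ Q z * (b - a) = 0 := by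
    intro z hzu hzv
    have huz : polar Q u z = 0 := by rw [polar_comm]; exact hzu
    have hvz : polar Q v z = 0 := by rw [polar_comm]; exact hzv
    set x := u + z - Q z • v with hx
    have hxQ : Q x = 0 := by
      rw [hx, Q_sub, Q_add, Q_smul, hu, hv, huz, polar_smul_r, polar_add_left, huv, hzv]
      ring
    have hx0 : x ≠ 0 := by
      intro h
      have h3 : polar Q x v = 0 := by rw [h, polar_zero_left]
      rw [hx, polar_sub_left, polar_add_left, huv, hzv, polar_smul_l, polar_self_zero hv] at h3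
      simp at h3
    obtain ⟨c, hc⟩ := ht x hx0 hxQ
    have htz1 : polar Q ((t : W ≃ₗ[k] W) z) u = 0 := by
      have h3 := OG_polar Q t z u
      rw [ha, polar_smul_r, hzu] at h3
      exact (mul_eq_zero.1 h3).resolve_left ha0
    have htz2 : polar Q ((t : W ≃ₗ[k] W) z) v = 0 := by
      have h3 := OG_polar Q t z v
      rw [hb, polar_smul_r, hzv] at h3
      exact (mul_eq_zero.1 h3).resolve_left hb0
    have e1 : (t : W ≃ₗ[k] W) x = a • u + (t : W ≃ₗ[k] W) z - (Q z * b) • v := by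
      rw [hx, map_sub, map_add, map_smul, ha, hb, smul_smul]
    rw [e1] at hc
    have hca : c = a := by
      have h3 := congrArg (fun w => polar Q w v) hc
      simp only [polar_sub_left, polar_add_left, polar_smul_l, hx, huv, htz2, hzv, polar_self_zero hv] at h3
      linear_combination -h3
    rw [hca, hx] at hc
    have e2 : (t : W ≃ₗ[k] W) z - a • z = (Q z * (b - a)) • v := by
      linear_combination (norm := module) hc
    refine ⟨e2, ?_⟩
    have h3 := congrArg (fun w => polar Q w u) e2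
    simp only [polar_sub_left, polar_smul_l, htz1, hzu, hvu] at h3
    linear_combination -h3
  obtain ⟨z₀, hz1, hz2, hz₀⟩ := exists_nonsingular_perp hQ hu hv huv (by omega)
  have hba : b = a := by
    have h3 := (key z₀ hz1 hz2).2
    have h4 := (mul_eq_zero.1 h3).resolve_left hz₀
    exact sub_eq_zero.1 h4
  refine ⟨a, ?_, fun y => ?_⟩
  · rw [← hba] at hab
    rw [hba] at hab
    exact hab
  · have h3 := key (pr1 Q u v y) (pr1_perp_left hu hv huv y) (pr1_perp_right hu hv huv y)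
    have h4 : (t : W ≃ₗ[k] W) (pr1 Q u v y) = a • pr1 Q u v y := by
      have h5 := h3.1
      rw [h3.2, zero_smul] at h5
      exact sub_eq_zero.1 h5
    have e : y = pr1 Q u v y + polar Q y v • u + polar Q y u • v := by
      unfold pr1
      abel
    rw [e, map_add, map_add, h4, map_smul, map_smul, ha, hb, hba]
    generalize pr1 Q u v y = w
    module

/-- The scalars in a group. -/
def scalT (T : Subgroup (OG Q)) : Subgroup T where
  carrier := {z | ∃ a : k, a * a = 1 ∧ ∀ y, (((z : T) : OG Q) : W ≃ₗ[k] W) y = a • y}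
  mul_mem' := by
    rintro x y ⟨a, ha, hx⟩ ⟨b, hb, hy⟩
    refine ⟨a * b, ?_, fun v => ?_⟩
    · calc a * b * (a * b) = (a * a) * (b * b) := by ring
        _ = 1 := by rw [ha, hb, one_mul]
    · change (((x : T) : OG Q) : W ≃ₗ[k] W) ((((y : T) : OG Q) : W ≃ₗ[k] W) v) = _
      rw [hy, map_smul, hx, smul_smul, mul_comm]
  one_mem' := ⟨1, one_mul 1, fun y => by simp⟩
  inv_mem' := by
    rintro x ⟨a, ha, hx⟩
    refine ⟨a, ha, fun v => ?_⟩
    have h1 := hx ((((x⁻¹ : T) : OG Q) : W ≃ₗ[k] W) v)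
    have h2 : (((x : T) : OG Q) : W ≃ₗ[k] W) ((((x⁻¹ : T) : OG Q) : W ≃ₗ[k] W) v) = v := og_apply_inv _ v
    change (((x⁻¹ : T) : OG Q) : W ≃ₗ[k] W) v = _
    rw [h2] at h1
    have e1 : (((x⁻¹ : T) : OG Q) : W ≃ₗ[k] W) v = (a * a) • (((x⁻¹ : T) : OG Q) : W ≃ₗ[k] W) v := by
      rw [ha, one_smul]
    rw [e1, mul_smul, ← h1]

instance scalT_normal (T : Subgroup (OG Q)) : (scalT T).Normal := by
  constructor
  rintro n ⟨a, ha, hn⟩ g
  refine ⟨a, ha, fun y => ?_⟩
  have e : (((g * n * g⁻¹ : T) : OG Q) : W ≃ₗ[k] W) y =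
      (((g : T) : OG Q) : W ≃ₗ[k] W) ((((n : T) : OG Q) : W ≃ₗ[k] W) ((((g⁻¹ : T) : OG Q) : W ≃ₗ[k] W) y)) := rfl
  rw [e, hn, map_smul]
  congr 1
  exact og_apply_inv _ y

lemma odd_index_scalT [Finite k] {T : Subgroup (OG Q)}
    (hpm : ∀ h ∈ T, ∃ m, Odd m ∧ ∃ a : k, a * a = 1 ∧ ∀ y, ((h ^ m : OG Q) : W ≃ₗ[k] W) y = a • y) :
    Odd (scalT T).index := by
  classical
  haveI : Finite W := Module.finite_of_finite k
  haveI : Finite (W ≃ₗ[k] W) := Finite.of_injective (fun e : W ≃ₗ[k] W => (e : W → W)) DFunLike.coe_injective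
  haveI : Finite (T ⧸ scalT T) := inferInstance
  rw [Subgroup.index, ← Nat.not_even_iff_odd, even_iff_two_dvd]
  intro hdvd
  haveI : Fact (Nat.Prime 2) := ⟨Nat.prime_two⟩
  obtain ⟨x, hx⟩ := exists_prime_orderOf_dvd_card' 2 hdvd
  obtain ⟨h, rfl⟩ := QuotientGroup.mk_surjective x
  have h1 : ((h : T ⧸ scalT T)) ^ 2 = 1 := by
    rw [← hx]
    exact pow_orderOf_eq_one _
  have h2 : h ^ 2 ∈ scalT T := by
    rw [← QuotientGroup.eq_one_iff, QuotientGroup.mk_pow]
    exact h1
  obtain ⟨m, hm, a, ha, hm1⟩ := hpm h h.2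
  have h3 : h ^ m ∈ scalT T := ⟨a, ha, fun y => by
    have : (((h ^ m : T) : OG Q) : W ≃ₗ[k] W) y = ((((h : T) : OG Q) ^ m : OG Q) : W ≃ₗ[k] W) y := by
      rw [Subgroup.coe_pow]
    rw [this, hm1]⟩
  obtain ⟨l, hl⟩ := hm
  have h4 : h ∈ scalT T := by
    have e : h = (h ^ 2) ^ (l + 1) * (h ^ m)⁻¹ := by
      rw [hl, ← pow_mul, eq_mul_inv_iff_mul_eq, ← pow_succ']
      congr 1
    rw [e]
    exact mul_mem (pow_mem h2 _) (inv_mem h3)
  have h5 : (h : T ⧸ scalT T) = 1 := (QuotientGroup.eq_one_iff h).2 h4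
  rw [h5, orderOf_one] at hx
  exact absurd hx (by decide)

/-- The main theorem: a group of isometries, odd-order modulo scalars, normalised by the Siegel transformations, consists of
scalars. -/
theorem main_scalar [Finite k] (hQ : Nondeg Q) (h2 : (2 : k) ≠ 0) (hdim : 3 ≤ finrank k W) (h4 : finrank k W ≠ 4)
    (T : Subgroup (OG Q))
    (hpm : ∀ h ∈ T, ∃ m, Odd m ∧ ∃ a : k, a * a = 1 ∧ ∀ y, ((h ^ m : OG Q) : W ≃ₗ[k] W) y = a • y)
    (hnorm : ∀ σ ∈ siegelSet Q, ∀ h ∈ T, σ * h * σ⁻¹ ∈ T) :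
    ∀ h ∈ T, ∃ a : k, a * a = 1 ∧ ∀ y, (h : W ≃ₗ[k] W) y = a • y := by
  classical
  intro t ht
  apply scalar_of_fix hQ h2 hdim
  by_contra hcon
  push Not at hcon
  obtain ⟨u, hu0, hu, hne⟩ := hcon
  have hR : Rel T u ((t : W ≃ₗ[k] W) u) := ⟨t, ht, 1, one_ne_zero, by simp⟩
  have hdim2 : finrank k W ≠ 2 := by omega
  obtain ⟨a, b, ha, hb, ha0, hab, hRab⟩ : ∃ a b, Q a = 0 ∧ Q b = 0 ∧ a ≠ 0 ∧ polar Q a b ≠ 0 ∧ Rel T a b := by
    by_cases hp : polar Q u ((t : W ≃ₗ[k] W) u) = 0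
    · exact hyp_of_perp hQ h4 hnorm hu (by rw [OG_apply, hu]) hu0 hne hp hR
    · exact ⟨_, _, hu, by rw [OG_apply, hu], hu0, hp, hR⟩
  have hall : ∀ x y : W, x ≠ 0 → y ≠ 0 → Q x = 0 → Q y = 0 → Rel T x y := fun x y hx0 hy0 hx hy =>
    rel_all hQ hdim2 hnorm ha hb ha0 hab hRab hx hy hx0 hy0
  haveI := finite_lns (Q := Q)
  haveI : MulAction.IsPretransitive T (Lns Q) := by
    refine ⟨fun l l' => ?_⟩
    obtain ⟨x, hx0, hx, hl⟩ := l.2
    obtain ⟨y, hy0, hy, hl'⟩ := l'.2
    obtain ⟨s, hs, c, hc, h⟩ := hall x y hx0 hy0 hx hy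
    refine ⟨⟨s, hs⟩, Subtype.ext ?_⟩
    change l.1.map _ = l'.1
    rw [hl, hl', Submodule.map_span, Set.image_singleton]
    change Submodule.span k {(s : W ≃ₗ[k] W) x} = _
    rw [h]
    exact Submodule.span_singleton_smul_eq (IsUnit.mk0 c hc) y
  set l₀ : Lns Q := mkLn hu0 hu with hl₀
  have hcard : Nat.card (Lns Q) = (MulAction.stabilizer T l₀).index := by
    rw [MulAction.index_stabilizer, MulAction.orbit_eq_univ, Set.ncard_univ]
  have hle : scalT T ≤ MulAction.stabilizer T l₀ := by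
    rintro z ⟨c, hc, hz⟩
    rw [MulAction.mem_stabilizer_iff]
    apply Subtype.ext
    change l₀.1.map _ = l₀.1
    have hc0 : c ≠ 0 := by
      rintro rfl
      simp at hc
    change (Submodule.span k {u}).map _ = Submodule.span k {u}
    rw [Submodule.map_span, Set.image_singleton]
    change Submodule.span k {(((z : T) : OG Q) : W ≃ₗ[k] W) u} = _
    rw [hz]
    exact Submodule.span_singleton_smul_eq (IsUnit.mk0 c hc0) u
  have hodd : Odd (Nat.card (Lns Q)) := by
    rw [hcard]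
    exact Odd.of_dvd_nat (odd_index_scalT hpm) (Subgroup.index_dvd_of_le hle)
  exact (Nat.not_even_iff_odd.2 hodd) (even_card_lns hQ h2)

end main

end Cfsg.Agent.Lib.BalMinus
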