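import Mathlib
import Cfsg.Agent.Lib.BalMinus.Orbit

/-!
# Semilinear maps commuting with Siegel transformations
-/

set_option autoImplicit false
set_option linter.unusedSectionVars false
set_option linter.unusedVariables false
set_option linter.unusedSimpArgs false

namespace Cfsg.Agent.Lib.BalMinus

open QuadraticMap Cfsg.Agent.Lib.OrthoBasic Cfsg.Agent.Lib.OrthoSiegel Module

variable {k V : Type*} [Field k] [AddCommGroup V] [Module k V] {Q : QuadraticForm k V}

/-- A map commuting with a Siegel transformation preserves the line of its centre. -/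
lemma line_of_comm (S : V →+ V) (h2 : (2 : k) ≠ 0) {u w : V} (hu : Q u = 0) (huw : polar Q u w = 0) (hw : Q w ≠ 0)
    (hc : ∀ v, S (siegelLin Q u w v) = siegelLin Q u w (S v)) {y : V} (hy : polar Q y u = 1) (c : k) :
    ∃ c' : k, S (c • u) = c' • u := by
  have hwu : polar Q w u = 0 := by rw [polar_comm]; exact huw
  have huu := polar_self_zero hu
  have hww : polar Q w w = 2 * Q w := polar_self' Q w
  -- the nilpotent part
  let N : V → V := fun x => polar Q x u • w - (polar Q x w + Q w * polar Q x u) • u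
  have hN : ∀ x, siegelLin Q u w x = x + N x := by
    intro x
    simp only [N, siegelLin_apply]
    abel
  have hSN : ∀ x, S (N x) = N (S x) := by
    intro x
    have h1 := hc x
    rw [hN, hN, map_add] at h1
    exact add_left_cancel h1
  have hNN : ∀ x, N (N x) = (-(2 * Q w * polar Q x u)) • u := by
    intro x
    simp only [N]
    have e1 : polar Q (polar Q x u • w - (polar Q x w + Q w * polar Q x u) • u) u = 0 := by
      rw [polar_sub_left, polar_smul_l, polar_smul_l, hwu, huu]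
      ring
    have e2 : polar Q (polar Q x u • w - (polar Q x w + Q w * polar Q x u) • u) w = 2 * Q w * polar Q x u := by
      rw [polar_sub_left, polar_smul_l, polar_smul_l, huw, hww]
      ring
    rw [e1, e2]
    simp only [zero_smul, mul_zero, add_zero, zero_sub, neg_smul]
  have h2w : 2 * Q w ≠ 0 := mul_ne_zero h2 hw
  set x := (-(c / (2 * Q w))) • y with hx
  have hxu : polar Q x u = -(c / (2 * Q w)) := by
    rw [hx, polar_smul_l, hy, mul_one]
  have e : c • u = N (N x) := by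
    rw [hNN, hxu]
    congr 1
    field_simp
  rw [e, hSN, hSN, hNN]
  exact ⟨_, rfl⟩

variable {F : Type*} [Field F] [Module F V] [Algebra F k] [IsScalarTower F k V]

/-- Two independent orthogonal singular vectors have the same scalar. -/
lemma pair_scalar (S : V →+ V) {x y x' y' : V} (hx : Q x = 0) (hy : Q y = 0) (hxy : polar Q x y = 0)
    (h1 : polar Q x x' = 1) (h2 : polar Q y x' = 0) (h3 : polar Q x y' = 0) (h4 : polar Q y y' = 1)
    (H : ∀ u, Q u = 0 → (u = x ∨ u = y ∨ ∃ α β : k, u = α • x + β • y) → ∀ c : k, ∃ c' : k, S (c • u) = c' • u) :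
    ∃ l : k, ∀ α : k, S (α • x) = (l * α) • x ∧ S (α • y) = (l * α) • y := by
  obtain ⟨l, hl⟩ := H y hy (Or.inr (Or.inl rfl)) 1
  rw [one_smul] at hl
  have hsing : ∀ α β : k, Q (α • x + β • y) = 0 := by
    intro α β
    rw [Q_add, Q_smul, Q_smul, hx, hy, polar_smul_l, polar_smul_r, hxy]
    ring
  have key : ∀ α β : k, ∃ c : k, S (α • x) + S (β • y) = c • (α • x + β • y) := by
    intro α β
    obtain ⟨c, hc⟩ := H _ (hsing α β) (Or.inr (Or.inr ⟨α, β, rfl⟩)) 1
    rw [one_smul, map_add] at hc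
    exact ⟨c, hc⟩
  obtain ⟨μ, hμ⟩ : ∃ μ : k → k, ∀ α, S (α • x) = μ α • x := by
    choose μ hμ using H x hx (Or.inl rfl)
    exact ⟨μ, hμ⟩
  obtain ⟨ν, hν⟩ : ∃ ν : k → k, ∀ β, S (β • y) = ν β • y := by
    choose ν hν using H y hy (Or.inr (Or.inl rfl))
    exact ⟨ν, hν⟩
  have hcoef : ∀ α β : k, ∃ c : k, μ α = c * α ∧ ν β = c * β := by
    intro α β
    obtain ⟨c, hc⟩ := key α β
    rw [hμ, hν] at hc
    refine ⟨c, ?_, ?_⟩
    · have e := congrArg (fun v => polar Q v x') hc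
      simp only [polar_add_left, polar_smul_l, h1, h2, smul_add, smul_smul] at e
      simpa using e
    · have e := congrArg (fun v => polar Q v y') hc
      simp only [polar_add_left, polar_smul_l, h3, h4, smul_add, smul_smul] at e
      simpa using e
  refine ⟨ν 1, fun α => ?_⟩
  obtain ⟨c, hc1, hc2⟩ := hcoef α 1
  obtain ⟨d, hd1, hd2⟩ := hcoef 1 α
  have h5 : c = ν 1 := by rw [hc2, mul_one]
  have h6 : d = μ 1 := by rw [hd1, mul_one]
  obtain ⟨e, he1, he2⟩ := hcoef 1 1
  have h7 : μ 1 = ν 1 := by rw [he1, he2]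
  rw [hμ, hν, hc1, hd2, h5, h6, h7]
  exact ⟨rfl, rfl⟩

/-- A semilinear map preserving the singular lines of a subspace with two orthogonal hyperbolic pairs acts there as a scalar,
and its automorphism is trivial. -/
theorem scalar_on_block (S : V →+ V) (hinj : Function.Injective S) (τ : F → F) (hτ : ∀ (c : F) (v : V), S (c • v) = τ c • S v)
    (W : Submodule k V)
    (H : ∀ u ∈ W, Q u = 0 → ∀ c : k, ∃ c' : k, S (c • u) = c' • u)
    {e₁ f₁ e₂ f₂ : V} (he₁ : e₁ ∈ W) (hf₁ : f₁ ∈ W) (he₂ : e₂ ∈ W) (hf₂ : f₂ ∈ W)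
    (h₁ : IsHypPair Q e₁ f₁) (h₂ : IsHypPair Q e₂ f₂)
    (e₁e₂ : polar Q e₁ e₂ = 0) (e₁f₂ : polar Q e₁ f₂ = 0) (f₁e₂ : polar Q f₁ e₂ = 0) (f₁f₂ : polar Q f₁ f₂ = 0) :
    (∀ c : F, τ c = c) ∧ ∃ l : k, ∀ v ∈ W, S v = l • v := by
  have hE1 := polar_self_zero h₁.Qe
  have hF1 := polar_self_zero h₁.Qf
  have hE2 := polar_self_zero h₂.Qe
  have hF2 := polar_self_zero h₂.Qf
  have hf₁e₁ : polar Q f₁ e₁ = 1 := by rw [polar_comm]; exact h₁.B
  have hf₂e₂ : polar Q f₂ e₂ = 1 := by rw [polar_comm]; exact h₂.B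
  have e₂e₁ : polar Q e₂ e₁ = 0 := by rw [polar_comm]; exact e₁e₂
  have f₂e₁ : polar Q f₂ e₁ = 0 := by rw [polar_comm]; exact e₁f₂
  have e₂f₁ : polar Q e₂ f₁ = 0 := by rw [polar_comm]; exact f₁e₂
  have f₂f₁ : polar Q f₂ f₁ = 0 := by rw [polar_comm]; exact f₁f₂
  have hpair : ∀ {x y x' y' : V}, x ∈ W → y ∈ W → Q x = 0 → Q y = 0 → polar Q x y = 0 →
      polar Q x x' = 1 → polar Q y x' = 0 → polar Q x y' = 0 → polar Q y y' = 1 →
      ∃ l : k, ∀ α : k, S (α • x) = (l * α) • x ∧ S (α • y) = (l * α) • y := by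
    intro x y x' y' hxW hyW hx hy hxy h1 h2 h3 h4
    apply pair_scalar S hx hy hxy h1 h2 h3 h4
    rintro u hu hu' c
    apply H u _ hu c
    rcases hu' with rfl | rfl | ⟨α, β, rfl⟩
    · exact hxW
    · exact hyW
    · exact W.add_mem (W.smul_mem _ hxW) (W.smul_mem _ hyW)
  have hne₁ : e₁ ≠ 0 := h₁.ne_zero_left
  have hne₂ : e₂ ≠ 0 := h₂.ne_zero_left
  have hcoef : ∀ a b : k, a • e₁ = b • e₁ → a = b := by
    intro a b hab
    have e := congrArg (fun v => polar Q v f₁) hab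
    simpa only [polar_smul_l, h₁.B, mul_one] using e
  have hcoef₂ : ∀ a b : k, a • e₂ = b • e₂ → a = b := by
    intro a b hab
    have e := congrArg (fun v => polar Q v f₂) hab
    simpa only [polar_smul_l, h₂.B, mul_one] using e
  obtain ⟨l, hl⟩ := hpair he₁ he₂ h₁.Qe h₂.Qe e₁e₂ h₁.B e₂f₁ e₁f₂ h₂.B
  obtain ⟨l₂, hl₂⟩ := hpair he₁ hf₂ h₁.Qe h₂.Qf e₁f₂ h₁.B f₂f₁ e₁e₂ hf₂e₂
  obtain ⟨l₃, hl₃⟩ := hpair hf₁ he₂ h₁.Qf h₂.Qe f₁e₂ hf₁e₁ e₂e₁ f₁f₂ h₂.B
  have h12 : l₂ = l := by
    have h1 := (hl 1).1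
    have h2 := (hl₂ 1).1
    rw [h1] at h2
    have := hcoef _ _ h2
    simpa using this.symm
  have h13 : l₃ = l := by
    have h1 := (hl 1).2
    have h2 := (hl₃ 1).2
    rw [h1] at h2
    have := hcoef₂ _ _ h2
    simpa using this.symm
  rw [h12] at hl₂
  rw [h13] at hl₃
  have hSe₁ : ∀ α : k, S (α • e₁) = (l * α) • e₁ := fun α => (hl α).1
  have hSe₂ : ∀ α : k, S (α • e₂) = (l * α) • e₂ := fun α => (hl α).2
  have hSf₁ : ∀ α : k, S (α • f₁) = (l * α) • f₁ := fun α => (hl₃ α).1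
  have hSf₂ : ∀ α : k, S (α • f₂) = (l * α) • f₂ := fun α => (hl₂ α).2
  have hl0 : l ≠ 0 := by
    intro hl00
    have h1 := hSe₁ 1
    rw [hl00] at h1
    rw [one_smul, zero_mul, zero_smul] at h1
    apply hne₁
    apply hinj
    rw [h1, map_zero]
  refine ⟨fun c => ?_, l, ?_⟩
  · have h1 := hτ c e₁
    have h3 := hSe₁ 1
    rw [one_smul, mul_one] at h3
    rw [h3, ← algebraMap_smul k (τ c), ← algebraMap_smul k c, hSe₁, smul_smul] at h1
    have h4 := hcoef _ _ h1
    have h5 : l * (algebraMap F k c - algebraMap F k (τ c)) = 0 := by linear_combination h4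
    have h6 := (mul_eq_zero.1 h5).resolve_left hl0
    apply (algebraMap F k).injective
    linear_combination -h6
  · -- the orthogonal complement
    have hz : ∀ z ∈ W, polar Q z e₁ = 0 → polar Q z f₁ = 0 → polar Q z e₂ = 0 → polar Q z f₂ = 0 → S z = l • z := by
      intro z hzW hz1 hz2 hz3 hz4
      set x := e₁ + z - Q z • f₁ with hx
      have hxW : x ∈ W := W.sub_mem (W.add_mem he₁ hzW) (W.smul_mem _ hf₁)
      have hz1' : polar Q e₁ z = 0 := by rw [polar_comm]; exact hz1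
      have hxQ : Q x = 0 := by
        rw [hx, Q_sub, Q_add, Q_smul, h₁.Qe, h₁.Qf, hz1', polar_smul_r, polar_add_left, h₁.B, hz2]
        ring
      have hx1 : polar Q x e₂ = 0 := by
        rw [hx, polar_sub_left, polar_add_left, polar_smul_l, e₁e₂, hz3, f₁e₂]
        ring
      have hx2 : polar Q x f₁ = 1 := by
        rw [hx, polar_sub_left, polar_add_left, polar_smul_l, h₁.B, hz2, hF1]
        ring
      have hx3 : polar Q x f₂ = 0 := by
        rw [hx, polar_sub_left, polar_add_left, polar_smul_l, e₁f₂, hz4, f₁f₂]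
        ring
      obtain ⟨l₄, hl₄⟩ := hpair hxW he₂ hxQ h₂.Qe hx1 hx2 e₂f₁ hx3 h₂.B
      have h14 : l₄ = l := by
        have h1 := (hl₄ 1).2
        rw [hSe₂] at h1
        have := hcoef₂ _ _ h1
        simpa using this.symm
      rw [h14] at hl₄
      have h1 := (hl₄ 1).1
      rw [one_smul, mul_one, hx, map_sub, map_add, hSf₁] at h1
      have h3 := hSe₁ 1
      rw [one_smul, mul_one] at h3
      rw [h3] at h1
      have h4 : S z = l • (e₁ + z - Q z • f₁) - l • e₁ + (l * Q z) • f₁ := by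
        rw [← h1]
        abel
      rw [h4]
      module
    intro v hv
    set a := polar Q v f₁ with ha
    set b := polar Q v e₁ with hb
    set c := polar Q v f₂ with hc
    set d := polar Q v e₂ with hd
    set z := v - a • e₁ - b • f₁ - c • e₂ - d • f₂ with hzdef
    have hzW : z ∈ W := W.sub_mem (W.sub_mem (W.sub_mem (W.sub_mem hv (W.smul_mem _ he₁)) (W.smul_mem _ hf₁)) (W.smul_mem _ he₂)) (W.smul_mem _ hf₂)
    have hz1 : polar Q z e₁ = 0 := by
      simp only [hzdef, polar_sub_left, polar_smul_l, hE1, hf₁e₁, e₂e₁, f₂e₁, ← hb]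
      ring
    have hz2 : polar Q z f₁ = 0 := by
      simp only [hzdef, polar_sub_left, polar_smul_l, h₁.B, hF1, e₂f₁, f₂f₁, ← ha]
      ring
    have hz3 : polar Q z e₂ = 0 := by
      simp only [hzdef, polar_sub_left, polar_smul_l, e₁e₂, f₁e₂, hE2, hf₂e₂, ← hd]
      ring
    have hz4 : polar Q z f₂ = 0 := by
      simp only [hzdef, polar_sub_left, polar_smul_l, e₁f₂, f₁f₂, h₂.B, hF2, ← hc]
      ring
    have h1 := hz z hzW hz1 hz2 hz3 hz4
    have e : v = a • e₁ + b • f₁ + c • e₂ + d • f₂ + z := by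
      rw [hzdef]
      abel
    rw [e, map_add, map_add, map_add, map_add, hSe₁, hSf₁, hSe₂, hSf₂, h1]
    generalize z = z'
    module

section frame

variable {W : Type*} [AddCommGroup W] [Module k W] [FiniteDimensional k W] {QW : QuadraticForm k W}

lemma polar_comp_subtype (P : Submodule k W) (a b : P) :
    polar (QW.comp P.subtype) a b = polar QW (a : W) (b : W) := by
  simp [polar]

/-- Two orthogonal hyperbolic pairs. -/
theorem exists_two_pairs [Finite k] (hQ : Nondeg QW) (h2 : (2 : k) ≠ 0) (hdim : 5 ≤ finrank k W) :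
    ∃ e₁ f₁ e₂ f₂ : W, IsHypPair QW e₁ f₁ ∧ IsHypPair QW e₂ f₂ ∧ polar QW e₁ e₂ = 0 ∧ polar QW e₁ f₂ = 0 ∧
      polar QW f₁ e₂ = 0 ∧ polar QW f₁ f₂ = 0 := by
  obtain ⟨u, hu0, hu⟩ := exists_singular hQ h2 (by omega)
  obtain ⟨v, hv, huv⟩ := exists_singular_partner hQ hu hu0
  let Φ : W →ₗ[k] (k × k) := (polarBilin QW).flip u |>.prod ((polarBilin QW).flip v)
  have hΦ : ∀ y, Φ y = (polar QW y u, polar QW y v) := fun y => rfl
  let P : Submodule k W := LinearMap.ker Φ
  have hP : ∀ y, y ∈ P ↔ polar QW y u = 0 ∧ polar QW y v = 0 := by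
    intro y
    change Φ y = 0 ↔ _
    rw [hΦ, Prod.mk_eq_zero]
  have hfin : 3 ≤ finrank k P := by
    have h1 := LinearMap.finrank_range_add_finrank_ker Φ
    have h3 : finrank k (LinearMap.range Φ) ≤ finrank k (k × k) := Submodule.finrank_le _
    have h4 : finrank k (k × k) = 2 := by simp
    change finrank k (LinearMap.range Φ) + finrank k P = _ at h1
    omega
  have hpr : ∀ y, pr1 QW u v y ∈ P := fun y => (hP _).2 ⟨pr1_perp_left hu hv huv y, pr1_perp_right hu hv huv y⟩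
  have hQP : Nondeg (QW.comp P.subtype) := by
    intro x hx
    have hx' : (x : W) ≠ 0 := by
      intro h
      exact hx (Subtype.ext h)
    obtain ⟨y, hy⟩ := hQ _ hx'
    refine ⟨⟨_, hpr y⟩, ?_⟩
    rw [polar_comp_subtype]
    have hx1 := (hP _).1 x.2
    change polar QW (x : W) (pr1 QW u v y) ≠ 0
    rw [pr1_of_perp hx1.1 hx1.2]
    exact hy
  obtain ⟨u₂, hu₂0, hu₂⟩ := exists_singular hQP h2 hfin
  obtain ⟨v₂, hv₂, huv₂⟩ := exists_singular_partner hQP hu₂ hu₂0
  rw [polar_comp_subtype] at huv₂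
  have h1 := (hP _).1 u₂.2
  have h3 := (hP _).1 v₂.2
  refine ⟨u, v, u₂, v₂, ⟨hu, hv, huv⟩, ⟨hu₂, hv₂, huv₂⟩, ?_, ?_, ?_, ?_⟩
  · rw [polar_comm]
    exact h1.1
  · rw [polar_comm]
    exact h3.1
  · rw [polar_comm]
    exact h1.2
  · rw [polar_comm]
    exact h3.2

/-- Powers of a Siegel transformation. -/
lemma siegel_pow (hQ : Nondeg QW) {e y : W} (he : QW e = 0) (hy : polar QW e y = 0) (j : ℕ) (x : W) :
    ((siegel hQ he hy ^ j : OG QW) : W ≃ₗ[k] W) x = siegelLin QW e (j • y) x := by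
  induction j generalizing x with
  | zero =>
    simp [siegelLin_zero]
  | succ j ih =>
    rw [pow_succ, og_mul_apply, ih, siegel_apply, siegelLin_comp he (by
      rw [← Nat.cast_smul_eq_nsmul k, polar_smul_r, hy, mul_zero]) hy]
    congr 1
    rw [succ_nsmul]

lemma siegel_pow_eq_one (hQ : Nondeg QW) {e y : W} (he : QW e = 0) (hy : polar QW e y = 0) {j : ℕ} (hj : j • y = 0) :
    siegel hQ he hy ^ j = 1 := by
  apply Subtype.ext
  ext x
  rw [siegel_pow, hj, siegelLin_zero]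
  rfl

end frame

end Cfsg.Agent.Lib.BalMinus
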