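import Mathlib
import Cfsg.Agent.Lib.BalMinus.Lines
import Cfsg.Agent.Lib.FieldPOm.Plus
import Cfsg.Agent.Lib.AutPOm.BalStd

/-!
# Odd normal subgroups of centralisers of involutions, in terms of a block
-/

set_option autoImplicit false
set_option linter.unusedSectionVars false
set_option linter.unusedVariables false
set_option linter.unusedSimpArgs false
set_option linter.style.haveILetI false

namespace Cfsg.Agent.Lib.BalMinus

open Module QuadraticMap Cfsg.Agent.Lib.OrthoBasic Cfsg.Agent.Lib.OrthoSiegel Cfsg.Agent.Lib.OrthoGen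
  Cfsg.Agent.Lib.OrthoFinal Cfsg.Agent.Lib.PgoPsi Cfsg.Agent.Lib.PgoGroup Cfsg.Agent.Lib.GammaCount
  Cfsg.Agent.Lib.Hilbert90 Cfsg.Agent.Lib.QuadFF Cfsg.Agent.Lib.QuadClass Cfsg.Agent.Lib.OrthoCount
  Cfsg.Agent.Lib.OrthoChar Cfsg.Agent.Lib.OrthoIndex Cfsg.Agent.Lib.AutPOm Cfsg.Agent.Lib.PgoParity
  Cfsg.Agent.Lib.OrthoOrder Cfsg.Agent.Lib.PgoClass Cfsg.Agent.Lib.AutOrthOut Cfsg.Agent.Lib.PgoSim
  Cfsg.Agent.Lib.PgoSim.Data Cfsg.Agent.Lib.PgoGraphInv Cfsg.Agent.Lib.PgoInndiag Cfsg.Agent.Lib.AutOrth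
open Cfsg Matrix

section group

variable {K : Type*} [Group K]

/-- The group theory of the absence of odd normal subgroups. -/
theorem no_core (hcent : Subgroup.center K = ⊥) [Finite K] (x : MulAut K) (A : Subgroup (MulAut K)) (hinn : ∀ k : K, MulAut.conj k ∈ A)
    (hA : ∀ M : Subgroup K, M ≤ fixP x → (∀ k ∈ fixP x, ∀ y ∈ M, k * y * k⁻¹ ∈ M) → Odd (Nat.card M) → M = ⊥)
    (hB : ∀ β : MulAut K, Commute β x → Odd (orderOf β) → (∀ k ∈ fixP x, β k = k) →
      β = 1 ∨ ∃ k ∈ fixP x, β = MulAut.conj k)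
    (N : Subgroup ↥(A ⊓ Subgroup.centralizer {x})) (hN : N.Normal) (hcop : (Nat.card N).Coprime 2) : N = ⊥ := by
  classical
  set L := fixP x with hL
  have hmemC : ∀ k : L, MulAut.conj k.1 ∈ A ⊓ Subgroup.centralizer {x} := by
    intro k
    refine ⟨hinn _, ?_⟩
    change MulAut.conj k.1 ∈ Subgroup.centralizer {x}
    rw [Subgroup.mem_centralizer_singleton_iff]
    have h1 := conj_conj_aut x k.1
    have h2 : x k.1 = k.1 := k.2
    rw [h2] at h1
    calc MulAut.conj k.1 * x = (x * MulAut.conj k.1 * x⁻¹) * x := by rw [h1]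
      _ = x * MulAut.conj k.1 := by group
  let cL : L →* ↥(A ⊓ Subgroup.centralizer {x}) :=
    { toFun := fun k => ⟨MulAut.conj k.1, hmemC k⟩
      map_one' := by
        apply Subtype.ext
        exact map_one _
      map_mul' := fun a b => by
        apply Subtype.ext
        exact map_mul _ _ _ }
  have hcL : ∀ k : L, (cL k).1 = MulAut.conj k.1 := fun _ => rfl
  have hcLinj : Function.Injective cL := by
    rw [injective_iff_map_eq_one]
    intro k hk
    apply Subtype.ext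
    apply eq_one_of_conj_eq_one hcent
    have := congrArg Subtype.val hk
    exact this
  have hact : ∀ (a : ↥(A ⊓ Subgroup.centralizer {x})) (k : L), a.1 k.1 ∈ L := by
    intro a k
    have h1 : a.1 ∈ Subgroup.centralizer {x} := a.2.2
    rw [Subgroup.mem_centralizer_singleton_iff] at h1
    have h2 := congrArg (fun φ : MulAut K => φ k.1) h1
    have h3 : x k.1 = k.1 := k.2
    change a.1 (x k.1) = x (a.1 k.1) at h2
    rw [h3] at h2
    exact h2.symm
  have hconjL : ∀ (a : ↥(A ⊓ Subgroup.centralizer {x})) (k : L),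
      a * cL k * a⁻¹ = cL ⟨a.1 k.1, hact a k⟩ := by
    intro a k
    apply Subtype.ext
    exact conj_conj_aut a.1 k.1
  let M : Subgroup K := (N.comap cL).map L.subtype
  have hMc : Nat.card M ∣ Nat.card N := by
    have h1 : Nat.card M = Nat.card (N.comap cL) := Subgroup.card_map_of_injective L.subtype_injective
    rw [h1]
    apply Subgroup.card_dvd_of_injective (cL.subgroupComap N)
    intro a b hab
    apply Subtype.ext
    apply hcLinj
    exact congrArg Subtype.val hab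
  have hoddN : Odd (Nat.card N) := by
    rw [← Nat.not_even_iff_odd, even_iff_two_dvd]
    intro h
    have h1 := Nat.dvd_gcd h (dvd_refl 2)
    rw [hcop] at h1
    omega
  have hMb : M = ⊥ := by
    apply hA M
    · rintro _ ⟨a, -, rfl⟩
      exact a.2
    · rintro k hk _ ⟨a, ha, rfl⟩
      refine ⟨⟨k, hk⟩ * a * ⟨k, hk⟩⁻¹, ?_, rfl⟩
      change cL _ ∈ N
      rw [map_mul, map_mul, map_inv]
      exact hN.conj_mem _ ha _
    · exact Odd.of_dvd_nat hoddN hMc
  rw [eq_bot_iff]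
  intro n hn
  have hfix : ∀ k : L, n.1 k.1 = k.1 := by
    intro k
    have h1 : cL ⟨n.1 k.1, hact n k⟩ * (cL k)⁻¹ ∈ N := by
      rw [← hconjL]
      have h2 : n * cL k * n⁻¹ * (cL k)⁻¹ = n * (cL k * n⁻¹ * (cL k)⁻¹) := by group
      rw [h2]
      exact mul_mem hn (hN.conj_mem _ (inv_mem hn) _)
    rw [← map_inv, ← map_mul] at h1
    have h3 : (⟨n.1 k.1, hact n k⟩ * k⁻¹ : L).1 ∈ M := ⟨_, h1, rfl⟩
    rw [hMb] at h3
    have h4 : n.1 k.1 * k.1⁻¹ = 1 := h3
    exact mul_inv_eq_one.mp h4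
  have hcomm : Commute n.1 x := by
    have h1 : n.1 ∈ Subgroup.centralizer {x} := n.2.2
    exact (Subgroup.mem_centralizer_singleton_iff.1 h1)
  have hoddo : Odd (orderOf n.1) := by
    have h1 : orderOf (⟨n, hn⟩ : N) ∣ Nat.card N := orderOf_dvd_natCard _
    rw [Subgroup.orderOf_mk, ← Subgroup.orderOf_coe] at h1
    exact Odd.of_dvd_nat hoddN h1
  have key : n.1 = 1 := by
    rcases hB n.1 hcomm hoddo (fun k hk => hfix ⟨k, hk⟩) with h | ⟨k, hk, h⟩
    · exact h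
    · have h1 : (⟨k, hk⟩ : L) ∈ N.comap cL := by
        change cL _ ∈ N
        have e : cL ⟨k, hk⟩ = n := by
          apply Subtype.ext
          rw [hcL]
          exact h.symm
        rw [e]
        exact hn
      have h2 : k ∈ M := ⟨_, h1, rfl⟩
      rw [hMb, Subgroup.mem_bot] at h2
      rw [h, h2, map_one]
  rw [Subgroup.mem_bot]
  apply Subtype.ext
  exact key

end group

variable {ι : Type} [Fintype ι] [DecidableEq ι] {F : Type*} [Field F] [Fintype F] {f : (ι → F) → F}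
  {Q : QuadraticForm F (ι → F)} {n : ℕ}

section pE

variable (D : Data f Q n)

/-- `Ω` and the Siegel group. -/
noncomputable def eE (D : Data f Q n) : Omega F f ≃* siegelE Q :=
  (D.toOG.subgroupMap (commutator (isometryGroup F f))).trans (MulEquiv.subgroupCongr (by
    rw [← omega_eq_E D.hQ D.hgen D.fr, ← map_commutator_equiv D.toOG]
    rfl))

lemma eE_apply (s : Omega F f) (v : ι → F) :
    (((eE D s : siegelE Q) : OG Q) : (ι → F) ≃ₗ[F] (ι → F)) v = ((s : isometryGroup F f) : GL ι F).1 *ᵥ v := rfl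

/-- The Siegel group to `PΩ`. -/
noncomputable def pE (D : Data f Q n) : siegelE Q →* POmega F f :=
  (QuotientGroup.mk' _).comp (eE D).symm.toMonoidHom

lemma pE_eE (s : Omega F f) : pE D (eE D s) = (s : POmega F f) := by
  simp [pE]

lemma pE_surj : Function.Surjective (pE D) := by
  intro y
  obtain ⟨s, rfl⟩ := QuotientGroup.mk_surjective y
  exact ⟨eE D s, pE_eE D s⟩

/-- The similarities. -/
lemma ap_inv_ap (g : CO f) (v : ι → F) : ap g (ap g⁻¹ v) = v := by
  rw [← ap_mul, mul_inv_cancel, ap_one]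

lemma ap_ap_inv (g : CO f) (v : ι → F) : ap g⁻¹ (ap g v) = v := by
  rw [← ap_mul, inv_mul_cancel, ap_one]

/-- The system of a datum. -/
lemma sys_of (D : Data f Q n) : Sys f Q := ⟨D.hf, D.hQ, D.hgen, ⟨D.fr⟩⟩

lemma ext_eE {s s' : Omega F f} (h : ∀ v, ((s : isometryGroup F f) : GL ι F).1 *ᵥ v = ((s' : isometryGroup F f) : GL ι F).1 *ᵥ v) : s = s' := by
  apply Subtype.ext
  apply Subtype.ext
  apply Units.ext
  apply Matrix.mulVec_injective
  funext v
  exact h v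

lemma pE_eq_one_iff (t : siegelE Q) :
    pE D t = 1 ↔ ∃ c : F, c * c = 1 ∧ ∀ v, ((t : OG Q) : (ι → F) ≃ₗ[F] (ι → F)) v = c • v := by
  obtain ⟨s, rfl⟩ := (eE D).surjective t
  rw [pE_eE, QuotientGroup.eq_one_iff, mem_center_omega_iff (sys_of D)]
  constructor
  · rintro ⟨c, hc⟩
    have hcc := sq_of_scalar_iso (sys_of D) (c := c) (by rw [← hc]; exact (s : isometryGroup F f).2)
    refine ⟨c, ?_, fun v => ?_⟩
    · have := congrArg Units.val hcc
      simpa using this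
    · rw [eE_apply, hc, sc_mulVec]
  · rintro ⟨c, hc, h⟩
    have hc0 : c ≠ 0 := left_ne_zero_of_mul_eq_one hc
    refine ⟨Units.mk0 c hc0, ?_⟩
    apply Units.ext
    apply Matrix.mulVec_injective
    funext v
    rw [sc_mulVec, ← eE_apply, h]
    rfl

lemma mat_conj_apply (g : CO f) (a : GL ι F) (v : ι → F) :
    (((g : GL ι F) * a * (g : GL ι F)⁻¹ : GL ι F) : Matrix ι ι F) *ᵥ v = ap g ((a : Matrix ι ι F) *ᵥ ap g⁻¹ v) := by
  simp only [ap, Units.val_mul, Matrix.mulVec_mulVec]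
  rw [Matrix.mul_assoc]
  rfl

lemma conj_pE (g : CO f) {t t' : siegelE Q}
    (h : ∀ v, ((t' : OG Q) : (ι → F) ≃ₗ[F] (ι → F)) (ap g v) = ap g (((t : OG Q) : (ι → F) ≃ₗ[F] (ι → F)) v)) :
    psiO f g (pE D t) = pE D t' := by
  obtain ⟨s, rfl⟩ := (eE D).surjective t
  obtain ⟨s', rfl⟩ := (eE D).surjective t'
  rw [pE_eE, pE_eE, psiO_mk]
  congr 1
  apply ext_eE
  intro v
  rw [conjOmega_coe, mat_conj_apply, ← eE_apply D, ← eE_apply D, ← h, ap_inv_ap]

lemma fix_of_comm (g : CO f) {t : siegelE Q}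
    (h : ∀ v, ((t : OG Q) : (ι → F) ≃ₗ[F] (ι → F)) (ap g v) = ap g (((t : OG Q) : (ι → F) ≃ₗ[F] (ι → F)) v)) :
    psiO f g (pE D t) = pE D t := conj_pE D g h

lemma comm_of_fix (g : CO f) {t : siegelE Q} (h : psiO f g (pE D t) = pE D t) :
    ∃ c : F, c * c = 1 ∧ ∀ v, ap g (((t : OG Q) : (ι → F) ≃ₗ[F] (ι → F)) v) = c • ((t : OG Q) : (ι → F) ≃ₗ[F] (ι → F)) (ap g v) := by
  obtain ⟨s, rfl⟩ := (eE D).surjective t
  rw [pE_eE, psiO_mk] at h
  have h1 : (s⁻¹ * conjOmega f g s) ∈ Subgroup.center (Omega F f) := QuotientGroup.eq.1 h.symm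
  rw [mem_center_omega_iff (sys_of D)] at h1
  obtain ⟨c, hc⟩ := h1
  have hcc := sq_of_scalar_iso (sys_of D) (c := c) (by rw [← hc]; exact ((s⁻¹ * conjOmega f g s : Omega F f) : isometryGroup F f).2)
  refine ⟨c, ?_, fun v => ?_⟩
  · have := congrArg Units.val hcc
    simpa using this
  · have e1 : ((s⁻¹ * conjOmega f g s : Omega F f) : isometryGroup F f) = (s : isometryGroup F f)⁻¹ * (conjOmega f g s : isometryGroup F f) := rfl
    have e2 : ((conjOmega f g s : Omega F f) : isometryGroup F f).1 = ((s : isometryGroup F f) : GL ι F) * sc c := by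
      have h3 : (((s⁻¹ * conjOmega f g s : Omega F f) : isometryGroup F f) : GL ι F) = ((s : isometryGroup F f) : GL ι F)⁻¹ * ((conjOmega f g s : Omega F f) : isometryGroup F f).1 := rfl
      rw [h3] at hc
      rw [← hc]
      group
    rw [conjOmega_coe] at e2
    have e3 := congrArg (fun x : GL ι F => (x : Matrix ι ι F) *ᵥ (ap g v)) e2
    beta_reduce at e3
    rw [mat_conj_apply, ap_ap_inv, Units.val_mul, ← Matrix.mulVec_mulVec, sc_mulVec, Matrix.mulVec_smul] at e3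
    rw [eE_apply, eE_apply, e3]

/-- The isometries in the Siegel group commuting with a similarity. -/
def Cg (g : CO f) : Subgroup (OG Q) where
  carrier := {t | ∀ v, (t : (ι → F) ≃ₗ[F] (ι → F)) (ap g v) = ap g ((t : (ι → F) ≃ₗ[F] (ι → F)) v)}
  mul_mem' := by
    intro a b ha hb v
    rw [og_mul_apply, og_mul_apply, hb, ha]
  one_mem' := fun v => rfl
  inv_mem' := by
    intro a ha v
    have h1 := ha (((a⁻¹ : OG Q) : (ι → F) ≃ₗ[F] (ι → F)) v)
    rw [og_apply_inv] at h1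
    rw [← h1, ogInv_apply]

lemma mem_Cg {g : CO f} {t : OG Q} :
    t ∈ Cg g ↔ ∀ v, (t : (ι → F) ≃ₗ[F] (ι → F)) (ap g v) = ap g ((t : (ι → F) ≃ₗ[F] (ι → F)) v) := Iff.rfl

lemma pow_apply_eq_smul_of_scalar {t : OG Q} {c : F} (h : ∀ v, (t : (ι → F) ≃ₗ[F] (ι → F)) v = c • v) (m : ℕ) (v : ι → F) :
    ((t ^ m : OG Q) : (ι → F) ≃ₗ[F] (ι → F)) v = c ^ m • v := by
  induction m with
  | zero => simp
  | succ m ih =>
    rw [pow_succ, og_mul_apply, h, map_smul, ih, smul_smul, pow_succ]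
    congr 1
    ring

/-- Odd lifts of elements of an odd group in the fixed points. -/
lemma exists_odd_lift (g : CO f) {M : Subgroup (POmega F f)} (hMfix : M ≤ fixP (psiO f g)) (hodd : Odd (Nat.card M))
    {y : POmega F f} (hy : y ∈ M) :
    ∃ t : siegelE Q, pE D t = y ∧ (t : OG Q) ∈ Cg g ∧ ∃ m, Odd m ∧ t ^ m = 1 := by
  classical
  obtain ⟨t₀, rfl⟩ := pE_surj D y
  set m := orderOf (pE D t₀) with hm
  have hmodd : Odd m := by
    apply Odd.of_dvd_nat hodd
    have h1 : orderOf (⟨pE D t₀, hy⟩ : M) ∣ Nat.card M := orderOf_dvd_natCard _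
    rwa [Subgroup.orderOf_mk] at h1
  obtain ⟨l, hl⟩ := hmodd
  have hm1 : pE D (t₀ ^ m) = 1 := by
    rw [map_pow, hm]
    exact pow_orderOf_eq_one _
  obtain ⟨c₁, hc₁, hc₁t⟩ := (pE_eq_one_iff D _).1 hm1
  obtain ⟨c, hc, hct⟩ := comm_of_fix D g (hMfix hy)
  refine ⟨t₀ ^ (m + 1), ?_, ?_, m, ⟨l, hl⟩, ?_⟩
  · rw [map_pow, pow_succ, hm, pow_orderOf_eq_one, one_mul]
  · have key : ∀ j : ℕ, ∀ v, ap g ((((t₀ ^ j : siegelE Q) : OG Q) : (ι → F) ≃ₗ[F] (ι → F)) v) = c ^ j • (((t₀ ^ j : siegelE Q) : OG Q) : (ι → F) ≃ₗ[F] (ι → F)) (ap g v) := by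
      intro j
      induction j with
      | zero =>
        intro v
        simp
      | succ j ih =>
        intro v
        have e : ∀ w, (((t₀ ^ (j + 1) : siegelE Q) : OG Q) : (ι → F) ≃ₗ[F] (ι → F)) w = (((t₀ ^ j : siegelE Q) : OG Q) : (ι → F) ≃ₗ[F] (ι → F)) ((((t₀ : siegelE Q) : OG Q) : (ι → F) ≃ₗ[F] (ι → F)) w) := by
          intro w
          rw [pow_succ]
          rfl
        rw [e, e, ih, hct, map_smul, smul_smul, pow_succ]
    intro v
    have h1 := key (m + 1) v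
    have h2 : c ^ (m + 1) = 1 := by
      have e : m + 1 = 2 * (l + 1) := by omega
      rw [e, pow_mul, pow_two, hc, one_pow]
    rw [h2, one_smul] at h1
    exact h1.symm
  · apply Subtype.ext
    apply Subtype.ext
    ext v
    have e1 : (((t₀ ^ (m + 1)) ^ m : siegelE Q) : OG Q) = (((t₀ ^ m : siegelE Q) : OG Q)) ^ (m + 1) := by
      rw [← pow_mul, mul_comm, pow_mul]
      rfl
    rw [e1, pow_apply_eq_smul_of_scalar hc₁t]
    have h2 : c₁ ^ (m + 1) = 1 := by
      have e : m + 1 = 2 * (l + 1) := by omega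
      rw [e, pow_mul, pow_two, hc₁, one_pow]
    rw [h2, one_smul]
    rfl

/-- Odd order isometries lie in the Siegel group. -/
lemma mem_E_of_odd (D : Data f Q n) (t : OG Q) {m : ℕ} (hm : Odd m) (ht : t ^ m = 1) : t ∈ siegelE Q := by
  obtain ⟨l, rfl⟩ := hm
  have h1 := (sq_mem_E D.hQ D.hgen D.fr (t ^ (l + 1))).1
  have e : t ^ (l + 1) * t ^ (l + 1) = t := by
    rw [← pow_add]
    have : l + 1 + (l + 1) = (2 * l + 1) + 1 := by ring
    rw [this, pow_succ, ht, one_mul]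
  rwa [e] at h1

/-- An isometry of `Ω` fixing its class under a semisimilarity, of odd order. -/
lemma phi_comm_of_fix {G : GL ι F} {τ : F ≃+* F} (h : IsSemisimilarityPair f G τ) (t : siegelE Q) {m : ℕ} (hm : Odd m)
    (ht : t ^ m = 1) (hβ : gs h (pE D t) = pE D t) (v : ι → F) :
    phi G τ (((t : OG Q) : (ι → F) ≃ₗ[F] (ι → F)) v) = ((t : OG Q) : (ι → F) ≃ₗ[F] (ι → F)) (phi G τ v) := by
  obtain ⟨s, rfl⟩ := (eE D).surjective t
  rw [pE_eE] at hβ
  let θ : MulAut (Omega F f) := restrictAut (commutator (isometryGroup F f)) (resAut f (mkG f h))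
  have hθ : ∀ s : Omega F f, (((θ s : Omega F f) : isometryGroup F f) : GL ι F) = act G τ ((s : isometryGroup F f) : GL ι F) :=
    fun s => rfl
  have hgs : ∀ s : Omega F f, gs h (s : POmega F f) = (θ s : POmega F f) := fun s => rfl
  rw [hgs] at hβ
  have h2 : s⁻¹ * θ s ∈ Subgroup.center (Omega F f) := QuotientGroup.eq.1 hβ.symm
  have hs : s ^ m = 1 := by
    apply (eE D).injective
    rw [map_pow, ht, map_one]
  -- the central element has square one and odd order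
  obtain ⟨c, hc⟩ := (mem_center_omega_iff (sys_of D) _).1 h2
  have hcc := sq_of_scalar_iso (sys_of D) (c := c) (by rw [← hc]; exact ((s⁻¹ * θ s : Omega F f) : isometryGroup F f).2)
  have hz : s⁻¹ * θ s = 1 := by
    set z := s⁻¹ * θ s with hzdef
    have hθs : θ s = s * z := by rw [hzdef]; group
    have hzc : ∀ j : ℕ, (s * z) ^ j = s ^ j * z ^ j := by
      intro j
      have hcz : Commute s z := Subgroup.mem_center_iff.1 h2 s
      exact hcz.mul_pow j
    have h3 : θ s ^ m = 1 := by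
      rw [← map_pow, hs, map_one]
    rw [hθs, hzc, hs, one_mul] at h3
    obtain ⟨l, hl⟩ := hm
    have hzz : z * z = 1 := by
      apply Subtype.ext
      apply Subtype.ext
      change ((z : isometryGroup F f) : GL ι F) * ((z : isometryGroup F f) : GL ι F) = 1
      rw [hc, ← sc_mul, hcc, sc_one]
    rw [hl, pow_succ, pow_mul, pow_two, hzz, one_pow, one_mul] at h3
    exact h3
  have h3 : θ s = s := by
    have := hz
    rwa [inv_mul_eq_one, eq_comm] at this
  have h4 := act_mulVec_phi G τ ((s : isometryGroup F f) : GL ι F) v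
  rw [← hθ, h3] at h4
  rw [eE_apply, eE_apply, h4]

/-! ### The block theorem -/

section block

variable {k W : Type*} [Field k] [Finite k] [AddCommGroup W] [Module k W] [FiniteDimensional k W] {QW : QuadraticForm k W}

/-- The block theorem. -/
theorem block_scalar (g : CO f) (hQW : Nondeg QW) (h2 : (2 : k) ≠ 0) (hdim : 3 ≤ finrank k W) (h4 : finrank k W ≠ 4)
    (ρ : Cg (Q := Q) g →* OG QW)
    (hsc : ∀ (t : Cg (Q := Q) g) (c : F), c * c = 1 → (∀ v, ((t : OG Q) : (ι → F) ≃ₗ[F] (ι → F)) v = c • v) →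
      ∃ a : k, a * a = 1 ∧ ∀ y, ((ρ t : OG QW) : W ≃ₗ[k] W) y = a • y)
    (hl : ∀ σ ∈ siegelSet QW, ∃ t : Cg (Q := Q) g, ρ t = σ ∧ (t : OG Q) ∈ siegelE Q)
    {M : Subgroup (POmega F f)} (hMfix : M ≤ fixP (psiO f g))
    (hMn : ∀ x ∈ fixP (psiO f g), ∀ y ∈ M, x * y * x⁻¹ ∈ M) (hodd : Odd (Nat.card M))
    (t : Cg (Q := Q) g) (ht : (t : OG Q) ∈ siegelE Q) (htM : pE D ⟨(t : OG Q), ht⟩ ∈ M) :
    ∃ a : k, a * a = 1 ∧ ∀ y, ((ρ t : OG QW) : W ≃ₗ[k] W) y = a • y := by
  classical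
  -- the group
  let Tc : Subgroup (Cg (Q := Q) g) :=
    { carrier := {s | ∃ hs : (s : OG Q) ∈ siegelE Q, pE D ⟨(s : OG Q), hs⟩ ∈ M}
      mul_mem' := by
        rintro a b ⟨ha, ha'⟩ ⟨hb, hb'⟩
        refine ⟨mul_mem ha hb, ?_⟩
        have e : (⟨((a * b : Cg (Q := Q) g) : OG Q), mul_mem ha hb⟩ : siegelE Q) = ⟨(a : OG Q), ha⟩ * ⟨(b : OG Q), hb⟩ := rfl
        rw [e, map_mul]
        exact mul_mem ha' hb'
      one_mem' := by
        refine ⟨one_mem _, ?_⟩
        have e : (⟨((1 : Cg (Q := Q) g) : OG Q), one_mem _⟩ : siegelE Q) = 1 := rfl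
        rw [e, map_one]
        exact one_mem _
      inv_mem' := by
        rintro a ⟨ha, ha'⟩
        refine ⟨inv_mem ha, ?_⟩
        have e : (⟨((a⁻¹ : Cg (Q := Q) g) : OG Q), inv_mem ha⟩ : siegelE Q) = (⟨(a : OG Q), ha⟩ : siegelE Q)⁻¹ := rfl
        rw [e, map_inv]
        exact inv_mem ha' }
  have := main_scalar hQW h2 hdim h4 (Tc.map ρ) ?_ ?_ (ρ t) ⟨t, ⟨ht, htM⟩, rfl⟩
  · exact this
  · rintro _ ⟨s, ⟨hs, hsM⟩, rfl⟩
    set m := orderOf (pE D ⟨(s : OG Q), hs⟩) with hm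
    have hmodd : Odd m := by
      apply Odd.of_dvd_nat hodd
      have h1 : orderOf (⟨pE D ⟨(s : OG Q), hs⟩, hsM⟩ : M) ∣ Nat.card M := orderOf_dvd_natCard _
      rwa [Subgroup.orderOf_mk] at h1
    refine ⟨m, hmodd, ?_⟩
    have hm1 : pE D ((⟨(s : OG Q), hs⟩ : siegelE Q) ^ m) = 1 := by
      rw [map_pow, hm]
      exact pow_orderOf_eq_one _
    obtain ⟨c, hc, hct⟩ := (pE_eq_one_iff D _).1 hm1
    have e : (ρ s) ^ m = ρ (s ^ m) := (map_pow ρ s m).symm
    simp only [SetLike.coe_sort_coe, e]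
    exact hsc (s ^ m) c hc hct
  · rintro σ hσ _ ⟨s, ⟨hs, hsM⟩, rfl⟩
    obtain ⟨u, rfl, hu⟩ := hl σ hσ
    refine ⟨u * s * u⁻¹, ⟨mul_mem (mul_mem hu hs) (inv_mem hu), ?_⟩, by simp only [map_mul, map_inv]⟩
    have e : (⟨((u * s * u⁻¹ : Cg (Q := Q) g) : OG Q), mul_mem (mul_mem hu hs) (inv_mem hu)⟩ : siegelE Q) =
        ⟨(u : OG Q), hu⟩ * ⟨(s : OG Q), hs⟩ * (⟨(u : OG Q), hu⟩ : siegelE Q)⁻¹ := rfl
    rw [e, map_mul, map_mul, map_inv]
    exact hMn _ (fix_of_comm D g (t := ⟨(u : OG Q), hu⟩) u.2) _ hsM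

end block

end pE

end Cfsg.Agent.Lib.BalMinus
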