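import Mathlib
import Cfsg.Agent.Lib.BalMinus.Lines

/-!
# The quadratic form over the quadratic extension attached to a similarity with non-square multiplier

`V` is a vector space over `K = F(ω)`, `ω² = ν`, and `q` is a quadratic form over `F` with `q (ω v) = ν q v`.
Then `q` is the trace form of a quadratic form over `K`.
-/

set_option autoImplicit false
set_option linter.unusedSectionVars false
set_option linter.unusedVariables false
set_option linter.unusedSimpArgs false
set_option linter.style.haveILetI false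

namespace Cfsg.Agent.Lib.BalMinus

open QuadraticMap Cfsg.Agent.Lib.OrthoBasic Cfsg.Agent.Lib.OrthoSiegel Module QuadraticAlgebra

variable {F : Type*} [Field F] {ν : F} [hν : Fact (∀ r : F, r ^ 2 ≠ ν + 0 * r)]

/-- The quadratic extension. -/
abbrev KK (ν : F) := QuadraticAlgebra F ν 0

lemma nu_ne_zero : ν ≠ 0 := by
  intro h
  apply hν.out 0
  rw [h]
  ring

variable {V : Type*} [AddCommGroup V] [Module F V] [Module (KK ν) V] [IsScalarTower F (KK ν) V]

variable (ν) in
/-- The generator acting. -/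
def om (v : V) : V := (QuadraticAlgebra.omega : KK ν) • v

lemma smul_decomp (z : KK ν) (v : V) : z • v = z.re • v + z.im • om ν v := by
  have e : z = algebraMap F (KK ν) z.re + z.im • (QuadraticAlgebra.omega : KK ν) := by
    conv_lhs => rw [← QuadraticAlgebra.mk_eta z]
    exact QuadraticAlgebra.mk_eq_add_smul_omega _ _
  conv_lhs => rw [e]
  rw [add_smul, algebraMap_smul, smul_assoc]
  rfl

lemma om_add (u v : V) : om ν (u + v) = om ν u + om ν v := smul_add _ _ _

lemma om_smul (c : F) (v : V) : om ν (c • v) = c • om ν v := by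
  unfold om
  rw [← algebraMap_smul (KK ν) c v, ← algebraMap_smul (KK ν) c ((QuadraticAlgebra.omega : KK ν) • v), smul_smul, smul_smul, mul_comm]

lemma om_om (v : V) : om ν (om ν v) = ν • v := by
  unfold om
  rw [← mul_smul, QuadraticAlgebra.omega_mul_omega_eq_add]
  simp [add_smul, algebraMap_smul]

variable (q : QuadraticForm F V)

variable (ν) in
/-- The compatibility of the form. -/
def OmSim (q : QuadraticForm F V) : Prop := ∀ v, q (om ν v) = ν * q v

variable {q} (hq : OmSim ν q)

include hq in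
lemma polar_om (u v : V) : polar q (om ν u) (om ν v) = ν * polar q u v := by
  simp only [polar, ← om_add, hq u, hq v, hq (u + v)]
  ring

include hq in
lemma polar_om_adj (u v : V) : polar q (om ν u) v = polar q u (om ν v) := by
  have h0 : ν ≠ 0 := nu_ne_zero
  have h1 := polar_om hq u (om ν v)
  rw [om_om, polar_smul_r] at h1
  exact mul_left_cancel₀ h0 (by rw [mul_comm ν, ← h1]; ring)

/-- The bilinear form over `K`. -/
noncomputable def BK (hq : OmSim ν q) : LinearMap.BilinForm (KK ν) V :=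
  LinearMap.mk₂ (KK ν) (fun u v => (⟨polar q u v, polar q (om ν u) v / ν⟩ : KK ν))
    (fun a b c => by
      ext
      · simp [polar_add_left]
      · simp [polar_add_left, om_add, add_div])
    (fun z a c => by
      have h0 : ν ≠ 0 := nu_ne_zero
      rw [smul_decomp]
      ext
      · simp [polar_add_left, polar_smul_l, smul_eq_mul]
        field_simp
      · simp [polar_add_left, polar_smul_l, smul_eq_mul, om_add, om_smul, om_om]
        field_simp)
    (fun a b c => by
      ext
      · simp [polar_add_right]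
      · simp [polar_add_right, add_div])
    (fun z a c => by
      have h0 : ν ≠ 0 := nu_ne_zero
      rw [smul_decomp]
      ext
      · simp [polar_add_right, polar_smul_r, smul_eq_mul, polar_om_adj hq a c]
        field_simp
      · simp [polar_add_right, polar_smul_r, smul_eq_mul, polar_om hq a c, ← polar_om_adj hq a (om ν c), om_om]
        field_simp)

lemma BK_apply (u v : V) : BK hq u v = (⟨polar q u v, polar q (om ν u) v / ν⟩ : KK ν) := rfl

lemma BK_symm (u v : V) : BK hq u v = BK hq v u := by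
  rw [BK_apply, BK_apply]
  ext
  · exact polar_comm _ _ _
  · simp only
    rw [polar_om_adj hq, polar_comm]

/-- The quadratic form over `K`. -/
noncomputable def QK (hq : OmSim ν q) : QuadraticForm (KK ν) V :=
  (2⁻¹ : KK ν) • LinearMap.BilinMap.toQuadraticMap (BK hq)

lemma QK_apply (v : V) : QK hq v = 2⁻¹ * BK hq v v := rfl

lemma two_inv_KK (h2 : (2 : F) ≠ 0) : (2⁻¹ : KK ν) = algebraMap F (KK ν) 2⁻¹ := by
  rw [map_inv₀, map_ofNat]

lemma two_ne_KK (h2 : (2 : F) ≠ 0) : (2 : KK ν) ≠ 0 := by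
  have : (2 : KK ν) = algebraMap F (KK ν) 2 := by rw [map_ofNat]
  rw [this]
  exact (map_ne_zero _).2 h2

lemma polar_QK (h2 : (2 : F) ≠ 0) (u v : V) : polar (QK hq) u v = BK hq u v := by
  have h2' := two_ne_KK (ν := ν) h2
  have h3 : polar (QK hq) u v = 2⁻¹ * (BK hq u v + BK hq v u) := by
    simp only [polar, QK_apply, map_add, LinearMap.add_apply]
    ring
  rw [h3, BK_symm hq v u]
  field_simp
  ring

lemma re_QK (h2 : (2 : F) ≠ 0) (v : V) : (QK hq v).re = q v := by
  have e : ∀ (c : F) (z : KK ν), (algebraMap F (KK ν) c * z).re = c * z.re := fun c z => by simp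
  rw [QK_apply, two_inv_KK h2, e, BK_apply]
  change 2⁻¹ * polar q v v = q v
  rw [polar_self']
  field_simp

lemma im_QK (h2 : (2 : F) ≠ 0) (v : V) : (QK hq v).im = 2⁻¹ * (polar q (om ν v) v / ν) := by
  have e : ∀ (c : F) (z : KK ν), (algebraMap F (KK ν) c * z).im = c * z.im := fun c z => by simp
  rw [QK_apply, two_inv_KK h2, e, BK_apply]

lemma nondeg_QK (h2 : (2 : F) ≠ 0) (hN : Nondeg q) : Nondeg (QK hq) := by
  intro x hx
  obtain ⟨y, hy⟩ := hN x hx
  refine ⟨y, fun h => hy ?_⟩
  rw [polar_QK hq h2, BK_apply] at h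
  exact congrArg QuadraticAlgebra.re h

/-- The isometries commuting with the field. -/
def CgK (ν : F) [Fact (∀ r : F, r ^ 2 ≠ ν + 0 * r)] [Module (KK ν) V] (q : QuadraticForm F V) : Subgroup (OG q) where
  carrier := {t | ∀ v, (t : V ≃ₗ[F] V) (om ν v) = om ν ((t : V ≃ₗ[F] V) v)}
  mul_mem' := by
    intro a b ha hb v
    rw [og_mul_apply, og_mul_apply, hb, ha]
  one_mem' := fun v => rfl
  inv_mem' := by
    intro a ha v
    have h1 := ha (((a⁻¹ : OG q) : V ≃ₗ[F] V) v)
    rw [og_apply_inv] at h1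
    rw [← h1, ogInv_apply]

variable [FiniteDimensional (KK ν) V]

/-- The `K`-linear map of an isometry commuting with the field. -/
noncomputable def linK (t : CgK ν q) : V →ₗ[KK ν] V where
  toFun := (t : OG q)
  map_add' := map_add _
  map_smul' z v := by
    rw [smul_decomp, smul_decomp, map_add, map_smul, map_smul, t.2 v]
    rfl

lemma linK_apply (t : CgK ν q) (v : V) : linK t v = ((t : OG q) : V ≃ₗ[F] V) v := rfl

lemma QK_linK (h2 : (2 : F) ≠ 0) (t : CgK ν q) (v : V) : QK hq (linK t v) = QK hq v := by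
  rw [QK_apply, QK_apply, BK_apply, BK_apply, linK_apply, ← t.2 v, OG_polar, OG_polar]

/-- The map to the orthogonal group over `K`. -/
noncomputable def rhoK (hq : OmSim ν q) (h2 : (2 : F) ≠ 0) (hN : Nondeg q) : CgK ν q →* OG (QK hq) :=
  MonoidHom.mk' (fun t => OG.ofLinear (nondeg_QK hq h2 hN) (linK t) (QK_linK hq h2 t)) (by
    intro a b
    apply Subtype.ext
    ext x
    rfl)

lemma rhoK_apply (h2 : (2 : F) ≠ 0) (hN : Nondeg q) (t : CgK ν q) (y : V) :
    ((rhoK hq h2 hN t : OG (QK hq)) : V ≃ₗ[KK ν] V) y = ((t : OG q) : V ≃ₗ[F] V) y := rfl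

/-- The isometries over `K` are isometries over `F`. -/
noncomputable def toFK (h2 : (2 : F) ≠ 0) (σ : OG (QK hq)) : OG q :=
  ⟨(σ : V ≃ₗ[KK ν] V).restrictScalars F, fun x => by
    change q ((σ : V ≃ₗ[KK ν] V) x) = q x
    rw [← re_QK hq h2, ← re_QK hq h2, OG_apply]⟩

lemma toFK_apply (h2 : (2 : F) ≠ 0) (σ : OG (QK hq)) (x : V) :
    ((toFK hq h2 σ : OG q) : V ≃ₗ[F] V) x = (σ : V ≃ₗ[KK ν] V) x := rfl

lemma toFK_mem (h2 : (2 : F) ≠ 0) (σ : OG (QK hq)) : toFK hq h2 σ ∈ CgK ν q := by
  intro v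
  rw [toFK_apply, toFK_apply]
  exact map_smul _ _ _

lemma rhoK_toFK (h2 : (2 : F) ≠ 0) (hN : Nondeg q) (σ : OG (QK hq)) :
    rhoK hq h2 hN ⟨toFK hq h2 σ, toFK_mem hq h2 σ⟩ = σ := by
  apply Subtype.ext
  ext x
  rfl

lemma toFK_pow (h2 : (2 : F) ≠ 0) (σ : OG (QK hq)) (j : ℕ) : toFK hq h2 σ ^ j = toFK hq h2 (σ ^ j) := by
  induction j with
  | zero =>
    apply Subtype.ext
    ext x
    rfl
  | succ j ih =>
    rw [pow_succ, ih, pow_succ]
    apply Subtype.ext
    ext x
    rfl

/-- A Siegel transformation over `K`, lifted. -/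
lemma lift_K (h2 : (2 : F) ≠ 0) (hN : Nondeg q) {p : ℕ} (hp : ∀ y : V, p • y = 0) {σ : OG (QK hq)} (hσ : σ ∈ siegelSet (QK hq)) :
    toFK hq h2 σ ^ p = 1 := by
  obtain ⟨e, y, he, hy, hs⟩ := hσ
  have hσ' : σ = siegel (nondeg_QK hq h2 hN) he hy := by
    apply Subtype.ext
    ext x
    exact hs x
  rw [toFK_pow, hσ', siegel_pow_eq_one _ he hy (hp y)]
  apply Subtype.ext
  ext x
  rfl

omit [FiniteDimensional (KK ν) V] in
lemma finrank_KK [Finite F] [FiniteDimensional F V] : 2 * finrank (KK ν) V = finrank F V := by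
  have h := Module.finrank_mul_finrank F (KK ν) V
  rwa [QuadraticAlgebra.finrank_eq_two] at h

lemma eq_one_of_odd_pow' {k : Type*} [Field k] {a : k} (ha : a * a = 1) {m : ℕ} (hm : Odd m) (h : a ^ m = 1) : a = 1 := by
  obtain ⟨l, rfl⟩ := hm
  rw [pow_succ, pow_mul, pow_two, ha, one_pow, one_mul] at h
  exact h

end Cfsg.Agent.Lib.BalMinus
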