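import Mathlib
import Cfsg.Agent.Lib.BalMinus.Core

/-!
# Involutions of type I: isometries with square one and determinant `-1`
-/

set_option autoImplicit false
set_option linter.unusedSectionVars false
set_option linter.unusedVariables false
set_option linter.unusedSimpArgs false
set_option linter.style.haveILetI false

namespace Cfsg.Agent.Lib.BalMinus

open Module QuadraticMap Cfsg.Agent.Lib.OrthoBasic Cfsg.Agent.Lib.OrthoSiegel Cfsg.Agent.Lib.OrthoGen
  Cfsg.Agent.Lib.OrthoFinal Cfsg.Agent.Lib.PgoPsi Cfsg.Agent.Lib.PgoGroup Cfsg.Agent.Lib.GammaCount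
  Cfsg.Agent.Lib.Hilbert90 Cfsg.Agent.Lib.QuadFF Cfsg.Agent.Lib.QuadClass Cfsg.Agent.Lib.OrthoCount
  Cfsg.Agent.Lib.OrthoChar Cfsg.Agent.Lib.OrthoIndex Cfsg.Agent.Lib.AutPOm Cfsg.Agent.Lib.PgoParity
  Cfsg.Agent.Lib.OrthoOrder Cfsg.Agent.Lib.PgoClass Cfsg.Agent.Lib.AutOrthOut Cfsg.Agent.Lib.PgoSim
  Cfsg.Agent.Lib.PgoSim.Data Cfsg.Agent.Lib.PgoGraphInv Cfsg.Agent.Lib.PgoInndiag Cfsg.Agent.Lib.AutOrth
open Cfsg Matrix

variable {ι : Type} [Fintype ι] [DecidableEq ι] {F : Type*} [Field F] [Fintype F] {f : (ι → F) → F}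
  {Q : QuadraticForm F (ι → F)} {n : ℕ}

/-- The restricted form. -/
abbrev QB (Q : QuadraticForm F (ι → F)) (W : Submodule F (ι → F)) : QuadraticForm F W := Q.comp W.subtype

lemma polar_QB {W : Submodule F (ι → F)} (a b : W) : polar (QB Q W) a b = polar Q (a : ι → F) (b : ι → F) :=
  polar_comp_subtype W a b

lemma nondeg_QB {W : Submodule F (ι → F)} (hW : NDsub Q W) : Nondeg (QB Q W) := by
  intro a ha
  have ha' : (a : ι → F) ≠ 0 := fun h => ha (Subtype.ext h)
  obtain ⟨b, hb, hab⟩ := hW a a.2 ha'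
  refine ⟨⟨b, hb⟩, ?_⟩
  rw [polar_QB]
  exact hab

/-- The characteristic. -/
lemma odd_ringChar (D : Data f Q n) : Odd (ringChar F) := by
  have h1 : (ringChar F).Prime := CharP.char_is_prime F (ringChar F)
  exact h1.odd_of_ne_two D.char_ne

lemma ringChar_nsmul {V : Type*} [AddCommGroup V] [Module F V] (y : V) : ringChar F • y = 0 := by
  rw [← Nat.cast_smul_eq_nsmul F, ringChar.Nat.cast_ringChar, zero_smul]

section typeI

variable (D : Data f Q n) {e : CO f} (he1 : D.multC e = 1) (he2 : e * e = 1)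

include D he1 he2 in
/-- Siegel transformations in an eigenspace commute with the isometry. -/
lemma siegel_comm_e {ε : F} (hε : ε * ε = 1) {u y : ι → F} (hu : u ∈ eigen e ε) (hy : y ∈ eigen e ε) (v : ι → F) :
    siegelLin Q u y (ap e v) = ap e (siegelLin Q u y v) := by
  have hu' : ap e u = ε • u := hu
  have hy' : ap e y = ε • y := hy
  have h1 : polar Q (ap e v) u = ε * polar Q v u := by
    rw [polar_comm, polar_ap_e D he1 he2 hε hu, polar_comm]
  have h2 : polar Q (ap e v) y = ε * polar Q v y := by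
    rw [polar_comm, polar_ap_e D he1 he2 hε hy, polar_comm]
  rw [siegelLin_apply, siegelLin_apply, h1, h2, ap_sub, ap_add, ap_smul, ap_smul, hu', hy']
  module

include D he1 he2 in
lemma eigen_stable {ε : F} {t : OG Q} (ht : t ∈ Cg e) {v : ι → F} (hv : v ∈ eigen e ε) :
    (t : (ι → F) ≃ₗ[F] (ι → F)) v ∈ eigen e ε := by
  change ap e _ = _
  rw [← ht v, (hv : ap e v = ε • v), map_smul]

/-- The restriction to an eigenspace. -/
noncomputable def rhoI {ε : F} (hW : NDsub Q (eigen e ε)) : Cg (Q := Q) e →* OG (QB Q (eigen e ε)) :=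
  MonoidHom.mk' (fun t => OG.ofLinear (nondeg_QB hW)
    (LinearMap.restrict ((t : OG Q) : (ι → F) ≃ₗ[F] (ι → F)).toLinearMap (fun v hv => by
      change ap e (((t : OG Q) : (ι → F) ≃ₗ[F] (ι → F)) v) = ε • ((t : OG Q) : (ι → F) ≃ₗ[F] (ι → F)) v
      rw [← t.2 v, (hv : ap e v = ε • v), map_smul]))
    (fun x => by
      change Q (((t : OG Q) : (ι → F) ≃ₗ[F] (ι → F)) x) = Q x
      exact OG_apply Q t x)) (by
    intro a b
    apply Subtype.ext
    ext x
    rfl)

lemma rhoI_apply {ε : F} (hW : NDsub Q (eigen e ε)) (t : Cg (Q := Q) e) (y : eigen e ε) :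
    ((((rhoI hW t : OG (QB Q (eigen e ε))) : eigen e ε ≃ₗ[F] eigen e ε) y : eigen e ε) : ι → F) =
      ((t : OG Q) : (ι → F) ≃ₗ[F] (ι → F)) y := rfl

lemma eq_one_of_odd_pow {a : F} (ha : a * a = 1) {m : ℕ} (hm : Odd m) (h : a ^ m = 1) : a = 1 := by
  obtain ⟨l, rfl⟩ := hm
  rw [pow_succ, pow_mul, pow_two, ha, one_pow, one_mul] at h
  exact h

include he1 he2 in
/-- The action on an eigenspace of an element of an odd normal subgroup. -/
theorem block_I {ε : F} (hε : ε * ε = 1) (hdim : Odd (finrank F (eigen e ε))) {M : Subgroup (POmega F f)}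
    (hMfix : M ≤ fixP (psiO f e)) (hMn : ∀ x ∈ fixP (psiO f e), ∀ y ∈ M, x * y * x⁻¹ ∈ M) (hodd : Odd (Nat.card M))
    (t : siegelE Q) (htC : (t : OG Q) ∈ Cg e) (htM : pE D t ∈ M) {m : ℕ} (hm : Odd m) (htm : t ^ m = 1) :
    ∀ v ∈ eigen e ε, ((t : OG Q) : (ι → F) ≃ₗ[F] (ι → F)) v = v := by
  have h2 := char_ne_two_of_odd D.hodd
  have hW := ND_eigen D he1 he2 h2 hε
  have hne : eigen e ε ≠ ⊥ := by
    intro h
    rw [h] at hdim
    simp at hdim
  obtain ⟨x₀, hx₀, hx₀Q⟩ := exists_Q_ne_of_ND hW hne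
  have hx₀0 : x₀ ≠ 0 := by
    rintro rfl
    simp at hx₀Q
  -- the scalar
  obtain ⟨a, ha, hat⟩ : ∃ a : F, a * a = 1 ∧ ∀ v ∈ eigen e ε, ((t : OG Q) : (ι → F) ≃ₗ[F] (ι → F)) v = a • v := by
    by_cases h3 : 3 ≤ finrank F (eigen e ε)
    · have h4 : finrank F (eigen e ε) ≠ 4 := by
        intro h
        rw [h] at hdim
        exact absurd hdim (by decide)
      obtain ⟨a, ha, hat⟩ := block_scalar D e (nondeg_QB hW) h2 h3 h4 (rhoI hW)
        (fun s c hc hs => ⟨c, hc, fun y => by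
          apply Subtype.ext
          rw [rhoI_apply, hs]
          rfl⟩)
        (fun σ hσ => by
          obtain ⟨u, y, hu, hy, hs⟩ := hσ
          have hu' : Q (u : ι → F) = 0 := hu
          have hy' : polar Q (u : ι → F) (y : ι → F) = 0 := by
            rw [← polar_QB]
            exact hy
          refine ⟨⟨siegel D.hQ hu' hy', fun v => ?_⟩, ?_, siegel_mem D.hQ hu' hy'⟩
          · rw [siegel_apply, siegel_apply]
            exact siegel_comm_e D he1 he2 hε u.2 y.2 v
          · apply Subtype.ext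
            ext x
            rw [hs x]
            rw [rhoI_apply, siegel_apply, siegelLin_apply, siegelLin_apply]
            simp only [polar_QB]
            rfl)
        hMfix hMn hodd ⟨t, htC⟩ t.2 htM
      refine ⟨a, ha, fun v hv => ?_⟩
      have h5 := hat ⟨v, hv⟩
      have h6 := congrArg Subtype.val h5
      rw [rhoI_apply] at h6
      exact h6
    · have h4 : finrank F (eigen e ε) = 1 := by
        obtain ⟨l, hl⟩ := hdim
        omega
      have hspan : ∀ v ∈ eigen e ε, ∃ c : F, v = c • x₀ := by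
        intro v hv
        have h5 := (finrank_eq_one_iff_of_nonzero' (⟨x₀, hx₀⟩ : eigen e ε) (fun h => hx₀0 (congrArg Subtype.val h))).1 h4 ⟨v, hv⟩
        obtain ⟨c, hc⟩ := h5
        exact ⟨c, (congrArg Subtype.val hc).symm⟩
      obtain ⟨a, ha⟩ := hspan _ (eigen_stable D he1 he2 htC hx₀)
      refine ⟨a, ?_, fun v hv => ?_⟩
      · have h5 := OG_apply Q (t : OG Q) x₀
        rw [ha, Q_smul] at h5
        have h6 : (a ^ 2 - 1) * Q x₀ = 0 := by linear_combination h5
        have h7 := (mul_eq_zero.1 h6).resolve_right hx₀Q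
        linear_combination h7
      · obtain ⟨c, rfl⟩ := hspan v hv
        rw [map_smul, ha, smul_comm]
  have hpow : ∀ j : ℕ, ∀ v ∈ eigen e ε, (((t ^ j : siegelE Q) : OG Q) : (ι → F) ≃ₗ[F] (ι → F)) v = a ^ j • v := by
    intro j
    induction j with
    | zero =>
      intro v _
      simp
    | succ j ih =>
      intro v hv
      have e1 : (((t ^ (j + 1) : siegelE Q) : OG Q) : (ι → F) ≃ₗ[F] (ι → F)) v =
          (((t ^ j : siegelE Q) : OG Q) : (ι → F) ≃ₗ[F] (ι → F)) (((t : OG Q) : (ι → F) ≃ₗ[F] (ι → F)) v) := by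
        rw [pow_succ]
        rfl
      rw [e1, hat v hv, map_smul, ih v hv, smul_smul, pow_succ, mul_comm]
  have ham : a ^ m = 1 := by
    have h5 := hpow m x₀ hx₀
    rw [htm] at h5
    have h6 : x₀ = a ^ m • x₀ := h5
    have h7 : (a ^ m - 1) • x₀ = 0 := by
      rw [sub_smul, one_smul, ← h6, sub_self]
    have h8 := (smul_eq_zero.1 h7).resolve_right hx₀0
    exact sub_eq_zero.1 h8
  have ha1 := eq_one_of_odd_pow ha hm ham
  intro v hv
  rw [hat v hv, ha1, one_smul]

include he2 in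
/-- The eigenspaces are complementary. -/
lemma isCompl_eigen (h2 : (2 : F) ≠ 0) : IsCompl (eigen e (1 : F)) (eigen e (-1 : F)) := by
  refine ⟨?_, ?_⟩
  · rw [Submodule.disjoint_def]
    intro v h1 h3
    have h4 : ap e v = (1 : F) • v := h1
    have h5 : ap e v = (-1 : F) • v := h3
    rw [h4] at h5
    have h6 : (2 : F) • v = 0 := by
      rw [two_smul]
      nth_rewrite 1 [← one_smul F v]
      rw [h5]
      simp
    exact (smul_eq_zero.1 h6).resolve_left h2
  · rw [codisjoint_iff]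
    exact sup_eigen he2 h2

include he2 in
/-- The determinant and the dimension of the `-1`-eigenspace. -/
lemma det_eq_pow (h2 : (2 : F) ≠ 0) :
    ((e : GL ι F) : Matrix ι ι F).det = (-1 : F) ^ finrank F (eigen e (-1 : F)) := by
  have hC := isCompl_eigen he2 h2
  let E := Submodule.prodEquivOfIsCompl _ _ hC
  let T₂ : (eigen e (1 : F) × eigen e (-1 : F)) →ₗ[F] (eigen e (1 : F) × eigen e (-1 : F)) :=
    LinearMap.prodMap LinearMap.id ((-1 : F) • LinearMap.id)
  have hdet : LinearMap.det T₂ = (-1 : F) ^ finrank F (eigen e (-1 : F)) := by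
    simp only [T₂]
    rw [LinearMap.det_prodMap, LinearMap.det_id, LinearMap.det_smul, LinearMap.det_id]
    simp
  have hT : Matrix.toLin' ((e : GL ι F) : Matrix ι ι F) = (E : _ →ₗ[F] (ι → F)) ∘ₗ T₂ ∘ₗ (E.symm : (ι → F) →ₗ[F] _) := by
    apply LinearMap.ext
    intro v
    obtain ⟨⟨a, b⟩, rfl⟩ := E.surjective v
    simp only [LinearMap.comp_apply, LinearEquiv.coe_coe, LinearEquiv.symm_apply_apply, Matrix.toLin'_apply]
    have h3 : ap e (a : ι → F) = (1 : F) • (a : ι → F) := a.2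
    have h4 : ap e (b : ι → F) = (-1 : F) • (b : ι → F) := b.2
    change ap e (E (a, b)) = E (T₂ (a, b))
    have e1 : E (a, b) = (a : ι → F) + (b : ι → F) := rfl
    have e2 : E (T₂ (a, b)) = (a : ι → F) + (-1 : F) • (b : ι → F) := rfl
    rw [e1, e2, ap_add, h3, h4, one_smul]
  rw [← LinearMap.det_toLin', hT, LinearMap.det_conj, hdet]

include D he1 he2 in
/-- The dimensions of the eigenspaces are odd. -/
lemma odd_finrank (hδ : D.delta e = -1) :
    Odd (finrank F (eigen e (1 : F))) ∧ Odd (finrank F (eigen e (-1 : F))) := by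
  have h2 := char_ne_two_of_odd D.hodd
  have h3 : ((e : GL ι F) : Matrix ι ι F).det = -1 := by
    rw [delta_apply, he1] at hδ
    simp only [one_pow, inv_one, mul_one, detC_apply] at hδ
    have := congrArg Units.val hδ
    simpa using this
  have hodd : Odd (finrank F (eigen e (-1 : F))) := by
    rw [← Nat.not_even_iff_odd]
    intro hev
    rw [det_eq_pow he2 h2, hev.neg_one_pow] at h3
    apply h2
    linear_combination h3
  refine ⟨?_, hodd⟩
  have h4 := Submodule.finrank_add_eq_of_isCompl (isCompl_eigen he2 h2)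
  rw [Module.finrank_fintype_fun_eq_card, D.hcard] at h4
  rw [← Nat.not_even_iff_odd]
  intro hev
  obtain ⟨a, ha⟩ := hev
  obtain ⟨b, hb⟩ := hodd
  omega

include he1 he2 in
/-- Type I: odd normal subgroups of the fixed points are trivial. -/
theorem hA_I (hδ : D.delta e = -1) (M : Subgroup (POmega F f)) (hMfix : M ≤ fixP (psiO f e))
    (hMn : ∀ x ∈ fixP (psiO f e), ∀ y ∈ M, x * y * x⁻¹ ∈ M) (hodd : Odd (Nat.card M)) : M = ⊥ := by
  have h2 := char_ne_two_of_odd D.hodd
  obtain ⟨hd1, hd2⟩ := odd_finrank D he1 he2 hδ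
  rw [eq_bot_iff]
  intro y hy
  obtain ⟨t, rfl, htC, m, hm, htm⟩ := exists_odd_lift D e hMfix hodd hy
  have h3 := block_I D he1 he2 (ε := (1 : F)) (one_mul 1) hd1 hMfix hMn hodd t htC hy hm htm
  have h4 := block_I D he1 he2 (ε := (-1 : F)) (by ring) hd2 hMfix hMn hodd t htC hy hm htm
  have h5 : t = 1 := by
    apply Subtype.ext
    apply Subtype.ext
    ext v
    have hv : v ∈ eigen e (1 : F) ⊔ eigen e (-1 : F) := by
      rw [sup_eigen he2 h2]
      trivial
    obtain ⟨a, ha, b, hb, rfl⟩ := Submodule.mem_sup.1 hv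
    rw [map_add, h3 a ha, h4 b hb]
    rfl
  rw [h5, map_one]
  exact one_mem _

include he1 he2 in
/-- Type I: automorphisms fixing the fixed points. -/
theorem hB_I (hΓ : gammaPOmega F f = ⊤) (hcent : Subgroup.center (POmega F f) = ⊥) {ε : F} (hε : ε * ε = 1)
    (hdim : 5 ≤ finrank F (eigen e ε)) (β : MulAut (POmega F f)) (hβc : Commute β (psiO f e)) (hβo : Odd (orderOf β))
    (hβf : ∀ k ∈ fixP (psiO f e), β k = k) : β = 1 ∨ ∃ k ∈ fixP (psiO f e), β = MulAut.conj k := by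
  classical
  right
  have h2 := char_ne_two_of_odd D.hodd
  have hW := ND_eigen D he1 he2 h2 hε
  have hNW := nondeg_QB hW
  obtain ⟨G, τ, h, rfl⟩ := gs_range β (by rw [hΓ]; trivial)
  let S : (ι → F) →+ (ι → F) := AddMonoidHom.mk' (phi G τ) (phi_add G τ)
  have hS : ∀ v, S v = phi G τ v := fun _ => rfl
  have hinj : Function.Injective S := phi_injective G τ
  have hline : ∀ u ∈ eigen e ε, Q u = 0 → ∀ c : F, ∃ c' : F, S (c • u) = c' • u := by
    intro u hu hQu c
    by_cases hu0 : u = 0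
    · refine ⟨0, ?_⟩
      rw [hu0, smul_zero, smul_zero, map_zero]
    have hu0' : (⟨u, hu⟩ : eigen e ε) ≠ 0 := fun h => hu0 (congrArg Subtype.val h)
    obtain ⟨v, hv, huv⟩ := exists_singular_partner hNW (u := ⟨u, hu⟩) hQu hu0'
    obtain ⟨w, hw1, hw2, hw⟩ := exists_nonsingular_perp hNW (u := ⟨u, hu⟩) hQu hv huv (by omega)
    rw [polar_QB] at hw1
    have huw : polar Q u (w : ι → F) = 0 := by
      rw [polar_comm]
      exact hw1
    have hwQ : Q (w : ι → F) ≠ 0 := hw
    set t : siegelE Q := ⟨siegel D.hQ hQu huw, siegel_mem _ _ _⟩ with ht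
    have htC : (t : OG Q) ∈ Cg e := fun v => by
      rw [ht]
      exact siegel_comm_e D he1 he2 hε hu w.2 v
    have hfix : gs h (pE D t) = pE D t := hβf _ (fix_of_comm D e htC)
    have hpow : t ^ ringChar F = 1 := by
      apply Subtype.ext
      exact siegel_pow_eq_one D.hQ hQu huw (ringChar_nsmul _)
    have hcomm := phi_comm_of_fix D h t (odd_ringChar D) hpow hfix
    obtain ⟨y₀, hy₀⟩ := D.hQ u hu0
    obtain ⟨y, hy⟩ : ∃ y, polar Q y u = 1 := ⟨(polar Q u y₀)⁻¹ • y₀, by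
      rw [polar_smul_l, polar_comm Q y₀ u, inv_mul_cancel₀ hy₀]⟩
    exact line_of_comm S h2 hQu huw hwQ (fun v => hcomm v) hy c
  obtain ⟨e₁, f₁, e₂, f₂, h₁, h₂, h3, h4, h5, h6⟩ := exists_two_pairs hNW h2 hdim
  rw [polar_QB] at h3 h4 h5 h6
  have h₁' : IsHypPair Q (e₁ : ι → F) (f₁ : ι → F) := ⟨h₁.Qe, h₁.Qf, by rw [← polar_QB]; exact h₁.B⟩
  have h₂' : IsHypPair Q (e₂ : ι → F) (f₂ : ι → F) := ⟨h₂.Qe, h₂.Qf, by rw [← polar_QB]; exact h₂.B⟩
  obtain ⟨hτ, l, hl⟩ := scalar_on_block (k := F) (F := F) S hinj τ (fun c v => phi_smul G τ c v) (eigen e ε) hline e₁.2 f₁.2 e₂.2 f₂.2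
    h₁' h₂' h3 h4 h5 h6
  have hτ' : τ = RingEquiv.refl F := RingEquiv.ext hτ
  subst hτ'
  set g₁ : CO f := ⟨G, mem_CO_of_semisim h⟩ with hg₁
  have hβ : gs h = psiO f g₁ := gs_eq_dl' h
  have hap : ∀ v ∈ eigen e ε, ap g₁ v = l • v := fun v hv => hl v hv
  have hne : e₁ ≠ 0 := fun h0 => h₁.ne_zero_left h0
  have hne' : (e₁ : ι → F) ≠ 0 := fun h0 => hne (Subtype.ext h0)
  have hl0 : l ≠ 0 := by
    rintro rfl
    have h7 := hl e₁ e₁.2
    rw [zero_smul] at h7
    apply hne'
    apply hinj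
    rw [h7, map_zero]
  set L : Fˣ := Units.mk0 l hl0 with hL
  set x₀ : ι → F := (e₁ : ι → F) + (f₁ : ι → F) with hx₀
  have hx₀W : x₀ ∈ eigen e ε := Submodule.add_mem _ e₁.2 f₁.2
  have hx₀Q : Q x₀ = 1 := by
    rw [hx₀, Q_add, h₁'.Qe, h₁'.Qf, h₁'.B]
    ring
  have hx₀0 : x₀ ≠ 0 := by
    intro h0
    rw [h0] at hx₀Q
    simp at hx₀Q
  have hmult : D.multC g₁ = L * L := by
    apply Units.ext
    have h7 := Q_ap D g₁ x₀
    rw [hap x₀ hx₀W, Q_smul, hx₀Q] at h7
    simp only [Units.val_mul, hL, Units.val_mk0]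
    linear_combination -h7
  set G₂ : CO f := D.scalC L⁻¹ * g₁ with hG₂
  have hmult₂ : D.multC G₂ = 1 := by
    rw [hG₂, map_mul, multC_scalC, hmult]
    group
  have hψ : psiO f G₂ = psiO f g₁ := by
    rw [hG₂, map_mul, D.psiO_scalC, one_mul]
  have hap₂ : ∀ v ∈ eigen e ε, ap G₂ v = v := by
    intro v hv
    rw [hG₂, ap_mul, ap_scalC, hap v hv, smul_smul]
    have : ((L⁻¹ : Fˣ) : F) * l = 1 := by
      rw [hL]
      simp [hl0]
    rw [this, one_smul]
  have hiso : (G₂ : GL ι F) ∈ isometryGroup F f := by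
    rw [mem_iso_iff]
    intro u
    have h7 := D.multC_spec G₂ u
    rw [hmult₂] at h7
    simpa using h7
  let a : isometryGroup F f := ⟨G₂, hiso⟩
  have haC : isoC a = G₂ := Subtype.ext rfl
  set m := orderOf (gs h) with hm
  have hβm : (psiO f G₂) ^ m = 1 := by
    rw [hψ, ← hβ, hm]
    exact pow_orderOf_eq_one _
  rw [← map_pow] at hβm
  obtain ⟨c, hc⟩ := (D.psiO_eq_one_iff _).1 hβm
  have hpowap : ∀ j : ℕ, ∀ v ∈ eigen e ε, ap (G₂ ^ j) v = v := by
    intro j
    induction j with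
    | zero =>
      intro v _
      rw [pow_zero, ap_one]
    | succ j ih =>
      intro v hv
      rw [pow_succ, ap_mul, hap₂ v hv, ih v hv]
  have hc1 : c = 1 := by
    have h7 := hpowap m x₀ hx₀W
    rw [hc, ap_scalC] at h7
    apply Units.ext
    have h8 : ((c : F) - 1) • x₀ = 0 := by
      rw [sub_smul, one_smul, h7, sub_self]
    have h9 := (smul_eq_zero.1 h8).resolve_right hx₀0
    exact sub_eq_zero.1 h9
  have hG₂m : G₂ ^ m = 1 := by
    rw [hc, hc1, D.scalC_one]
  have ham : a ^ m = 1 := by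
    apply Subtype.ext
    have h7 := congrArg Subtype.val hG₂m
    exact h7
  have htm : (D.toOG a) ^ m = 1 := by
    rw [← map_pow, ham, map_one]
  have hE := mem_E_of_odd D _ hβo htm
  have ha : a ∈ Omega F f := (D.mem_omega_iff' a).2 hE
  set s : Omega F f := ⟨a, ha⟩ with hs
  have hs1 : omCO s = G₂ := Subtype.ext rfl
  have hconj : gs h = MulAut.conj (s : POmega F f) := by
    rw [hβ, ← hψ, ← hs1]
    exact dl_omCO s
  refine ⟨(s : POmega F f), ?_, hconj⟩
  rw [hconj] at hβc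
  have h7 := conj_conj_aut (psiO f e) (s : POmega F f)
  have h8 : psiO f e * MulAut.conj (s : POmega F f) * (psiO f e)⁻¹ = MulAut.conj (s : POmega F f) := by
    rw [← hβc.eq]
    group
  rw [h8] at h7
  have h9 : MulAut.conj (psiO f e (s : POmega F f) * (s : POmega F f)⁻¹) = 1 := by
    rw [map_mul, map_inv, ← h7, mul_inv_cancel]
  have h10 := eq_one_of_conj_eq_one hcent h9
  exact mul_inv_eq_one.1 h10

end typeI

end Cfsg.Agent.Lib.BalMinus
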