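import Mathlib
import Cfsg.Agent.Lib.BalMinus.TypeI
import Cfsg.Agent.Lib.BalMinus.KForm

/-!
# Involutions of type II: self-adjoint similarities with non-square multiplier
-/

set_option autoImplicit false
set_option linter.unusedSectionVars false
set_option linter.unusedVariables false
set_option linter.unusedSimpArgs false
set_option linter.style.haveILetI false

namespace Cfsg.Agent.Lib.BalMinus

open Module QuadraticMap Cfsg.Agent.Lib.OrthoBasic Cfsg.Agent.Lib.OrthoSiegel Cfsg.Agent.Lib.OrthoGen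
  Cfsg.Agent.Lib.OrthoFinal Cfsg.Agent.Lib.PgoPsi Cfsg.Agent.Lib.PgoGroup Cfsg.Agent.Lib.GammaCount
  Cfsg.Agent.Lib.Hilbert90 Cfsg.Agent.Lib.QuadFF Cfsg.Agent.Lib.QuadClass Cfsg.Agent.Lib.OrthoCount
  Cfsg.Agent.Lib.OrthoChar Cfsg.Agent.Lib.OrthoIndex Cfsg.Agent.Lib.AutPOm Cfsg.Agent.Lib.PgoParity
  Cfsg.Agent.Lib.OrthoOrder Cfsg.Agent.Lib.PgoClass Cfsg.Agent.Lib.AutOrthOut Cfsg.Agent.Lib.PgoSim
  Cfsg.Agent.Lib.PgoSim.Data Cfsg.Agent.Lib.PgoGraphInv Cfsg.Agent.Lib.PgoInndiag Cfsg.Agent.Lib.AutOrth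
open Cfsg Matrix

variable {ι : Type} [Fintype ι] [DecidableEq ι] {F : Type*} [Field F] [Fintype F] {f : (ι → F) → F}
  {Q : QuadraticForm F (ι → F)} {n : ℕ}

section setup

variable {g : CO f} {ν : F} [Fact (∀ r : F, r ^ 2 ≠ ν + 0 * r)]

/-- The module structure over the quadratic extension. -/
@[reducible] noncomputable def modK (hg : ∀ v, ap g (ap g v) = ν • v) : Module (KK ν) (ι → F) where
  smul z v := z.re • v + z.im • ap g v
  one_smul v := by
    change (1 : KK ν).re • v + (1 : KK ν).im • ap g v = v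
    simp only [QuadraticAlgebra.re_one, QuadraticAlgebra.im_one, one_smul, zero_smul, add_zero]
  mul_smul z w v := by
    change (z * w).re • v + (z * w).im • ap g v = z.re • (w.re • v + w.im • ap g v) + z.im • ap g (w.re • v + w.im • ap g v)
    rw [ap_add, ap_smul, ap_smul, hg]
    simp only [QuadraticAlgebra.re_mul, QuadraticAlgebra.im_mul]
    module
  smul_zero z := by
    change z.re • (0 : ι → F) + z.im • ap g 0 = 0
    have : ap g (0 : ι → F) = 0 := by simp [ap]
    rw [this]
    simp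
  smul_add z a b := by
    change z.re • (a + b) + z.im • ap g (a + b) = (z.re • a + z.im • ap g a) + (z.re • b + z.im • ap g b)
    rw [ap_add]
    module
  add_smul x y v := by
    change (x + y).re • v + (x + y).im • ap g v = (x.re • v + x.im • ap g v) + (y.re • v + y.im • ap g v)
    simp only [QuadraticAlgebra.re_add, QuadraticAlgebra.im_add]
    module
  zero_smul v := by
    change (0 : KK ν).re • v + (0 : KK ν).im • ap g v = 0
    simp

lemma modK_tower (hg : ∀ v, ap g (ap g v) = ν • v) :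
    @IsScalarTower F (KK ν) (ι → F) _ (modK hg).toSMul _ := by
  letI := modK hg
  refine ⟨fun c z v => ?_⟩
  change (c • z).re • v + (c • z).im • ap g v = c • (z.re • v + z.im • ap g v)
  simp only [QuadraticAlgebra.re_smul, QuadraticAlgebra.im_smul, smul_eq_mul]
  module

lemma modK_om (hg : ∀ v, ap g (ap g v) = ν • v) (v : ι → F) :
    letI := modK hg
    om ν v = ap g v := by
  letI := modK hg
  change (QuadraticAlgebra.omega : KK ν).re • v + (QuadraticAlgebra.omega : KK ν).im • ap g v = ap g v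
  simp

end setup

section typeII

variable (D : Data f Q n) {g : CO f}

/-- Type II: odd normal subgroups of the fixed points are trivial. -/
theorem hA_II (hns : ¬ IsSquare (D.multC g)) (hg : g * g = D.scalC (D.multC g)) (hn : 3 ≤ n) (hodd : Odd n)
    (M : Subgroup (POmega F f)) (hMfix : M ≤ fixP (psiO f g))
    (hMn : ∀ x ∈ fixP (psiO f g), ∀ y ∈ M, x * y * x⁻¹ ∈ M) (hoddM : Odd (Nat.card M)) : M = ⊥ := by
  classical
  have h2 := char_ne_two_of_odd D.hodd
  set ν : F := (D.multC g : F) with hν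
  haveI hfact : Fact (∀ r : F, r ^ 2 ≠ ν + 0 * r) := ⟨fun r hr => by
    apply hns
    rw [← isSquare_val_iff]
    refine ⟨r, ?_⟩
    change ν = r * r
    linear_combination -hr⟩
  have hgg : ∀ v, ap g (ap g v) = ν • v := by
    intro v
    rw [← ap_mul, hg, ap_scalC]
  letI := modK hgg
  haveI := modK_tower hgg
  have hom : ∀ v, om ν v = ap g v := modK_om hgg
  have hq : OmSim ν Q := fun v => by
    rw [hom]
    exact Q_ap D g v
  have h2K := two_ne_KK (ν := ν) h2
  haveI : Finite (KK ν) := Finite.of_equiv _ (QuadraticAlgebra.equivProd ν 0).symm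
  haveI : FiniteDimensional (KK ν) (ι → F) := Module.Finite.of_restrictScalars_finite F (KK ν) (ι → F)
  have hfin : finrank (KK ν) (ι → F) = n := by
    have h3 := finrank_KK (F := F) (ν := ν) (V := ι → F)
    rw [Module.finrank_fintype_fun_eq_card, D.hcard] at h3
    omega
  have hn4 : n ≠ 4 := by
    rintro rfl
    exact absurd hodd (by decide)
  have hle : Cg (Q := Q) g ≤ CgK ν Q := by
    intro t ht v
    rw [hom, hom]
    exact ht v
  have hle' : CgK ν Q ≤ Cg (Q := Q) g := by
    intro t ht v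
    rw [← hom, ← hom]
    exact ht v
  have hQK := nondeg_QK hq h2 D.hQ
  let ρ : Cg (Q := Q) g →* OG (QK hq) := (rhoK hq h2 D.hQ).comp (Subgroup.inclusion hle)
  rw [eq_bot_iff]
  intro y hy
  obtain ⟨t, rfl, htC, m, hm, htm⟩ := exists_odd_lift D g hMfix hoddM hy
  obtain ⟨a, ha, hat⟩ := block_scalar D g hQK h2K (by omega) (by omega) ρ
    (fun s c hc hs => ⟨algebraMap F (KK ν) c, by rw [← map_mul, hc, map_one], fun y => by
      change ((s : OG Q) : (ι → F) ≃ₗ[F] (ι → F)) y = _
      rw [hs, algebraMap_smul]⟩)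
    (fun σ hσ => by
      have hpow := lift_K hq h2 D.hQ (ringChar_nsmul (F := F)) hσ
      refine ⟨⟨toFK hq h2 σ, hle' (toFK_mem hq h2 σ)⟩, rhoK_toFK hq h2 D.hQ σ, mem_E_of_odd D _ (odd_ringChar D) hpow⟩)
    hMfix hMn hoddM ⟨t, htC⟩ t.2 hy
  -- the scalar is one
  have hpow : ∀ j : ℕ, ∀ v, (((t ^ j : siegelE Q) : OG Q) : (ι → F) ≃ₗ[F] (ι → F)) v = a ^ j • v := by
    intro j
    induction j with
    | zero =>
      intro v
      simp
    | succ j ih =>
      intro v
      have e1 : (((t ^ (j + 1) : siegelE Q) : OG Q) : (ι → F) ≃ₗ[F] (ι → F)) v =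
          (((t ^ j : siegelE Q) : OG Q) : (ι → F) ≃ₗ[F] (ι → F)) (((t : OG Q) : (ι → F) ≃ₗ[F] (ι → F)) v) := by
        rw [pow_succ]
        rfl
      have e2 : ((t : OG Q) : (ι → F) ≃ₗ[F] (ι → F)) v = a • v := hat v
      rw [e1, e2, ih (a • v), smul_smul, pow_succ]
  have hv0 : D.fr.e₁ ≠ 0 := D.fr.h₁.ne_zero_left
  have ham : a ^ m = 1 := by
    have h5 := hpow m D.fr.e₁
    rw [htm] at h5
    have h6 : D.fr.e₁ = a ^ m • D.fr.e₁ := h5
    have h7 : (a ^ m - 1) • D.fr.e₁ = 0 := by
      rw [sub_smul, one_smul, ← h6, sub_self]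
    have h8 := (smul_eq_zero.1 h7).resolve_right hv0
    exact sub_eq_zero.1 h8
  have ha1 := eq_one_of_odd_pow' ha hm ham
  have h5 : t = 1 := by
    apply Subtype.ext
    apply Subtype.ext
    ext v
    have e2 : ((t : OG Q) : (ι → F) ≃ₗ[F] (ι → F)) v = a • v := hat v
    rw [e2, ha1, one_smul]
    rfl
  rw [h5, map_one]
  exact one_mem _

/-- Type II: automorphisms fixing the fixed points. -/
theorem hB_II (hΓ : gammaPOmega F f = ⊤) (hns : ¬ IsSquare (D.multC g)) (hg : g * g = D.scalC (D.multC g)) (hn : 4 ≤ n)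
    (hodd : Odd n) (β : MulAut (POmega F f)) (hβo : Odd (orderOf β)) (hβf : ∀ k ∈ fixP (psiO f g), β k = k) : β = 1 := by
  classical
  have h2 := char_ne_two_of_odd D.hodd
  set ν : F := (D.multC g : F) with hν
  haveI hfact : Fact (∀ r : F, r ^ 2 ≠ ν + 0 * r) := ⟨fun r hr => by
    apply hns
    rw [← isSquare_val_iff]
    refine ⟨r, ?_⟩
    change ν = r * r
    linear_combination -hr⟩
  have hgg : ∀ v, ap g (ap g v) = ν • v := by
    intro v
    rw [← ap_mul, hg, ap_scalC]
  letI := modK hgg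
  haveI := modK_tower hgg
  have hom : ∀ v, om ν v = ap g v := modK_om hgg
  have hq : OmSim ν Q := fun v => by
    rw [hom]
    exact Q_ap D g v
  have h2K := two_ne_KK (ν := ν) h2
  haveI : Finite (KK ν) := Finite.of_equiv _ (QuadraticAlgebra.equivProd ν 0).symm
  haveI : FiniteDimensional (KK ν) (ι → F) := Module.Finite.of_restrictScalars_finite F (KK ν) (ι → F)
  have hfin : finrank (KK ν) (ι → F) = n := by
    have h3 := finrank_KK (F := F) (ν := ν) (V := ι → F)
    rw [Module.finrank_fintype_fun_eq_card, D.hcard] at h3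
    omega
  have hn5 : 5 ≤ n := by
    rcases hodd with ⟨l, rfl⟩
    omega
  have hle' : CgK ν Q ≤ Cg (Q := Q) g := by
    intro t ht v
    rw [← hom, ← hom]
    exact ht v
  have hQK := nondeg_QK hq h2 D.hQ
  obtain ⟨G, τ, h, rfl⟩ := gs_range β (by rw [hΓ]; trivial)
  let S : (ι → F) →+ (ι → F) := AddMonoidHom.mk' (phi G τ) (phi_add G τ)
  have hS : ∀ v, S v = phi G τ v := fun _ => rfl
  have hinj : Function.Injective S := phi_injective G τ
  have hline : ∀ u ∈ (⊤ : Submodule (KK ν) (ι → F)), QK hq u = 0 → ∀ c : KK ν, ∃ c' : KK ν, S (c • u) = c' • u := by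
    intro u _ hQu c
    by_cases hu0 : u = 0
    · refine ⟨0, ?_⟩
      rw [hu0, smul_zero, smul_zero, map_zero]
    obtain ⟨v, hv, huv⟩ := exists_singular_partner hQK hQu hu0
    obtain ⟨w, hw1, hw2, hw⟩ := exists_nonsingular_perp hQK hQu hv huv (by omega)
    have huw : polar (QK hq) u w = 0 := by
      rw [polar_comm]
      exact hw1
    set σ := siegel hQK hQu huw with hσ
    have hσm : σ ∈ siegelSet (QK hq) := ⟨_, _, siegel_isSiegel hQK hQu huw⟩
    have hpow := lift_K hq h2 D.hQ (ringChar_nsmul (F := F)) hσm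
    set t : siegelE Q := ⟨toFK hq h2 σ, mem_E_of_odd D _ (odd_ringChar D) hpow⟩ with ht
    have htC : (t : OG Q) ∈ Cg g := hle' (toFK_mem hq h2 σ)
    have hfix : gs h (pE D t) = pE D t := hβf _ (fix_of_comm D g htC)
    have hpow' : t ^ ringChar F = 1 := by
      apply Subtype.ext
      exact hpow
    have hcomm := phi_comm_of_fix D h t (odd_ringChar D) hpow' hfix
    obtain ⟨y₀, hy₀⟩ := hQK u hu0
    obtain ⟨y, hy⟩ : ∃ y, polar (QK hq) y u = 1 := ⟨(polar (QK hq) u y₀)⁻¹ • y₀, by
      rw [polar_smul_l, polar_comm (QK hq) y₀ u, inv_mul_cancel₀ hy₀]⟩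
    exact line_of_comm S h2K hQu huw hw (fun v => hcomm v) hy c
  obtain ⟨e₁, f₁, e₂, f₂, h₁, h₂, h3, h4, h5, h6⟩ := exists_two_pairs hQK h2K (by omega)
  obtain ⟨hτ, l, hl⟩ := scalar_on_block (k := KK ν) (F := F) S hinj τ (fun c v => phi_smul G τ c v) ⊤ hline trivial trivial trivial trivial
    h₁ h₂ h3 h4 h5 h6
  have hτ' : τ = RingEquiv.refl F := RingEquiv.ext hτ
  subst hτ'
  set g₁ : CO f := ⟨G, mem_CO_of_semisim h⟩ with hg₁
  have hβ : gs h = psiO f g₁ := gs_eq_dl' h
  have hap : ∀ v, ap g₁ v = l.re • v + l.im • ap g v := by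
    intro v
    have h7 := hl v trivial
    rw [smul_decomp, hom] at h7
    exact h7
  -- the similarity relation
  have hpol : ∀ u v, polar Q (ap g u) v = polar Q u (ap g v) := by
    intro u v
    rw [← hom, ← hom]
    exact polar_om_adj hq u v
  set a := l.re with ha
  set b := l.im with hb
  set c : F := (D.multC g₁ : F) with hc
  have hrel : ∀ u, (a ^ 2 + b ^ 2 * ν - c) • u + (2 * a * b) • ap g u = 0 := by
    intro u
    by_contra hne
    obtain ⟨v, hv⟩ := D.hQ _ hne
    apply hv
    have h7 := polar_ap D g₁ u v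
    rw [hap, hap] at h7
    have h8 := polar_ap D g u v
    simp only [polar_add_left, polar_add_right, polar_smul_l, polar_smul_r, hpol u v] at h7
    rw [h8] at h7
    simp only [polar_add_left, polar_smul_l]
    rw [hpol u v]
    linear_combination h7
  have hab : a * b = 0 := by
    by_contra hne
    have h2ab : 2 * a * b ≠ 0 := by
      rw [mul_assoc]
      exact mul_ne_zero h2 hne
    set κ : F := -(a ^ 2 + b ^ 2 * ν - c) / (2 * a * b) with hκ
    have hgu : ∀ u, ap g u = κ • u := by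
      intro u
      have h7 := hrel u
      have h8 : ap g u = (2 * a * b)⁻¹ • ((2 * a * b) • ap g u) := by
        rw [smul_smul, inv_mul_cancel₀ h2ab, one_smul]
      rw [h8, eq_neg_of_add_eq_zero_right h7, smul_neg, ← neg_smul, smul_smul, hκ]
      congr 1
      field_simp
    have h7 := hgg D.fr.e₁
    rw [hgu, hgu, smul_smul] at h7
    have h8 : (κ * κ - ν) • D.fr.e₁ = 0 := by
      rw [sub_smul, h7, sub_self]
    have h9 := (smul_eq_zero.1 h8).resolve_right D.fr.h₁.ne_zero_left
    apply hns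
    rw [← isSquare_val_iff]
    refine ⟨κ, ?_⟩
    change ν = κ * κ
    linear_combination -h9
  rcases mul_eq_zero.1 hab with ha0 | hb0
  · -- `β` is the involution itself
    have hb0' : b ≠ 0 := by
      intro hb0
      have h7 := hap D.fr.e₁
      rw [ha0, hb0, zero_smul, zero_smul, add_zero] at h7
      apply D.fr.h₁.ne_zero_left
      have h8 : (g₁ : GL ι F).1 *ᵥ D.fr.e₁ = 0 := h7
      have h9 := Matrix.mulVec_injective_iff_isUnit.2 (g₁ : GL ι F).isUnit
      apply h9
      rw [h8]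
      simp
    have hgb : ∀ v, ap g₁ v = ap (D.scalC (Units.mk0 b hb0') * g) v := by
      intro v
      rw [hap, ha0, zero_smul, zero_add, ap_mul, ap_scalC]
      rfl
    have hg₁e := ext_ap hgb
    rw [hβ, hg₁e, map_mul, D.psiO_scalC, one_mul] at hβo ⊢
    have h7 : (psiO f g) ^ 2 = 1 := by
      rw [pow_two, ← map_mul, hg, D.psiO_scalC]
    have h8 := orderOf_dvd_of_pow_eq_one h7
    have h9 : orderOf (psiO f g) = 1 := by
      rcases (Nat.dvd_prime Nat.prime_two).1 h8 with h10 | h10
      · exact h10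
      · rw [h10] at hβo
        exact absurd hβo (by decide)
    exact orderOf_eq_one_iff.1 h9
  · -- `β` is trivial
    obtain ⟨k, hk⟩ := D.eq_scalC g₁ (l := a) (fun v => by
      have h7 := hap v
      rw [hb0, zero_smul, add_zero] at h7
      exact h7)
    rw [hβ, hk, D.psiO_scalC]

end typeII

end Cfsg.Agent.Lib.BalMinus
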