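import Mathlib
import Cfsg.Agent.Lib.BalMinus.TypeII
import Cfsg.Agent.Lib.AutPOm.FieldAt
import Cfsg.Agent.Lib.AutPOm.LangMinus

/-!
# The `p'`-core criterion for a field automorphism of prime order, at a single automorphism of the field
-/

set_option autoImplicit false
set_option linter.unusedSectionVars false
set_option linter.unusedVariables false
set_option linter.unusedSimpArgs false
set_option linter.style.haveILetI false

namespace Cfsg.Agent.Lib.BalMinus

open Module QuadraticMap Cfsg.Agent.Lib.OrthoBasic Cfsg.Agent.Lib.OrthoSiegel Cfsg.Agent.Lib.OrthoGen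
  Cfsg.Agent.Lib.OrthoFinal Cfsg.Agent.Lib.PgoPsi Cfsg.Agent.Lib.PgoGroup Cfsg.Agent.Lib.GammaCount
  Cfsg.Agent.Lib.Hilbert90 Cfsg.Agent.Lib.QuadFF Cfsg.Agent.Lib.QuadClass Cfsg.Agent.Lib.OrthoCount
  Cfsg.Agent.Lib.OrthoChar Cfsg.Agent.Lib.OrthoIndex Cfsg.Agent.Lib.AutPOm Cfsg.Agent.Lib.PgoParity
  Cfsg.Agent.Lib.OrthoOrder Cfsg.Agent.Lib.PgoClass Cfsg.Agent.Lib.AutOrthOut Cfsg.Agent.Lib.PgoSim
  Cfsg.Agent.Lib.PgoSim.Data Cfsg.Agent.Lib.PgoGraphInv Cfsg.Agent.Lib.PgoInndiag Cfsg.Agent.Lib.AutOrth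
  Cfsg.Agent.Lib.OrthoSimple
open Cfsg Matrix

variable {ι : Type} [Fintype ι] [DecidableEq ι] {F₀ F : Type*} [Field F₀] [Field F]
  {j : F₀ →+* F} {σ : F ≃+* F} {f₀ : (ι → F₀) → F₀} {f : (ι → F) → F}
  {q₀ : QuadraticForm F₀ (ι → F₀)} {q : QuadraticForm F (ι → F)}

section

variable (B : BC j σ f₀ f q₀ q)

include B

variable [Fintype F₀] [Fintype F]

/-- The field automorphism fixes the rational elements. -/
lemma fb_fO (hI : InvAt f σ) (x : POmega F₀ f₀) : fb hI (fO B x) = fO B x := by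
  induction x using QuotientGroup.induction_on with
  | H s =>
  rw [fO_mk]
  apply gs_mk
  rw [omegaMap_coe, act_apply]
  simp only [one_mul, inv_one, mul_one]
  exact (glMap_glJ B.fix _).symm

/-- Similarities commuting with the field automorphism are rational, up to scalars. -/
lemma exists_rational_CO' (hI : InvAt f σ) {r : ℕ} (hr : 0 < r) (hord : orderOf σ = r) (u : CO f)
    (hu : Commute (dl u) (fb hI)) : ∃ u₀ : CO f₀, dl (mapCO B.comp B.S₀.hf B.S.hf u₀) = dl u := by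
  have hne := nonempty_of_sys B.S
  obtain ⟨c, hc⟩ := (commute_dl_fb_iff hI B.S u).1 hu
  obtain ⟨d, hd⟩ := exists_fixed_of_commute hr hord hc
  obtain ⟨u₀, hu₀⟩ := exists_glJ_of_fixed B.ran hd
  have hu₀CO : u₀ ∈ CO f₀ := B.mem_CO_of_glJ (by
    rw [hu₀]
    exact (CO f).mul_mem (sc_mem_CO B.S d) u.2)
  refine ⟨⟨u₀, hu₀CO⟩, ?_⟩
  have hk : mapCO B.comp B.S₀.hf B.S.hf ⟨u₀, hu₀CO⟩ = scO B.S d * u := Subtype.ext hu₀
  rw [hk, dl_mul, dl_scO, one_mul]

lemma fix_commute' (hI : InvAt f σ) {k : POmega F f} (hk : fb hI k = k) (s : Omega F f) (hs : (s : POmega F f) = k) :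
    Commute (dl (omCO s)) (fb hI) := by
  rw [dl_omCO, hs]
  have h1 := conj_conj_aut (fb hI) k
  rw [hk] at h1
  change MulAut.conj k * fb hI = fb hI * MulAut.conj k
  calc MulAut.conj k * fb hI = (fb hI * MulAut.conj k * (fb hI)⁻¹) * fb hI := by rw [h1]
    _ = fb hI * MulAut.conj k := by group

/-- Fixed points normalise the rational elements. -/
lemma fix_normalises' (hI : InvAt f σ) {r : ℕ} (hr : 0 < r) (hord : orderOf σ = r) {k e : POmega F f}
    (hk : fb hI k = k) (he : e ∈ (fO B).range) : k * e * k⁻¹ ∈ (fO B).range := by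
  obtain ⟨s, rfl⟩ := QuotientGroup.mk_surjective k
  obtain ⟨x, rfl⟩ := he
  obtain ⟨u₀, hu₀⟩ := exists_rational_CO' B hI hr hord (omCO s) (fix_commute' B hI hk s rfl)
  refine ⟨dl u₀ x, ?_⟩
  rw [← dl_fO, hu₀, dl_omCO]
  rfl

/-- Automorphisms centralising the rational part are field automorphisms. -/
theorem cent_lemma_at (hI₀ : ∀ τ : F ≃+* F, (∀ t, τ (j t) = j t) → InvAt f τ) (hΓ : gammaPOmega F f = ⊤)
    (β : MulAut (POmega F f)) (hβ : ∀ x, β (fO B x) = fO B x) :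
    ∃ (τ : F ≃+* F) (hτ : InvAt f τ), β = fb hτ ∧ ∀ t, τ (j t) = j t := by
  have hne := nonempty_of_sys B.S
  obtain ⟨G, τ, h, rfl⟩ := gs_range β (by rw [hΓ]; trivial)
  have hτj := tau_fix_rat B h hβ
  have hI := hI₀ τ hτj
  refine ⟨τ, hI, ?_, hτj⟩
  have hfixv : ∀ v : ι → F₀, sv τ (mapV j v) = mapV j v := by
    intro v
    funext i
    exact hτj _
  obtain ⟨c, hc⟩ := mem_CO_of_semisim_at hI h
  have hzsim : ∀ v, q (glEquiv G v) = (c : F) * q v := by
    intro v
    rw [← B.S.hf, ← B.S.hf]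
    exact hc v
  obtain ⟨l, hl⟩ := scalar_of_points_rat B (glEquiv G) hzsim (fun e₀ he he0 => by
    obtain ⟨k, hk⟩ := phi_point_rat B h hβ he he0
    refine ⟨k, ?_⟩
    rw [phi, hfixv] at hk
    exact hk)
  have hl0 : l ≠ 0 := by
    rintro rfl
    obtain ⟨fr⟩ := B.S.fr
    have h1 := hl fr.e₁
    rw [zero_smul] at h1
    exact fr.h₁.ne_zero_left ((glEquiv G).map_eq_zero_iff.1 h1)
  have hG : G = sc (Units.mk0 l hl0) := by
    apply Units.ext
    ext s t
    have := congrFun (hl (Pi.single t 1)) s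
    have e : (glEquiv G) (Pi.single t 1) = (G : Matrix ι ι F) *ᵥ Pi.single t 1 := rfl
    rw [e] at this
    simp only [Matrix.mulVec_single, MulOpposite.op_one, one_smul, Matrix.col_apply, Pi.smul_apply, smul_eq_mul] at this
    rw [this, sc_coe]
    simp [Matrix.scalar_apply, Matrix.diagonal_apply, Pi.single_apply]
  rw [gs_eq_dl_fb hI h]
  have h1 : dl ⟨G, mem_CO_of_semisim_at hI h⟩ = 1 := (dl_eq_one_iff B.S _).2 ⟨_, hG⟩
  rw [h1, one_mul]

lemma glMap_mem_iso_at (hI : InvAt f σ) {s : GL ι F} (hs : s ∈ isometryGroup F f) : glMap σ s ∈ isometryGroup F f := by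
  rw [mem_iso_iff]
  intro v
  have h1 := hI (((s : GL ι F) : Matrix ι ι F) *ᵥ sv σ.symm v)
  rw [sv_mulVec, sv_symm', (mem_iso_iff f _).1 hs, ← hI, sv_symm'] at h1
  exact h1

lemma exists_order_p_at (hI : InvAt f σ) {r : ℕ} (hr : 0 < r) (hord : orderOf σ = r) {p : ℕ} [hp : Fact p.Prime]
    (hdvd : p ∣ Nat.card (fixP (fb hI))) : ∃ e ∈ (fO B).range, orderOf e = p := by
  classical
  have hne := nonempty_of_sys B.S
  by_cases hp2 : p = 2
  · subst hp2
    obtain ⟨x, hx⟩ := exists_invol B.S₀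
    refine ⟨fO B x, ⟨x, rfl⟩, ?_⟩
    rw [orderOf_injective _ (fO_injective B)]
    exact hx
  · haveI : Fintype (fixP (fb hI)) := Fintype.ofFinite _
    rw [Nat.card_eq_fintype_card] at hdvd
    obtain ⟨k, hk⟩ := exists_prime_orderOf_dvd_card p hdvd
    have hk1 : orderOf (k : POmega F f) = p := by
      rw [Subgroup.orderOf_coe, hk]
    obtain ⟨s, hs⟩ := QuotientGroup.mk_surjective (k : POmega F f)
    have hcomm := fix_commute' B hI (σ := σ) k.2 s hs
    obtain ⟨c, hc⟩ := (commute_dl_fb_iff hI B.S (omCO s)).1 hcomm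
    rw [omCO_coe] at hc
    set s₁ : GL ι F := ((s : isometryGroup F f) : GL ι F) with hs₁
    have hs₁iso : s₁ ∈ isometryGroup F f := (s : isometryGroup F f).2
    have hcc : c * c = 1 := by
      apply sq_of_scalar_iso B.S
      have e1 : (sc c : GL ι F) = glMap σ s₁ * s₁⁻¹ := by
        rw [hc]
        group
      rw [e1]
      exact (isometryGroup F f).mul_mem (glMap_mem_iso_at B hI hs₁iso) ((isometryGroup F f).inv_mem hs₁iso)
    have hfix : glMap σ (s₁ * s₁) = s₁ * s₁ := by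
      rw [map_mul, hc]
      calc sc c * s₁ * (sc c * s₁) = sc c * (s₁ * sc c) * s₁ := by group
        _ = sc c * (sc c * s₁) * s₁ := by rw [sc_comm c s₁]
        _ = sc (c * c) * (s₁ * s₁) := by rw [sc_mul]; group
        _ = s₁ * s₁ := by rw [hcc, sc_one, one_mul]
    obtain ⟨u₀, hu₀⟩ := exists_glJ_of_fixed B.ran hfix
    have hu₀iso : u₀ ∈ isometryGroup F₀ f₀ := by
      rw [mem_iso_iff]
      intro v
      rw [B.S₀.hf, B.S₀.hf]
      apply isom_of_glJ B.comp
      intro w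
      rw [hu₀, ← B.S.hf, ← B.S.hf]
      exact (mem_iso_iff f _).1 ((isometryGroup F f).mul_mem hs₁iso hs₁iso) w
    obtain ⟨fr₀⟩ := B.S₀.fr
    have hsq := (sq_mem_E B.S₀.hQ B.S₀.hgen fr₀ (isoOG f₀ q₀ B.S₀.hf ⟨u₀, hu₀iso⟩)).1
    rw [← map_mul] at hsq
    have hE₀ := omega_eq_E B.S₀.hQ B.S₀.hgen fr₀
    have hmem := (mem_omega_iff f₀ q₀ B.S₀.hf hE₀ _).2 hsq
    refine ⟨(k : POmega F f) ^ 4, ⟨((⟨_, hmem⟩ : Omega F₀ f₀) : POmega F₀ f₀), ?_⟩, ?_⟩
    · rw [fO_mk, ← hs, ← QuotientGroup.mk_pow]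
      congr 1
      apply Subtype.ext
      apply Subtype.ext
      rw [omegaMap_coe]
      change glJ j (u₀ * u₀) = s₁ ^ 4
      rw [map_mul, hu₀]
      simp only [pow_succ, pow_zero, one_mul, mul_assoc]
    · rw [Nat.Coprime.orderOf_pow, hk1]
      rw [hk1]
      exact Nat.Coprime.pow_right 2 ((Nat.coprime_primes hp.out Nat.prime_two).2 hp2)

/-- The criterion for a standard field automorphism of prime order. -/
theorem bal_std_at (hI₀ : ∀ τ : F ≃+* F, (∀ t, τ (j t) = j t) → InvAt f τ) (hI : InvAt f σ) (hΓ : gammaPOmega F f = ⊤)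
    (hs₀ : IsSimpleGroup (POmega F₀ f₀)) (hK : IsSimpleGroup (POmega F f)) {p : ℕ} [hp : Fact p.Prime] (hord : orderOf σ = p)
    (A : Subgroup (MulAut (POmega F f))) (hinn : ∀ k : POmega F f, MulAut.conj k ∈ A) :
    (∃ N : Subgroup ↥(A ⊓ Subgroup.centralizer {(fb hI : MulAut (POmega F f))}), N.Normal ∧ (Nat.card N).Coprime p ∧ N ≠ ⊥) ↔
      Nat.Coprime p (Nat.card (fixP (fb hI))) := by
  apply bal_abstract (center_POmega_bot B.S hK) _ A hinn (fO B).range
  · rintro _ ⟨x, rfl⟩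
    exact fb_fO B hI x
  · intro k hk e he
    exact fix_normalises' B hI hp.out.pos hord hk he
  · intro M hM
    have hN : (M.comap (fO B)).Normal := by
      constructor
      intro n hn g
      rw [Subgroup.mem_comap] at hn ⊢
      rw [map_mul, map_mul, map_inv]
      exact hM _ ⟨g, rfl⟩ _ hn
    rcases hN.eq_bot_or_eq_top with h | h
    · left
      rintro a ha ⟨x, rfl⟩
      have : x ∈ M.comap (fO B) := ha
      rw [h] at this
      rw [Subgroup.mem_bot.1 this, map_one]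
    · right
      rintro _ ⟨x, rfl⟩
      have : x ∈ M.comap (fO B) := by
        rw [h]
        trivial
      exact this
  · intro h
    exact exists_order_p_at B hI hp.out.pos hord h
  · intro h0
    obtain ⟨x, hx⟩ := exists_invol B.S₀
    have h1 : fO B x ∈ (fO B).range := ⟨x, rfl⟩
    rw [h0, Subgroup.mem_bot] at h1
    have h2 : x = 1 := fO_injective B (by rw [h1, map_one])
    rw [h2, orderOf_one] at hx
    exact absurd hx (by decide)
  · intro β hβ
    obtain ⟨τ, hτ, rfl, hτj⟩ := cent_lemma_at B hI₀ hΓ β (fun x => hβ _ ⟨x, rfl⟩)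
    have h3 := pow_eq_one_of_fix' σ τ hord (fun a ha => by
      obtain ⟨x, rfl⟩ := B.ran a ha
      exact hτj x)
    rw [fb_pow]
    have e : fb (hτ.pow p) = fb (invAt_one (f := f)) := by
      unfold fb
      apply gs_congr
      rw [h3]
    rw [e, fb_one]

end

end Cfsg.Agent.Lib.BalMinus
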