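import Mathlib
import Cfsg.Agent.Lib.BalMinus.Std

/-!
# Graph involutions: no odd normal subgroups in the centraliser
-/

set_option autoImplicit false
set_option linter.unusedSectionVars false
set_option linter.unusedVariables false
set_option linter.unusedSimpArgs false
set_option linter.style.haveILetI false

namespace Cfsg.Agent.Lib.BalMinus

open Module QuadraticMap Cfsg.Agent.Lib.OrthoBasic Cfsg.Agent.Lib.OrthoSiegel Cfsg.Agent.Lib.OrthoGen
  Cfsg.Agent.Lib.OrthoFinal Cfsg.Agent.Lib.PgoPsi Cfsg.Agent.Lib.PgoGroup Cfsg.Agent.Lib.GammaCount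
  Cfsg.Agent.Lib.Hilbert90 Cfsg.Agent.Lib.QuadFF Cfsg.Agent.Lib.QuadClass Cfsg.Agent.Lib.OrthoCount
  Cfsg.Agent.Lib.OrthoChar Cfsg.Agent.Lib.OrthoIndex Cfsg.Agent.Lib.AutPOm Cfsg.Agent.Lib.PgoParity
  Cfsg.Agent.Lib.OrthoOrder Cfsg.Agent.Lib.PgoClass Cfsg.Agent.Lib.AutOrthOut Cfsg.Agent.Lib.PgoSim
  Cfsg.Agent.Lib.PgoSim.Data Cfsg.Agent.Lib.PgoGraphInv Cfsg.Agent.Lib.PgoInndiag Cfsg.Agent.Lib.AutOrth
  Cfsg.Agent.Lib.OrthoSimple
open Cfsg Matrix

variable {F : Type*} [Field F] [Fintype F] {ι : Type} [Fintype ι] [DecidableEq ι]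
  {f : (ι → F) → F} {Q : QuadraticForm F (ι → F)} {n : ℕ}

/-- A graph element whose square is scalar: odd normal subgroups of the centraliser are trivial. -/
theorem no_odd_core (D : Data f Q n) (hΓ : gammaPOmega F f = ⊤) (hcent : Subgroup.center (POmega F f) = ⊥) (hn : 4 ≤ n)
    (g : CO f) (hδ : D.delta g = -1) {l : Fˣ} (hg : g * g = D.scalC l)
    (A : Subgroup (MulAut (POmega F f))) (hinn : ∀ k : POmega F f, MulAut.conj k ∈ A)
    {x : MulAut (POmega F f)} (hx : x = psiO f g)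
    (N : Subgroup ↥(A ⊓ Subgroup.centralizer {x})) (hN : N.Normal)
    (hcop : (Nat.card N).Coprime 2) : N = ⊥ := by
  classical
  haveI : Finite (POmega F f) := inferInstance
  rcases classify D g hδ hg with ⟨e, hee, he1, he2, hδe⟩ | ⟨hodd, hns, hg'⟩
  · rw [← hee] at hx
    subst hx
    have h2 := char_ne_two_of_odd D.hodd
    obtain ⟨hd1, hd2⟩ := odd_finrank D he1 he2 hδe
    have hsum := Submodule.finrank_add_eq_of_isCompl (isCompl_eigen he2 h2)
    have hfr : finrank F (ι → F) = 2 * n := by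
      rw [Module.finrank_fintype_fun_eq_card, D.hcard]
    obtain ⟨ε, hε, hdim⟩ : ∃ ε : F, ε * ε = 1 ∧ 5 ≤ finrank F (eigen e ε) := by
      by_cases h5 : 5 ≤ finrank F (eigen e (1 : F))
      · exact ⟨1, one_mul 1, h5⟩
      · refine ⟨-1, by ring, ?_⟩
        obtain ⟨k, hk⟩ := hd1
        obtain ⟨k', hk'⟩ := hd2
        omega
    refine no_core hcent _ A hinn ?_ ?_ N hN hcop
    · intro M hMfix hMn hoddM
      exact hA_I D he1 he2 hδe M hMfix hMn hoddM
    · intro β hβc hβo hβf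
      exact hB_I D he1 he2 hΓ hcent hε hdim β hβc hβo hβf
  · subst hx
    refine no_core hcent _ A hinn ?_ ?_ N hN hcop
    · intro M hMfix hMn hoddM
      exact hA_II D hns hg' (by omega) hodd M hMfix hMn hoddM
    · intro β hβc hβo hβf
      exact Or.inl (hB_II D hΓ hns hg' hn hodd β hβo hβf)

end Cfsg.Agent.Lib.BalMinus
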