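import Mathlib
import Cfsg.Agent.Lib.BalMinus.Graph

/-!
# No semisimilarity with automorphism of order two squares to a scalar: the discriminant
-/

set_option autoImplicit false
set_option linter.unusedSectionVars false
set_option linter.unusedVariables false
set_option linter.unusedSimpArgs false
set_option linter.style.haveILetI false

namespace Cfsg.Agent.Lib.BalMinus

open Module QuadraticMap Cfsg.Agent.Lib.OrthoBasic Cfsg.Agent.Lib.OrthoSiegel Cfsg.Agent.Lib.OrthoGen
  Cfsg.Agent.Lib.OrthoFinal Cfsg.Agent.Lib.PgoPsi Cfsg.Agent.Lib.PgoGroup Cfsg.Agent.Lib.GammaCount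
  Cfsg.Agent.Lib.Hilbert90 Cfsg.Agent.Lib.QuadFF Cfsg.Agent.Lib.QuadClass Cfsg.Agent.Lib.OrthoCount
  Cfsg.Agent.Lib.OrthoChar Cfsg.Agent.Lib.OrthoIndex Cfsg.Agent.Lib.AutPOm Cfsg.Agent.Lib.PgoParity
  Cfsg.Agent.Lib.OrthoOrder Cfsg.Agent.Lib.PgoClass Cfsg.Agent.Lib.AutOrthOut Cfsg.Agent.Lib.PgoSim
  Cfsg.Agent.Lib.PgoSim.Data Cfsg.Agent.Lib.PgoGraphInv Cfsg.Agent.Lib.PgoInndiag Cfsg.Agent.Lib.AutOrth
  Cfsg.Agent.Lib.OrthoSimple
open Cfsg Matrix

section disc

variable {F : Type*} [Field F] {m : ℕ}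

/-- The hyperbolic block. -/
def hypM (m : ℕ) : Matrix (Fin m ⊕ Fin m) (Fin m ⊕ Fin m) F := Matrix.fromBlocks 0 1 1 0

/-- The Gram matrix of the polar form of the minus form. -/
def gramM (m : ℕ) (a b : F) : Matrix (Ix m) (Ix m) F :=
  Matrix.fromBlocks (hypM m) 0 0 !![2, a; a, 2 * b]

lemma gram_mulVec_ll (a b : F) (v : Ix m → F) (i : Fin m) :
    (gramM m a b *ᵥ v) (Sum.inl (Sum.inl i)) = v (Sum.inl (Sum.inr i)) := by
  simp [gramM, hypM, Matrix.mulVec, dotProduct, Fintype.sum_sum_type, Matrix.one_apply]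

lemma gram_mulVec_lr (a b : F) (v : Ix m → F) (i : Fin m) :
    (gramM m a b *ᵥ v) (Sum.inl (Sum.inr i)) = v (Sum.inl (Sum.inl i)) := by
  simp [gramM, hypM, Matrix.mulVec, dotProduct, Fintype.sum_sum_type, Matrix.one_apply]

lemma gram_mulVec_0 (a b : F) (v : Ix m → F) :
    (gramM m a b *ᵥ v) (Sum.inr 0) = 2 * v (Sum.inr 0) + a * v (Sum.inr 1) := by
  simp [gramM, hypM, Matrix.mulVec, dotProduct, Fintype.sum_sum_type, Fin.sum_univ_two]

lemma gram_mulVec_1 (a b : F) (v : Ix m → F) :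
    (gramM m a b *ᵥ v) (Sum.inr 1) = a * v (Sum.inr 0) + 2 * b * v (Sum.inr 1) := by
  simp [gramM, hypM, Matrix.mulVec, dotProduct, Fintype.sum_sum_type, Fin.sum_univ_two]

lemma polar_gram (a b : F) (u v : Ix m → F) :
    quadFormMinus m F a b (u + v) - quadFormMinus m F a b u - quadFormMinus m F a b v = u ⬝ᵥ (gramM m a b *ᵥ v) := by
  have h1 : u ⬝ᵥ (gramM m a b *ᵥ v) = (∑ i : Fin m, u (Sum.inl (Sum.inl i)) * v (Sum.inl (Sum.inr i))) +
      (∑ i : Fin m, u (Sum.inl (Sum.inr i)) * v (Sum.inl (Sum.inl i))) +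
      (u (Sum.inr 0) * (2 * v (Sum.inr 0) + a * v (Sum.inr 1)) + u (Sum.inr 1) * (a * v (Sum.inr 0) + 2 * b * v (Sum.inr 1))) := by
    simp only [dotProduct, Fintype.sum_sum_type, Fin.sum_univ_two, gram_mulVec_ll, gram_mulVec_lr, gram_mulVec_0, gram_mulVec_1]
  rw [h1]
  have h2 : (∑ i : Fin m, (u + v) (Sum.inl (Sum.inl i)) * (u + v) (Sum.inl (Sum.inr i))) =
      (∑ i : Fin m, u (Sum.inl (Sum.inl i)) * u (Sum.inl (Sum.inr i))) +
      (∑ i : Fin m, u (Sum.inl (Sum.inl i)) * v (Sum.inl (Sum.inr i))) +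
      (∑ i : Fin m, u (Sum.inl (Sum.inr i)) * v (Sum.inl (Sum.inl i))) +
      (∑ i : Fin m, v (Sum.inl (Sum.inl i)) * v (Sum.inl (Sum.inr i))) := by
    simp only [← Finset.sum_add_distrib]
    refine Finset.sum_congr rfl fun i _ => ?_
    simp only [Pi.add_apply]
    ring
  simp only [quadFormMinus]
  rw [h2]
  simp only [Pi.add_apply]
  ring

lemma det_gram (a b : F) : (gramM m a b).det = (hypM (F := F) m).det * (4 * b - a ^ 2) := by
  unfold gramM
  rw [Matrix.det_fromBlocks_zero₂₁, Matrix.det_fin_two_of]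
  ring

lemma det_hyp_sq : (hypM (F := F) m).det ^ 2 = 1 := by
  have h : hypM (F := F) m * hypM m = 1 := by
    rw [hypM, Matrix.fromBlocks_multiply]
    simp
  have h2 := congrArg Matrix.det h
  rw [Matrix.det_mul, Matrix.det_one] at h2
  rw [_root_.sq]
  exact h2

lemma dot_col {ι : Type} [Fintype ι] [DecidableEq ι] (G M : Matrix ι ι F) (i j : ι) :
    (G *ᵥ Pi.single i 1) ⬝ᵥ (M *ᵥ (G *ᵥ Pi.single j 1)) = (G.transpose * M * G) i j := by
  have e : ∀ x, G *ᵥ Pi.single x 1 = fun k => G k x := by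
    intro x
    funext k
    simp [Matrix.mulVec, dotProduct, Pi.single_apply]
  rw [e, e]
  simp only [Matrix.mul_apply, Matrix.transpose_apply, dotProduct, Matrix.mulVec, Finset.mul_sum, Finset.sum_mul]
  rw [Finset.sum_comm]
  refine Finset.sum_congr rfl fun l _ => Finset.sum_congr rfl fun k _ => ?_
  ring

/-- A fixed element of an automorphism of order two is a square. -/
lemma isSquare_of_fixed [Fintype F] {τ : F ≃+* F} (hord : orderOf τ = 2) {δ : F} (hδ : τ δ = δ) : IsSquare δ := by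
  by_contra hns
  refine Cfsg.Agent.Lib.FieldPOm.no_aniso_of_two hord (a := 0) (b := -δ) (map_zero τ) (by rw [map_neg, hδ]) ?_
  intro z₁ z₂ h
  have hz₂ : z₂ = 0 := by
    by_contra hz
    apply hns
    refine ⟨z₁ / z₂, ?_⟩
    field_simp
    linear_combination -h
  refine ⟨?_, hz₂⟩
  subst hz₂
  simpa using h

/-- The non-square discriminant of an anisotropic binary form. -/
lemma not_isSquare_disc (h2 : (2 : F) ≠ 0) {a b : F}
    (hab : ∀ z₁ z₂ : F, z₁ ^ 2 + a * z₁ * z₂ + b * z₂ ^ 2 = 0 → z₁ = 0 ∧ z₂ = 0) : ¬ IsSquare (a ^ 2 - 4 * b) := by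
  rintro ⟨s, hs⟩
  have h := hab ((s - a) / 2) 1 (by
    field_simp
    linear_combination (-1 : F) * hs)
  exact one_ne_zero h.2

/-- The polar relation for a semisimilarity. -/
lemma gram_semisim {a b : F} {τ : F ≃+* F} {G : GL (Ix m) F} {c : Fˣ}
    (hc : ∀ v : Ix m → F, quadFormMinus m F a b ((G : Matrix (Ix m) (Ix m) F) *ᵥ (fun i => τ (v i))) = (c : F) * τ (quadFormMinus m F a b v)) :
    (G : Matrix (Ix m) (Ix m) F).transpose * gramM m a b * (G : Matrix (Ix m) (Ix m) F) = (c : F) • (gramM m a b).map τ := by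
  ext i j
  have h1 := polar_gram a b ((G : Matrix (Ix m) (Ix m) F) *ᵥ Pi.single i 1) ((G : Matrix (Ix m) (Ix m) F) *ᵥ Pi.single j 1)
  rw [dot_col] at h1
  rw [← h1]
  have hs : ∀ x : Ix m, (fun k => τ ((Pi.single x 1 : Ix m → F) k)) = Pi.single x 1 := by
    intro x
    funext k
    by_cases hk : k = x
    · subst hk
      simp
    · simp [Pi.single_eq_of_ne hk]
  have hsadd : (fun k => τ ((Pi.single i 1 + Pi.single j 1 : Ix m → F) k)) = Pi.single i 1 + Pi.single j 1 := by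
    funext k
    have h3 := congrFun (hs i) k
    have h4 := congrFun (hs j) k
    simp only [Pi.add_apply, map_add]
    rw [h3, h4]
  have h5 := hc (Pi.single i 1)
  have h6 := hc (Pi.single j 1)
  have h7 := hc (Pi.single i 1 + Pi.single j 1)
  rw [hs] at h5 h6
  rw [hsadd, Matrix.mulVec_add] at h7
  rw [h7, h5, h6]
  have h8 := polar_gram a b (Pi.single i 1 : Ix m → F) (Pi.single j 1)
  have h9 : (Pi.single i 1 : Ix m → F) ⬝ᵥ (gramM m a b *ᵥ Pi.single j 1) = gramM m a b i j := by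
    simp [Matrix.mulVec, dotProduct, Pi.single_apply]
  rw [h9] at h8
  simp only [Matrix.smul_apply, Matrix.map_apply, smul_eq_mul]
  rw [← h8]
  simp only [map_sub]
  ring

/-- No semisimilarity with an automorphism of order two has a scalar square, in odd characteristic. -/
theorem no_semisim_two [Fintype F] (h2 : (2 : F) ≠ 0) (hm : 2 ≤ m) {a b : F}
    (hab : ∀ z₁ z₂ : F, z₁ ^ 2 + a * z₁ * z₂ + b * z₂ ^ 2 = 0 → z₁ = 0 ∧ z₂ = 0)
    {τ : F ≃+* F} (hord : orderOf τ = 2) {G : GL (Ix m) F} (h : IsSemisimilarityPair (quadFormMinus m F a b) G τ)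
    (hy : gs h * gs h = 1) : False := by
  classical
  have S := sys_minus hm hab
  have hττ : τ.trans τ = RingEquiv.refl F := by
    have h1 : τ ^ 2 = 1 := by
      rw [← hord]
      exact pow_orderOf_eq_one τ
    rw [_root_.sq] at h1
    exact h1
  have hτ2 : ∀ x, τ (τ x) = x := fun x => RingEquiv.congr_fun hττ x
  rw [gs_mul] at hy
  obtain ⟨d, hd⟩ := scalar_of_gs_eq_one S _ hττ hy
  obtain ⟨c, hc⟩ := h
  have hc' := gram_semisim hc
  set M := gramM m a b with hM
  set Δ := M.det with hΔ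
  have hΔe : Δ = (hypM m).det * (4 * b - a ^ 2) := det_gram a b
  have hH := det_hyp_sq (F := F) (m := m)
  have hdisc := not_isSquare_disc h2 hab
  have hδ0 : a ^ 2 - 4 * b ≠ 0 := by
    intro h0
    apply hdisc
    rw [h0]
    exact ⟨0, by ring⟩
  have hH0 : (hypM (F := F) m).det ≠ 0 := by
    intro h0
    rw [h0] at hH
    simp at hH
  have hΔ0 : Δ ≠ 0 := by
    rw [hΔe]
    refine mul_ne_zero hH0 ?_
    intro h0
    apply hδ0
    linear_combination -h0
  set n := m + 1 with hn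
  have hcard : Fintype.card (Ix m) = 2 * n := by
    simp [hn]
    ring
  -- the determinant relation
  have hdet : (G : Matrix (Ix m) (Ix m) F).det ^ 2 * Δ = (c : F) ^ (2 * n) * τ Δ := by
    have h3 := congrArg Matrix.det hc'
    rw [Matrix.det_mul, Matrix.det_mul, Matrix.det_transpose, Matrix.det_smul, hcard] at h3
    have h4 : (M.map τ).det = τ Δ := by
      rw [hΔ, RingEquiv.map_det]
      rfl
    rw [h4] at h3
    rw [← h3]
    ring
  -- the multiplier
  have hdG : (G : Matrix (Ix m) (Ix m) F) * (G : Matrix (Ix m) (Ix m) F).map τ = Matrix.scalar (Ix m) (d : F) := by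
    have h3 := congrArg (fun x : GL (Ix m) F => (x : Matrix (Ix m) (Ix m) F)) hd
    exact h3
  have hdm : (c : F) * τ (c : F) = (d : F) ^ 2 := by
    obtain ⟨v, hv⟩ := Sys.exists_value S
    have hv' : quadFormMinus m F a b v ≠ 0 := by
      rw [S.hf]
      exact hv
    have h3 := hc ((G : Matrix (Ix m) (Ix m) F) *ᵥ (sv τ v))
    have h4 := hc v
    have hsτ : ∀ u : Ix m → F, sv τ (sv τ u) = u := by
      intro u
      funext i
      exact hτ2 _
    change quadFormMinus m F a b ((G : Matrix (Ix m) (Ix m) F) *ᵥ sv τ ((G : Matrix (Ix m) (Ix m) F) *ᵥ (sv τ v))) = _ at h3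
    have h6 : Matrix.scalar (Ix m) (d : F) *ᵥ v = (d : F) • v := by
      funext i
      simp [Matrix.scalar_apply, Matrix.mulVec_diagonal]
    rw [sv_mulVec, hsτ, Matrix.mulVec_mulVec, hdG, h6, S.hf, QuadraticMap.map_smul, ← S.hf] at h3
    change quadFormMinus m F a b _ = _ at h4
    have h7 : quadFormMinus m F a b ((G : Matrix (Ix m) (Ix m) F) *ᵥ sv τ v) = (c : F) * τ (quadFormMinus m F a b v) := h4
    rw [h7, map_mul, hτ2, smul_eq_mul] at h3
    apply mul_right_cancel₀ hv'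
    linear_combination -h3
  have hGG : (G : Matrix (Ix m) (Ix m) F).det * τ (G : Matrix (Ix m) (Ix m) F).det = (d : F) ^ (2 * n) := by
    have h3 := congrArg Matrix.det hdG
    rw [Matrix.det_mul, Matrix.scalar_apply, Matrix.det_diagonal, Finset.prod_const, Finset.card_univ, hcard] at h3
    rw [← h3, RingEquiv.map_det]
    rfl
  set δG := (G : Matrix (Ix m) (Ix m) F).det with hδG
  have hG0 : δG ≠ 0 := (Matrix.GeneralLinearGroup.det G).ne_zero
  set w : F := (c : F) ^ n / δG with hw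
  have hw1 : w ^ 2 * τ Δ = Δ := by
    rw [hw]
    have e : (c : F) ^ (2 * n) = ((c : F) ^ n) ^ 2 := by ring
    rw [e] at hdet
    field_simp
    linear_combination -hdet
  have hw2 : w * τ w = 1 := by
    have hτG : τ δG ≠ 0 := (map_ne_zero τ).2 hG0
    rw [hw, map_div₀, map_pow]
    have e : ((c : F) * τ (c : F)) ^ n = (d : F) ^ (2 * n) := by
      rw [hdm]
      ring
    rw [← hGG] at e
    rw [mul_pow] at e
    field_simp
    linear_combination e
  obtain ⟨y, hy0, hy1⟩ := exists_of_pnorm_eq_one τ (r := 2) (by norm_num) hord (c := w) (by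
    simp [pnorm, Finset.prod_range_succ]
    exact hw2)
  have hfix : τ (Δ / y ^ 2) = Δ / y ^ 2 := by
    have hτy : τ y ≠ 0 := (map_ne_zero τ).2 hy0
    rw [map_div₀, map_pow]
    rw [div_eq_div_iff (pow_ne_zero _ hτy) (pow_ne_zero _ hy0)]
    linear_combination (τ y) ^ 2 * hw1 - τ Δ * (w * τ y + y) * hy1
  obtain ⟨s, hs⟩ := isSquare_of_fixed hord hfix
  have hHfix : τ (-(hypM (F := F) m).det) = -(hypM (F := F) m).det := by
    have h3 : ((hypM (F := F) m).det - 1) * ((hypM (F := F) m).det + 1) = 0 := by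
      linear_combination hH
    rcases mul_eq_zero.1 h3 with h4 | h4
    · have h5 : (hypM (F := F) m).det = 1 := sub_eq_zero.1 h4
      rw [h5]
      simp
    · have h5 : (hypM (F := F) m).det = -1 := eq_neg_of_add_eq_zero_left h4
      rw [h5]
      simp
  obtain ⟨t, ht⟩ := isSquare_of_fixed hord hHfix
  apply hdisc
  refine ⟨t * (s * y), ?_⟩
  have hΔy : Δ = s * s * y ^ 2 := by
    rw [← hs]
    field_simp
  have e1 : a ^ 2 - 4 * b = (-(hypM (F := F) m).det) * Δ := by
    rw [hΔe]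
    linear_combination (a ^ 2 - 4 * b) * (-hH)
  rw [e1, ht, hΔy]
  ring

end disc

end Cfsg.Agent.Lib.BalMinus
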