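import Mathlib
import Cfsg.Agent.Lib.BalMinus.Disc

/-!
# Transport of semisimilarities along isometries of forms; the field automorphisms of odd prime order
-/

set_option autoImplicit false
set_option linter.unusedSectionVars false
set_option linter.unusedVariables false
set_option linter.unusedSimpArgs false
set_option linter.style.haveILetI false

namespace Cfsg.Agent.Lib.BalMinus

open Module QuadraticMap Cfsg.Agent.Lib.OrthoBasic Cfsg.Agent.Lib.OrthoSiegel Cfsg.Agent.Lib.OrthoGen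
  Cfsg.Agent.Lib.OrthoFinal Cfsg.Agent.Lib.PgoPsi Cfsg.Agent.Lib.PgoGroup Cfsg.Agent.Lib.GammaCount
  Cfsg.Agent.Lib.Hilbert90 Cfsg.Agent.Lib.QuadFF Cfsg.Agent.Lib.QuadClass Cfsg.Agent.Lib.OrthoCount
  Cfsg.Agent.Lib.OrthoChar Cfsg.Agent.Lib.OrthoIndex Cfsg.Agent.Lib.AutPOm Cfsg.Agent.Lib.PgoParity
  Cfsg.Agent.Lib.OrthoOrder Cfsg.Agent.Lib.PgoClass Cfsg.Agent.Lib.AutOrthOut Cfsg.Agent.Lib.PgoSim
  Cfsg.Agent.Lib.PgoSim.Data Cfsg.Agent.Lib.PgoGraphInv Cfsg.Agent.Lib.PgoInndiag Cfsg.Agent.Lib.AutOrth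
  Cfsg.Agent.Lib.OrthoSimple Cfsg.Agent.Lib.FieldPOm
open Cfsg Matrix

section transport

variable {ι : Type} [Fintype ι] [DecidableEq ι] {F : Type*} [Field F] {f f' : (ι → F) → F}
  {P : (ι → F) ≃ₗ[F] (ι → F)}

/-- The matrix of a linear automorphism. -/
noncomputable def pG (P : (ι → F) ≃ₗ[F] (ι → F)) : GL ι F := glEquiv.symm P

lemma pG_mulVec (P : (ι → F) ≃ₗ[F] (ι → F)) (v : ι → F) : ((pG P : GL ι F) : Matrix ι ι F) *ᵥ v = P v := by
  have h := glEquiv_apply (pG P) v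
  rw [← h]
  simp [pG]

lemma pG_inv_mulVec (P : (ι → F) ≃ₗ[F] (ι → F)) (v : ι → F) : (((pG P)⁻¹ : GL ι F) : Matrix ι ι F) *ᵥ v = P.symm v := by
  apply P.injective
  rw [← pG_mulVec, Matrix.mulVec_mulVec, LinearEquiv.apply_symm_apply]
  have : ((pG P : GL ι F) : Matrix ι ι F) * (((pG P)⁻¹ : GL ι F) : Matrix ι ι F) = 1 := by
    rw [← Units.val_mul, mul_inv_cancel, Units.val_one]
  rw [this, Matrix.one_mulVec]

lemma cP_eq (P : (ι → F) ≃ₗ[F] (ι → F)) (g : GL ι F) : cP P g = pG P * g * (pG P)⁻¹ := by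
  apply glEquiv.injective
  ext1 w
  rw [glEquiv_apply, cP_mulVec, glEquiv_apply]
  simp only [Units.val_mul, ← Matrix.mulVec_mulVec, pG_mulVec, pG_inv_mulVec]

lemma semisim_P (hP : ∀ v, f' (P v) = f v) {G : GL ι F} {τ : F ≃+* F} (h : IsSemisimilarityPair f G τ) :
    IsSemisimilarityPair f' (pG P * G * (glMap τ (pG P))⁻¹) τ := by
  obtain ⟨c, hc⟩ := h
  refine ⟨c, fun v => ?_⟩
  have h1 : (((glMap τ (pG P))⁻¹ : GL ι F) : Matrix ι ι F) *ᵥ (fun i => τ (v i)) = sv τ (P.symm v) := by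
    rw [← pG_inv_mulVec, sv_mulVec, ← map_inv]
    rfl
  simp only [Units.val_mul, ← Matrix.mulVec_mulVec]
  rw [h1, pG_mulVec, hP]
  have h2 := hc (P.symm v)
  change f ((G : Matrix ι ι F) *ᵥ sv τ (P.symm v)) = _ at h2
  rw [h2, ← hP (P.symm v), LinearEquiv.apply_symm_apply]

/-- The transport of a semisimilarity along an isometry. -/
theorem congr_gs (hP : ∀ v, f' (P v) = f v) {G : GL ι F} {τ : F ≃+* F} (h : IsSemisimilarityPair f G τ) :
    MulAut.congr (pO hP) (gs h) = gs (semisim_P hP h) := by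
  ext y
  obtain ⟨x, rfl⟩ := (pO hP).surjective y
  rw [congr_apply_map]
  induction x using QuotientGroup.induction_on with
  | H s =>
    rw [pO_mk]
    unfold gs
    rw [psiG_mk, psiG_mk, pO_mk]
    congr 1
    apply Subtype.ext
    apply Subtype.ext
    rw [omE_coe, conjG_coe, conjG_coe, omE_coe, cP_eq, cP_eq]
    change pG P * (G * glMap τ _ * G⁻¹) * (pG P)⁻¹ = (pG P * G * (glMap τ (pG P))⁻¹) * glMap τ (pG P * _ * (pG P)⁻¹) * (pG P * G * (glMap τ (pG P))⁻¹)⁻¹
    simp only [map_mul, map_inv]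
    group

end transport

section group

variable {X Y : Type*} [Group X] [Group Y]

lemma core_congr (ψ : X ≃* Y) (p : ℕ) (A : Subgroup (MulAut X)) (x : MulAut X) :
    Cfsg.pPrimeCore p ↥(A ⊓ Subgroup.centralizer {x}) ≠ ⊥ ↔
      Cfsg.pPrimeCore p ↥(A.map (MulAut.congr ψ).toMonoidHom ⊓ Subgroup.centralizer {MulAut.congr ψ x}) ≠ ⊥ := by
  rw [core_ne_bot_iff', core_ne_bot_iff']
  obtain ⟨e⟩ := cent_map_equiv (MulAut.congr ψ) A x
  exact ⟨exists_normal_congr' e, exists_normal_congr' e.symm⟩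

lemma card_fix_congr (ψ : X ≃* Y) (x : MulAut X) : Nat.card (fixP (MulAut.congr ψ x)) = Nat.card (fixP x) := by
  symm
  apply Nat.card_congr
  refine ⟨fun k => ⟨ψ k.1, ?_⟩, fun k => ⟨ψ.symm k.1, ?_⟩, fun k => ?_, fun k => ?_⟩
  · have h4 : x k.1 = k.1 := k.2
    change MulAut.congr ψ x (ψ k.1) = ψ k.1
    rw [congr_apply_map, h4]
  · have h4 : MulAut.congr ψ x k.1 = k.1 := k.2
    change x (ψ.symm k.1) = ψ.symm k.1
    apply ψ.injective
    rw [← congr_apply_map, ψ.apply_symm_apply, h4]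
  · apply Subtype.ext
    exact ψ.symm_apply_apply _
  · apply Subtype.ext
    exact ψ.apply_symm_apply _

end group

section aniso

variable {F : Type*} [Field F] [Fintype F]

/-- There is an anisotropic binary form over a finite field. -/
lemma exists_aniso_pair : ∃ a b : F, ∀ z₁ z₂ : F, z₁ ^ 2 + a * z₁ * z₂ + b * z₂ ^ 2 = 0 → z₁ = 0 ∧ z₂ = 0 := by
  classical
  have hni : ¬ Function.Injective (fun t : F => t ^ 2 + t) := by
    intro h
    have h1 := @h 0 (-1) (by simp)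
    have h2 : (-1 : F) ≠ 0 := by simp
    exact h2 h1.symm
  have hns : ¬ Function.Surjective (fun t : F => t ^ 2 + t) := fun h => hni (Finite.injective_iff_surjective.2 h)
  simp only [Function.Surjective, not_forall, not_exists] at hns
  obtain ⟨e, he⟩ := hns
  refine ⟨1, -e, fun z₁ z₂ h => ?_⟩
  by_cases hz : z₂ = 0
  · subst hz
    refine ⟨?_, rfl⟩
    simpa using h
  · exfalso
    apply he (z₁ / z₂)
    field_simp
    linear_combination h

/-- A form over the fixed field of an automorphism of odd order stays anisotropic. -/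
lemma aniso_up {τ : F ≃+* F} {p : ℕ} (hp : Odd p) (hτ : τ ^ p = 1) {a b : F} (ha : τ a = a) (hb : τ b = b)
    (hab : ∀ z₁ z₂ : fixedF τ, z₁ ^ 2 + (⟨a, ha⟩ : fixedF τ) * z₁ * z₂ + (⟨b, hb⟩ : fixedF τ) * z₂ ^ 2 = 0 → z₁ = 0 ∧ z₂ = 0) :
    ∀ z₁ z₂ : F, z₁ ^ 2 + a * z₁ * z₂ + b * z₂ ^ 2 = 0 → z₁ = 0 ∧ z₂ = 0 := by
  intro z₁ z₂ h
  by_cases hz : z₂ = 0
  · subst hz
    refine ⟨?_, rfl⟩
    simpa using h
  · exfalso
    set r := z₁ / z₂ with hr
    have hroot : r ^ 2 + a * r + b = 0 := by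
      rw [hr]
      field_simp
      linear_combination h
    have hτroot : τ r ^ 2 + a * τ r + b = 0 := by
      have h1 := congrArg τ hroot
      simpa [ha, hb] using h1
    have h2 : (τ r - r) * (τ r + r + a) = 0 := by
      linear_combination hτroot - hroot
    have h3 : τ (τ r) = r := by
      rcases mul_eq_zero.1 h2 with h4 | h4
      · have h5 : τ r = r := sub_eq_zero.1 h4
        rw [h5, h5]
      · have h5 : τ r = -r - a := by linear_combination h4
        rw [h5, map_sub, map_neg, h5, ha]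
        ring
    have h4 : τ r = r := by
      obtain ⟨k, rfl⟩ := hp
      have h5 : ∀ l : ℕ, (τ ^ (2 * l)) r = r := by
        intro l
        induction l with
        | zero => rfl
        | succ l ih =>
          rw [Nat.mul_succ, pow_add]
          change (τ ^ (2 * l)) (τ (τ r)) = r
          rw [h3, ih]
      have h6 : (τ ^ (2 * k + 1)) r = τ r := by
        rw [pow_succ']
        change τ ((τ ^ (2 * k)) r) = τ r
        rw [h5]
      rw [← h6, hτ]
      rfl
    have h5 := hab ⟨r, h4⟩ 1 (by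
      apply Subtype.ext
      simpa using hroot)
    exact one_ne_zero h5.2

end aniso

section main

universe u

variable {F : Type u} [Field F] [Fintype F] {m : ℕ}

set_option maxHeartbeats 2000000 in
/-- The criterion for a semisimilarity with automorphism of odd prime order. -/
theorem bal_field_odd (hm : 3 ≤ m) {a b : F} (hab : ∀ z₁ z₂ : F, z₁ ^ 2 + a * z₁ * z₂ + b * z₂ ^ 2 = 0 → z₁ = 0 ∧ z₂ = 0)
    (hK : IsSimpleGroup (POmega F (quadFormMinus m F a b)))
    (A : Subgroup (MulAut (POmega F (quadFormMinus m F a b)))) (hinn : ∀ k, MulAut.conj k ∈ A)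
    {p : ℕ} [hp : Fact p.Prime] (hodd : Odd p) {G : GL (Ix m) F} {τ : F ≃+* F} (hτo : orderOf τ = p)
    (h : IsSemisimilarityPair (quadFormMinus m F a b) G τ) (hy : (gs h) ^ p = 1) :
    Cfsg.pPrimeCore p ↥(A ⊓ Subgroup.centralizer {gs h}) ≠ ⊥ ↔
      (IsFieldAutClassPOmegaMinus m (gs h) ∧ Nat.Coprime p (Nat.card ↥(MonoidHom.eqLocus (gs h).toMonoidHom (MonoidHom.id _)))) := by
  classical
  have hm2 : 2 ≤ m := by omega
  have hτ : τ ≠ RingEquiv.refl F := by
    rintro rfl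
    have h1 : orderOf (RingEquiv.refl F) = 1 := orderOf_one
    rw [h1] at hτo
    exact hp.out.one_lt.ne hτo
  have hτp : τ ^ p = 1 := by
    rw [← hτo]
    exact pow_orderOf_eq_one τ
  haveI : Fintype (fixedF τ) := Fintype.ofFinite _
  obtain ⟨a₀, b₀, hab₀⟩ := exists_aniso_pair (F := fixedF τ)
  set j := (fixedF τ).subtype with hj
  set a' : F := j a₀ with ha'
  set b' : F := j b₀ with hb'
  have ha : τ a' = a' := a₀.2
  have hb : τ b' = b' := b₀.2
  have hab' : ∀ z₁ z₂ : F, z₁ ^ 2 + a' * z₁ * z₂ + b' * z₂ ^ 2 = 0 → z₁ = 0 ∧ z₂ = 0 :=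
    aniso_up hodd hτp ha hb hab₀
  obtain ⟨e, he⟩ := exists_iso_minus hab hab' m
  set ψ := pO he with hψ
  have hc : MulAut.congr ψ (gs h) = gs (semisim_P he h) := congr_gs he h
  have hy' : (gs (semisim_P he h)) ^ p = 1 := by
    rw [← hc, ← map_pow, hy, map_one]
  obtain ⟨H, d, hHd⟩ := lang_minus hm2 hab' ha hb hp.out.pos hτo (semisim_P he h) hy'
  have hI : InvAt (quadFormMinus m F a' b') τ := invAt_minus ha hb
  have hconj := lang_conj_at hI (semisim_P he h) H hHd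
  have hfix : ∀ x : fixedF τ, τ (j x) = j x := fun x => x.2
  have hran : ∀ y, τ y = y → ∃ x, j x = y := fun y hy => ⟨⟨y, hy⟩, rfl⟩
  have B : BC j τ (quadFormMinus m (fixedF τ) a₀ b₀) (quadFormMinus m F a' b') (qMinus m a₀ b₀) (qMinus m a' b') :=
    bc_minus j hm2 hab' hfix hran
  obtain ⟨fr₀⟩ := B.S₀.fr
  have hs₀ : IsSimpleGroup (POmega (fixedF τ) (quadFormMinus m (fixedF τ) a₀ b₀)) :=
    isSimple_POmega _ _ B.S₀.hf B.S₀.hQ B.S₀.hgen fr₀
  obtain ⟨fr⟩ := B.S.fr
  have hK' : IsSimpleGroup (POmega F (quadFormMinus m F a' b')) := isSimple_POmega _ _ B.S.hf B.S.hQ B.S.hgen fr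
  have hΓ' := minus_top hm a' b' hab'
  have hI₀ : ∀ τ' : F ≃+* F, (∀ t, τ' (j t) = j t) → InvAt (quadFormMinus m F a' b') τ' :=
    fun τ' ht => invAt_minus (ht a₀) (ht b₀)
  set A' := A.map (MulAut.congr ψ).toMonoidHom with hA'
  have hinn' : ∀ k, MulAut.conj k ∈ A' := by
    intro k
    refine ⟨MulAut.conj (ψ.symm k), hinn _, ?_⟩
    change MulAut.congr ψ _ = _
    rw [congr_conj, ψ.apply_symm_apply]
  set U := dl H with hU
  have key := bal_transfer (p := p) A' hinn' U (fb hI) (fun A'' hA'' => bal_std_at B hI₀ hI hΓ' hs₀ hK' hτo A'' hA'')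
  rw [← hconj, ← hc] at key
  have hcl : IsFieldAutClassPOmegaMinus m (gs h) := by
    refine ⟨a', b', ψ.trans (U⁻¹ : MulAut _), τ, hab', hτ, ha, hb, (isFieldAut_iff' hI _).2 ?_⟩
    have hx' : MulAut.congr ψ (gs h) = U * fb hI * U⁻¹ := hc.trans hconj
    have e : fb hI = U⁻¹ * MulAut.congr ψ (gs h) * U := by
      rw [hx']
      group
    rw [e]
    ext y
    rfl
  constructor
  · intro hc'
    refine ⟨hcl, ?_⟩
    have := key.1 ((core_congr ψ p A _).1 hc')
    rwa [card_fix_congr] at this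
  · rintro ⟨-, hc'⟩
    apply (core_congr ψ p A _).2
    apply key.2
    rwa [card_fix_congr]

end main

end Cfsg.Agent.Lib.BalMinus
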